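import Cfsg.Agent.PERM.Pron.Defs

set_option autoImplicit false

namespace CL.Pron

open MulAction

variable {G : Type} [Group G] {Ω : Type} [MulAction G Ω]

theorem Pn.mono {K H H' : Subgroup G} (h : Pn K H) (hK : K ≤ H') (hH : H' ≤ H) : Pn K H' := by
  exact ⟨hK, fun g hg => h.2 g (hH hg)⟩

theorem nz_fx {K : Subgroup G} {n : G} (hn : n ∈ Subgroup.normalizer (K : Set G)) (x : Ω) :
    n • x ∈ Fx K Ω ↔ x ∈ Fx K Ω := by
  constructor
  · intro h k hk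
    have := h _ ((Subgroup.mem_normalizer_iff.1 hn k).1 hk)
    rwa [mul_smul, mul_smul, inv_smul_smul, smul_left_cancel_iff] at this
  · intro h k hk
    have := h _ ((Subgroup.mem_normalizer_iff.1 (inv_mem hn) k).1 hk)
    rwa [inv_inv, mul_smul, mul_smul, inv_smul_eq_iff] at this

/-- blocks: if `M` contains `K` and `g K g⁻¹` then the block `g F` is `w F` with `w ∈ M` -/
theorem Pn.blk {K H : Subgroup G} (h : Pn K H) {g : G} (hg : g ∈ H) {M : Subgroup G} (hKM : K ≤ M)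
    (hc : ∀ k ∈ K, g * k * g⁻¹ ∈ M) : ∃ w ∈ M, ∀ x : Ω, w⁻¹ • x ∈ Fx K Ω ↔ g⁻¹ • x ∈ Fx K Ω := by
  obtain ⟨w, hw, hn⟩ := h.2 g hg M hKM hc
  exact ⟨w, hw, fun x => by rw [← nz_fx hn (g⁻¹ • x), mul_smul, smul_inv_smul]⟩

/-- Witt's lemma -/
theorem Pn.witt {K H : Subgroup G} (h : Pn K H) {g : G} (hg : g ∈ H) {D : Set Ω}
    (hD : D ⊆ Fx K Ω) (hgD : ∀ x ∈ D, g • x ∈ Fx K Ω) :
    ∃ n ∈ H, n ∈ Subgroup.normalizer (K : Set G) ∧ ∀ x ∈ D, n • x = g • x := by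
  obtain ⟨w, hw, hn⟩ := h.2 g hg (H ⊓ Kf G ((fun x => g • x) '' D))
    (fun k hk => ⟨h.1 hk, by rintro _ ⟨x, hx, rfl⟩; exact hgD x hx k hk⟩)
    (fun k hk => ⟨H.mul_mem (H.mul_mem hg (h.1 hk)) (H.inv_mem hg), by
      rintro _ ⟨x, hx, rfl⟩
      rw [mul_smul, mul_smul, inv_smul_smul, hD hx k hk]⟩)
  exact ⟨_, H.mul_mem (H.inv_mem hw.1) hg, hn, fun x hx => by
    rw [mul_smul, inv_smul_eq_iff, hw.2 _ ⟨x, hx, rfl⟩]⟩

/-- no block contains a non-trivial orbit of `K` -/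
theorem Pn.lemN {K H : Subgroup G} (h : Pn K H) {g : G} (hg : g ∈ H) {c : Ω}
    (hc : ∀ k ∈ K, g • k • c ∈ Fx K Ω) : c ∈ Fx K Ω := by
  have fx : ∀ k ∈ K, ∀ x ∈ orb K c, (g⁻¹ * k * g⁻¹⁻¹) • x = x := by
    rintro k hk _ ⟨l, hl, rfl⟩
    rw [inv_inv, mul_smul, mul_smul, hc l hl k hk, inv_smul_smul]
  have st : ∀ k ∈ K, ∀ x ∈ orb K c, k • x ∈ orb K c := by
    rintro k hk _ ⟨l, hl, rfl⟩
    exact ⟨k * l, mul_mem hk hl, mul_smul _ _ _⟩
  obtain ⟨w, hw, e⟩ := h.blk (Ω := Ω) (inv_mem hg) (M := St G (orb K c))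
    (fun k hk x => ⟨fun hx => by simpa using st _ (inv_mem hk) _ hx, st k hk x⟩)
    (fun k hk x => ⟨fun hx => by
      have := fx _ (inv_mem hk) _ hx
      rw [← mul_smul, show g⁻¹ * k⁻¹ * g⁻¹⁻¹ * (g⁻¹ * k * g⁻¹⁻¹) = 1 by group, one_smul] at this
      rwa [this], fun hx => by rwa [fx k hk x hx]⟩)
  obtain ⟨l, hl, e'⟩ := (hw c).2 ⟨1, one_mem _, one_smul _ _⟩
  have := (e (w • c)).2 (by rw [inv_inv, ← e']; exact hc l hl)
  rwa [inv_smul_smul] at this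

theorem mem_orb_self (H : Subgroup G) (x : Ω) : x ∈ orb H x := by
  exact ⟨1, one_mem _, one_smul _ _⟩

theorem smul_mem_orb {H : Subgroup G} {x y : Ω} {h : G} (hh : h ∈ H) (hy : y ∈ orb H x) :
    h • y ∈ orb H x := by
  obtain ⟨l, hl, rfl⟩ := hy
  exact ⟨h * l, mul_mem hh hl, mul_smul _ _ _⟩

theorem orb_orb (H : Subgroup G) (x : Ω) : Orb H (orb H x) := by
  rintro _ ⟨l, hl, rfl⟩
  ext y
  constructor
  · rintro ⟨m, hm, rfl⟩
    exact ⟨m * l, mul_mem hm hl, mul_smul _ _ _⟩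
  · rintro ⟨m, hm, rfl⟩
    exact ⟨m * l⁻¹, mul_mem hm (inv_mem hl), by rw [mul_smul, inv_smul_smul]⟩

theorem df_union [Finite Ω] (K : Subgroup G) {U V : Set Ω} (h : Disjoint U V) :
    df K (U ∪ V) = df K U + df K V := by
  unfold df
  rw [Set.union_inter_distrib_right, Set.ncard_union_eq h,
    Set.ncard_union_eq (h.mono Set.inter_subset_left Set.inter_subset_left)]
  push_cast
  ring

theorem df_diff [Finite Ω] (K : Subgroup G) {U V : Set Ω} (h : V ⊆ U) :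
    df K (U \ V) = df K U - df K V := by
  have := df_union K (Set.disjoint_sdiff_left (s := V) (t := U))
  rw [Set.sdiff_union_of_subset h] at this
  omega

theorem df_sub [Finite Ω] {K : Subgroup G} {U : Set Ω} (h : U ⊆ Fx K Ω) :
    df K U = -(U.ncard : ℤ) := by
  unfold df
  rw [Set.inter_eq_left.2 h]
  ring

/-- the defect of an invariant set none of whose orbits is fixed by `K` -/
theorem df_inv [Finite Ω] {K H : Subgroup G} {n : ℕ} (ih : IH K n) (hP : Pn K H) {U : Set Ω}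
    (hU : ∀ h ∈ H, ∀ x ∈ U, h • x ∈ U) (hn : U.ncard < n)
    (hF : ∀ x ∈ U, ¬ orb H x ⊆ Fx K Ω) : 0 ≤ df K U ∧ (U.Nonempty → 1 ≤ df K U) := by
  induction hm : U.ncard using Nat.strong_induction_on generalizing U with
  | _ m IHm =>
  rcases U.eq_empty_or_nonempty with rfl | ⟨x, hx⟩
  · simp [df]
  have sub : orb H x ⊆ U := by
    rintro _ ⟨l, hl, rfl⟩
    exact hU l hl x hx
  have h1 := ih Ω H _ hP (orb_orb H x) ((Set.ncard_le_ncard sub).trans_lt hn) (hF x hx)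
  have lt : (U \ orb H x).ncard < U.ncard :=
    Set.ncard_lt_ncard ⟨Set.sdiff_subset, fun k => (k hx).2 (mem_orb_self H x)⟩
  have h2 := (IHm _ (hm ▸ lt) (U := U \ orb H x) (fun h hh y hy => ⟨hU h hh y hy.1, fun k => hy.2 (by
    simpa using smul_mem_orb (inv_mem hh) k)⟩) (lt.trans hn) (fun y hy => hF y hy.1) rfl).1
  rw [df_diff K sub] at h2
  exact ⟨by omega, fun _ => by omega⟩

theorem cl_sub {K H : Subgroup G} {O : Set Ω} {a : Ω} (ha : a ∈ Fx K Ω) :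
    cl K H O a ⊆ Fx K Ω := by
  intro x hx
  simpa using hx.2 1 (one_mem _) (by simpa using ha)

/-- an orbit of `H_a` fixed by `K` lies in `cl a` -/
theorem orb_cl {K H : Subgroup G} (hP : Pn K H) {O : Set Ω} {a x : Ω} (ha : a ∈ Fx K Ω)
    (hx : x ∈ O) (h : orb (H ⊓ stabilizer G a) x ⊆ Fx K Ω) : x ∈ cl K H O a := by
  refine ⟨hx, fun g hg hga => ?_⟩
  obtain ⟨n, hn, nK, e⟩ := hP.witt hg (D := {a}) (Set.singleton_subset_iff.2 ha) (by rintro _ rfl; exact hga)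
  have := (nz_fx nK _).2 (h ⟨n⁻¹ * g, ⟨H.mul_mem (H.inv_mem hn) hg, mem_stabilizer_iff.2 <| by
    rw [mul_smul, inv_smul_eq_iff, e a rfl]⟩, rfl⟩)
  rwa [mul_smul, smul_inv_smul] at this

end CL.Pron
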