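import Cfsg.Agent.PERM.Pron.Cnt
import Cfsg.Agent.S0711
import Cfsg.Agent.S0713

set_option autoImplicit false
set_option linter.unusedSectionVars false

namespace CL.Pron

open MulAction

variable {Y : Type} [Group Y] [Finite Y] {Φ : Type} [Finite Φ] [MulAction Y Φ]

namespace Bx

open Finset

theorem two {A : Finset Φ} [DecidableEq Φ] {p q : Φ} (hp : p ∈ A) (hq : q ∈ A) (pq : q ≠ p)
    (f : Φ → ℕ) {a b K : ℕ} (ha : f p ≤ a) (hb : f q ≤ b)
    (hK : ∀ d ∈ A, d ≠ p → d ≠ q → f d ≤ K) : ∑ d ∈ A, f d ≤ a + b + (A.card - 2) * K := by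
  have hq' : q ∈ A.erase p := mem_erase.2 ⟨pq, hq⟩
  rw [← add_sum_erase A f hp, ← add_sum_erase _ f hq']
  have := sum_le_card_nsmul ((A.erase p).erase q) f K fun d hd =>
    hK d (mem_of_mem_erase (mem_of_mem_erase hd)) (mem_erase.1 (mem_of_mem_erase hd)).1
      (mem_erase.1 hd).1
  rw [card_erase_of_mem hq', card_erase_of_mem hp, smul_eq_mul,
    show A.card - 1 - 1 = A.card - 2 by omega] at this
  rw [add_assoc]
  exact Nat.add_le_add ha (Nat.add_le_add hb this)

theorem swap [DecidableEq Φ] (S : Finset Y) (A : Finset Φ) (P : Y → Φ → Prop)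
    [∀ g d, Decidable (P g d)] :
    ∑ g ∈ S, (A.filter fun d => P g d).card = ∑ d ∈ A, (S.filter fun g => P g d).card := by
  simp only [card_filter]; exact sum_comm

theorem main [Fintype Φ] [DecidableEq Φ] (h : T4 Y Φ) {x : Y} {A : Finset Φ}
    (hA : ∀ d, d ∈ A ↔ x • d ≠ d) (h6 : 6 ≤ A.card) (hn : 2 * A.card + 4 ≤ Nat.card Φ)
    (h16 : Nat.card Φ ≠ 16)
    (mn : ∀ c : Y, (∃ d : Φ, c • d ≠ d) → A.card ≤ (univ.filter fun d : Φ => c • d ≠ d).card) :
    False := by
  classical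
  let _ := Fintype.ofFinite Y
  obtain ⟨N, N0, c4, c3, c2⟩ := cnt h (by omega)
  obtain ⟨s, hs⟩ : ∃ s, A.card = s + 6 := ⟨A.card - 6, by omega⟩
  obtain ⟨t, ht⟩ : ∃ t, Nat.card Φ = 2 * s + t + 16 := ⟨Nat.card Φ - (2 * s + 16), by omega⟩
  rw [show Nat.card Φ - 3 = 2 * s + t + 13 by omega] at c3 c2
  rw [show Nat.card Φ - 2 = 2 * s + t + 14 by omega] at c2
  have cC : Aᶜ.card = s + t + 10 := by
    rw [card_compl, ← Nat.card_eq_fintype_card]; omega
  obtain ⟨a, ha⟩ : A.Nonempty := card_pos.1 (by omega)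
  obtain ⟨u, hu⟩ : Aᶜ.Nonempty := card_pos.1 (by omega)
  have hu' := mem_compl.1 hu
  have xA : ∀ d ∈ A, x • d ∈ A := fun d hd => (hA _).2 fun e => (hA _).1 hd (smul_left_cancel x e)
  have ba : x • a ≠ a := (hA _).1 ha
  have hb := xA a ha
  have uA : ∀ d ∈ A, u ≠ d := fun d hd e => hu' (e ▸ hd)
  set S : Finset Y := univ.filter fun g : Y => g • u = a ∧ g • x • a = x • a with hS
  have mS : ∀ g, g ∈ S ↔ g • u = a ∧ g • x • a = x • a := fun g => by simp [hS]
  have cS : S.card = (2 * s + t + 14) * ((2 * s + t + 13) * N) := by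
    rw [← c2 u (x • a) a (x • a) (uA _ hb) ba.symm, ← Set.ncard_coe_finset]
    congr 1; ext g; simp [hS]
  have b3 : ∀ (T : Finset Y) (c c' : Φ), u ≠ c → x • a ≠ c → (∀ g ∈ T, g ∈ S ∧ g • c = c') →
      T.card ≤ (2 * s + t + 13) * N := by
    intro T c c' e1 e2 hT
    rcases T.eq_empty_or_nonempty with rfl | ⟨g, hg⟩
    · simp
    obtain ⟨g0, g3⟩ := hT g hg
    obtain ⟨g1, g2⟩ := (mS g).1 g0
    rw [← c3 u (x • a) c a (x • a) c' ⟨uA _ hb, e1, e2⟩ ⟨ba.symm,
      fun e => e1 (smul_left_cancel g (by rw [g1, g3, e])),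
      fun e => e2 (smul_left_cancel g (by rw [g2, g3, e]))⟩, ← Set.ncard_coe_finset]
    exact Set.ncard_le_ncard fun k hk =>
      ⟨((mS k).1 (hT k hk).1).1, ((mS k).1 (hT k hk).1).2, (hT k hk).2⟩
  have b4 : ∀ (T : Finset Y) (c d c' d' : Φ), (D4 u (x • a) c d ∨ D4 a (x • a) c' d') →
      (∀ g ∈ T, g ∈ S ∧ g • c = c' ∧ g • d = d') → T.card ≤ N := by
    intro T c d c' d' e hT
    rcases T.eq_empty_or_nonempty with rfl | ⟨g, hg⟩
    · simp
    obtain ⟨g0, g3, g4⟩ := hT g hg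
    obtain ⟨g1, g2⟩ := (mS g).1 g0
    have : D4 u (x • a) c d ↔ D4 a (x • a) c' d' := by
      have : D4 u (x • a) c d ↔ D4 (g • u) (g • x • a) (g • c) (g • d) := by
        simp only [D4, ne_eq, smul_left_cancel_iff]
      rwa [g1, g2, g3, g4] at this
    rw [← c4 u (x • a) c d a (x • a) c' d' (by tauto) (by tauto), ← Set.ncard_coe_finset]
    exact Set.ncard_le_ncard fun k hk =>
      ⟨((mS k).1 (hT k hk).1).1, ((mS k).1 (hT k hk).1).2, (hT k hk).2⟩
  set A2 := (A.erase a).erase (x • a) with hA2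
  have cA2 : A2.card = s + 4 := by
    rw [hA2, card_erase_of_mem (mem_erase.2 ⟨ba, hb⟩), card_erase_of_mem ha]; omega
  have mA2 : ∀ g ∈ S, ∀ d ∈ A, d ≠ x • a → g • d ∈ A → g • d ∈ A2 := by
    intro g hg d hd e h1
    obtain ⟨g1, g2⟩ := (mS g).1 hg
    exact mem_erase.2 ⟨fun e' => e (smul_left_cancel g (e'.trans g2.symm)), mem_erase.2
      ⟨fun e' => uA d hd (smul_left_cancel g (g1.trans e'.symm)), h1⟩⟩
  -- the first sum
  have f1 : ∀ d ∈ A, d ≠ x • a →
      (S.filter fun g => g • d ∈ A).card ≤ (2 * s + t + 13) * N * (s + 4) := by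
    intro d hd e
    rw [← cA2]
    refine card_le_mul_card_image_of_maps_to (f := fun g : Y => g • d)
      (fun g hg => mA2 g (mem_filter.1 hg).1 d hd e (mem_filter.1 hg).2) _ fun c _ => ?_
    exact b3 _ d c (uA d hd) e.symm fun g hg =>
      ⟨(mem_filter.1 (mem_filter.1 hg).1).1, (mem_filter.1 hg).2⟩
  have s1 := two ha hb ba (fun d => (S.filter fun g => g • d ∈ A).card) (f1 a ha ba.symm)
    (card_filter_le _ _) fun d hd _ e => f1 d hd e
  -- the second sum
  have s2 := two (K := N * ((s + t + 9) * (s + 5))) (b := 0) ha hb ba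
    (fun d => (S.filter fun g => g⁻¹ • d ∉ A ∧ g⁻¹ • x • d ∈ A).card) (card_filter_le _ _)
    (by
      rw [Nat.le_zero, card_eq_zero, filter_eq_empty_iff]
      intro g hg e
      refine e.1 ?_
      rw [show g⁻¹ • x • a = x • a from inv_smul_eq_iff.2 ((mS g).1 hg).2.symm]
      exact hb)
    (by
      intro d hd e1 e2
      by_cases e3 : x • d = a
      · refine le_trans (le_of_eq ?_) (Nat.zero_le _)
        rw [card_eq_zero, filter_eq_empty_iff]
        intro g hg e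
        refine hu' ?_
        rw [← show g⁻¹ • a = u from inv_smul_eq_iff.2 ((mS g).1 hg).1.symm, ← e3]
        exact e.2
      have : (Aᶜ.erase u ×ˢ A.erase (x • a)).card = (s + t + 9) * (s + 5) := by
        rw [card_product, card_erase_of_mem hu, card_erase_of_mem hb, cC, hs]; rfl
      rw [← this]
      refine card_le_mul_card_image_of_maps_to (f := fun g : Y => (g⁻¹ • d, g⁻¹ • x • d))
        (fun g hg => ?_) _ fun c _ => ?_
      · obtain ⟨g0, g3, g4⟩ := mem_filter.1 hg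
        obtain ⟨g1, g2⟩ := (mS g).1 g0
        refine mem_product.2 ⟨mem_erase.2 ⟨fun e => e1 ?_, mem_compl.2 g3⟩,
          mem_erase.2 ⟨fun e => e1 ?_, g4⟩⟩
        · exact (inv_smul_eq_iff.1 e).trans g1
        · exact smul_left_cancel x ((inv_smul_eq_iff.1 e).trans g2)
      · refine b4 _ c.1 c.2 d (x • d) (Or.inr ⟨ba.symm, e1.symm, Ne.symm e3, e2.symm,
          fun e => e1 (smul_left_cancel x e).symm, ((hA _).1 hd).symm⟩) fun g hg => ?_
        obtain ⟨g0, rfl⟩ := mem_filter.1 hg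
        exact ⟨(mem_filter.1 g0).1, smul_inv_smul _ _, smul_inv_smul _ _⟩)
  -- the third sum
  have s3 := two (K := N * ((s + t + 10) * (s + 4))) (b := 0)
    (a := (2 * s + t + 13) * N * (s + t + 10)) ha hb ba
    (fun d => (S.filter fun g => g • d ∉ A ∧ g • x • d ∈ A).card)
    (by
      rw [← cC]
      refine card_le_mul_card_image_of_maps_to (f := fun g : Y => g • a)
        (fun g hg => mem_compl.2 (mem_filter.1 hg).2.1) _ fun c _ => ?_
      exact b3 _ a c (uA a ha) ba fun g hg =>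
        ⟨(mem_filter.1 (mem_filter.1 hg).1).1, (mem_filter.1 hg).2⟩)
    (by
      rw [Nat.le_zero, card_eq_zero, filter_eq_empty_iff]
      intro g hg e
      refine e.1 ?_
      rw [((mS g).1 hg).2]
      exact hb)
    (by
      intro d hd e1 e2
      have e3 : x • d ≠ x • a := fun e => e1 (smul_left_cancel x e)
      have : (Aᶜ ×ˢ A2).card = (s + t + 10) * (s + 4) := by rw [card_product, cC, cA2]
      rw [← this]
      refine card_le_mul_card_image_of_maps_to (f := fun g : Y => (g • d, g • x • d))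
        (fun g hg => ?_) _ fun c _ => ?_
      · obtain ⟨g0, g3, g4⟩ := mem_filter.1 hg
        exact mem_product.2 ⟨mem_compl.2 g3, mA2 g g0 _ (xA d hd) e3 g4⟩
      · refine b4 _ d (x • d) c.1 c.2 (Or.inl ⟨uA _ hb, uA _ hd, uA _ (xA d hd), e2.symm,
          e3.symm, ((hA _).1 hd).symm⟩) fun g hg => ?_
        obtain ⟨g0, rfl⟩ := mem_filter.1 hg
        exact ⟨(mem_filter.1 g0).1, rfl, rfl⟩)
  -- the commutator
  have key : ∀ g ∈ S, s + 6 ≤ (A.filter fun d => g • d ∈ A).card +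
      (A.filter fun d => g⁻¹ • d ∉ A ∧ g⁻¹ • x • d ∈ A).card +
      (A.filter fun d => g • d ∉ A ∧ g • x • d ∈ A).card := by
    intro g hg
    obtain ⟨g1, g2⟩ := (mS g).1 hg
    have fx : ∀ d, d ∉ A → x • d = d := fun d hd => by_contra fun e => hd ((hA d).2 e)
    have mv : ∀ d : Φ, ((g * x * g⁻¹ * x)⁻¹ * (x * (g * x * g⁻¹))) • d = d ↔
        x • g • x • g⁻¹ • d = g • x • g⁻¹ • x • d := fun d => by
      rw [mul_smul, inv_smul_eq_iff]; simp only [mul_smul]
    have i1 : g⁻¹ • a = u := inv_smul_eq_iff.2 g1.symm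
    have i2 : g⁻¹ • x • a = x • a := inv_smul_eq_iff.2 g2.symm
    have m1 := mn ((g * x * g⁻¹ * x)⁻¹ * (x * (g * x * g⁻¹))) ⟨a, fun e => by
      rw [mv, i1, fx u hu', g1, i2] at e
      exact (hA _).1 hb (smul_left_cancel g (e.symm.trans g2.symm))⟩
    rw [← hs]
    refine m1.trans ?_
    rw [← card_image_of_injective (A.filter fun d => g • d ∈ A) (MulAction.injective g),
      ← card_image_of_injective (A.filter fun d => g • d ∉ A ∧ g • x • d ∈ A)
        (MulAction.injective g)]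
    refine le_trans (card_le_card fun d hd => ?_)
      ((card_union_le _ _).trans (Nat.add_le_add_right (card_union_le _ _) _))
    have e := (mem_filter.1 hd).2
    rw [ne_eq, mv] at e
    by_cases d1 : d ∈ A <;> by_cases d2 : g⁻¹ • d ∈ A
    · exact mem_union_left _ (mem_union_left _ (mem_image.2
        ⟨g⁻¹ • d, mem_filter.2 ⟨d2, by rwa [smul_inv_smul]⟩, smul_inv_smul _ _⟩))
    · refine mem_union_left _ (mem_union_right _ (mem_filter.2 ⟨d1, d2, by_contra fun d3 => e ?_⟩))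
      rw [fx _ d2, fx _ d3, smul_inv_smul, smul_inv_smul]
    · refine mem_union_right _ (mem_image.2 ⟨g⁻¹ • d, mem_filter.2
        ⟨d2, by rwa [smul_inv_smul], by_contra fun d3 => e ?_⟩, smul_inv_smul _ _⟩)
      rw [fx _ d1, fx _ d3]
    · exact (e (by rw [fx _ d1, fx _ d2, smul_inv_smul, fx _ d1])).elim
  have tot := card_nsmul_le_sum S _ _ key
  rw [sum_add_distrib, sum_add_distrib, swap S A fun g d => g • d ∈ A,
    swap S A fun g d => g⁻¹ • d ∉ A ∧ g⁻¹ • x • d ∈ A,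
    swap S A fun g d => g • d ∉ A ∧ g • x • d ∈ A, smul_eq_mul] at tot
  have fin := tot.trans (Nat.add_le_add (Nat.add_le_add s1 s2) s3)
  rw [cS, show A.card - 2 = s + 4 by omega] at fin
  have pos : N * 1 ≤ N * (s + t) := Nat.mul_le_mul_left _ (by omega)
  nlinarith [Nat.zero_le (N * s * s), Nat.zero_le (N * s * s * t), Nat.zero_le (N * s * t),
    Nat.zero_le (N * s * t * t), Nat.zero_le (N * t * t), Nat.zero_le (N * t), Nat.zero_le (N * s)]

end Bx

/-- **Bochert's bound** for a 4-transitive action (not necessarily faithful).  If the image does not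
contain the alternating group, `S0711` (k = 4, applied to `(MulAction.toPermHom Y Φ).range`) gives
support `≥ 6` for every `y` acting non-trivially.  Let `x` have minimal support `A`, `|A| = m ≥ 6`,
suppose `n ≥ 2m + 4`.  Fix `α ∈ A`, `β = x • α`, `u ∉ A`, `v ∈ A`, and let `g` run over the
`N₂ = (n-2)(n-3)N` elements with `g•u = α`, `g•v = β` (`cnt`); `y = g x g⁻¹`, `B = g A`.  The
commutator `(y x)⁻¹ (x y)` moves `α`, and it moves only points of `A ∩ B`, of
`{γ ∈ A \ B | x•γ ∈ B}` and of `{δ ∈ B \ A | y•δ ∈ A}`; so `m ≤` the sum `Z g` of the three sizes.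
Sum over `g` (swap the sums): first set: `γ = α`: 0, `γ = β`: `N₂`, the other `m-2`:
`(m-1)(n-3)N` each.  Second: `γ = α`: `N₂`; `γ = β` or `x•γ = α`: 0; the other `≤ m-2` (`≤ m-3` if
`x•β ≠ α`): `(n-m-1)(m-1)N` each.  Third (`δ = g•δ'`, `y•δ = g•x•δ'`, `δ' ∈ A`): `δ' = v`: 0;
`x•δ' = v`: `(n-m)(n-3)N`; the other `≤ m-2`: `(n-m)(m-2)N` each.  With `m = a+6`, `n = 2m+4+b`:
`m(n-2)(n-3) - total = a²+a²b+11a+14ab+ab²+29b+3b²-2 > 0` unless `(n,m) = (16,6)`, and there the
`m-3` version wins (gain 45).  Case `(16,6)` with `x² = 1` on `Φ`: take `g` fixing `α, β, γ ∈ A`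
(`γ ≠ α, β`) with `g•x•γ = a ∉ A`, `y = g x g⁻¹`, `c = x y` fixes `α, β`, and `c² • a ≠ a`; if
`|A ∪ B| ≤ 8`, `c` has support `≤ 6` (use `c`, `α := a` in the `m-3` count), else
`A ∩ B = {α,β,γ}` and `c²` has support `≤ 5`.  (Or: `13 ∣ |image|`, a 13-cycle, Jordan `S0713`.) -/
theorem boch [Fintype Φ] [DecidableEq Φ] (h : T4 Y Φ) (h4 : 4 ≤ Nat.card Φ) :
    (∀ σ : Equiv.Perm Φ, Equiv.Perm.sign σ = 1 → ∃ g : Y, ∀ x, g • x = σ x) ∨
    ∀ y : Y, (∃ x : Φ, y • x ≠ x) → 6 ≤ {x : Φ | y • x ≠ x}.ncard ∧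
      Nat.card Φ ≤ 2 * {x : Φ | y • x ≠ x}.ncard + 3 := by
  classical
  set G := (MulAction.toPermHom Y Φ).range with hG
  by_cases hA : alternatingGroup Φ ≤ G
  · refine Or.inl fun σ hσ => ?_
    obtain ⟨g, hg⟩ := hA (Equiv.Perm.mem_alternatingGroup.2 hσ)
    exact ⟨g, fun x => by rw [← hg]; rfl⟩
  have t4 : T4 G Φ := fun a b c d a' b' c' d' h1 h2 => by
    obtain ⟨g, hg⟩ := h a b c d a' b' c' d' h1 h2
    exact ⟨⟨MulAction.toPermHom Y Φ g, g, rfl⟩, hg⟩
  have cf := Nat.card_eq_fintype_card (α := Φ)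
  have nc : ∀ y : Y, {x : Φ | y • x ≠ x}.ncard
      = (Finset.univ.filter fun d : Φ => y • d ≠ d).card := fun y => by
    rw [← Set.ncard_coe_finset]; congr 1; ext x; simp
  have six : ∀ y : Y, (∃ x : Φ, y • x ≠ x) →
      6 ≤ (Finset.univ.filter fun d : Φ => y • d ≠ d).card := by
    rintro y ⟨x, hx⟩
    by_contra hl
    refine hA (Cfsg.Agent.S0711.result G (k := 4) (by omega) (by omega) t4.multi
      (MulAction.toPermHom Y Φ y) ⟨y, rfl⟩ (fun e => hx ?_) ?_).2
    · exact congrArg (fun σ : Equiv.Perm Φ => σ x) e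
    · exact lt_of_eq_of_lt rfl (not_le.1 hl)
  have h16 : Nat.card Φ ≠ 16 := by
    intro e
    obtain ⟨N, N0, -, c3, -⟩ := cnt t4 h4
    obtain ⟨a, b, c, ab, ac, bc⟩ : ∃ a b c : Φ, a ≠ b ∧ a ≠ c ∧ b ≠ c :=
      Fintype.two_lt_card_iff.1 (by omega)
    have := c3 a b c a b c ⟨ab, ac, bc⟩ ⟨ab, ac, bc⟩
    have d1 : 13 ∣ Nat.card G := by
      refine Dvd.dvd.trans ⟨N, ?_⟩ (Subgroup.card_subgroup_dvd_card (S3 G a b c))
      rw [e] at this
      rw [← this, ← Nat.card_coe_set_eq]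
      exact Nat.card_congr (Equiv.subtypeEquivRight fun g => mem_S3)
    have _ : Fact (Nat.Prime 13) := ⟨by norm_num⟩
    obtain ⟨g, hg⟩ := exists_prime_orderOf_dvd_card' 13 d1
    have og : orderOf (g : Equiv.Perm Φ) = 13 := by rw [Subgroup.orderOf_coe, hg]
    have cy : (g : Equiv.Perm Φ).IsCycle :=
      Equiv.Perm.isCycle_of_prime_order' (by rw [og]; norm_num) (by rw [og]; omega)
    have m2 : IsMultiplyPretransitive G Φ 2 := by
      have := t4.multi
      exact isMultiplyPretransitive_of_le (n := 4) (by omega) (by omega)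
    exact hA (Cfsg.Agent.S0713.result G (isPreprimitive_of_is_two_pretransitive m2)
      (p := 13) (by norm_num) (by omega) (by omega) cy (by rw [← cy.orderOf, og]) g.2)
  refine Or.inr fun y hy => ?_
  rw [nc]
  refine ⟨six y hy, by_contra fun hl => ?_⟩
  let _ := Fintype.ofFinite Y
  obtain ⟨x, hx, mn⟩ := Finset.exists_min_image (Finset.univ.filter fun y : Y => ∃ d : Φ, y • d ≠ d)
    (fun y => (Finset.univ.filter fun d : Φ => y • d ≠ d).card) ⟨y, by simpa using hy⟩
  have := mn y (by simpa using hy)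
  exact Bx.main h (x := x) (A := Finset.univ.filter fun d : Φ => x • d ≠ d) (fun d => by simp)
    (six x (Finset.mem_filter.1 hx).2) (by omega) h16 fun c hc => mn c (by simpa using hc)

end CL.Pron
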