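import Cfsg.Agent.PERM.Pron.Defs

set_option autoImplicit false

namespace CL.Pron

open MulAction

variable {Y : Type} [Group Y] [Finite Y] {Φ : Type} [Finite Φ] [MulAction Y Φ]

theorem Cnt.fib {α β : Type} [Finite α] [Finite β] (f : α → β) (A : Set α) (B : Set β) (N : ℕ)
    (h1 : ∀ g ∈ A, f g ∈ B) (h2 : ∀ x ∈ B, {g | g ∈ A ∧ f g = x}.ncard = N) : A.ncard = B.ncard * N := by
  classical
  have := Fintype.ofFinite α
  have := Fintype.ofFinite β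
  rw [Set.ncard_eq_toFinset_card', Set.ncard_eq_toFinset_card', Finset.card_eq_sum_card_fiberwise (f := f)
    (t := B.toFinset) (fun g hg => by simpa using h1 g (by simpa using hg)), Finset.sum_const_nat]
  intro x hx
  rw [← h2 x (by simpa using hx), Set.ncard_eq_toFinset_card']
  congr 1
  ext
  simp

theorem Cnt.ex (h4 : 4 ≤ Nat.card Φ) (a b c : Φ) : ∃ d, a ≠ d ∧ b ≠ d ∧ c ≠ d := by
  by_contra! k
  have : (Set.univ : Set Φ) ⊆ {a, b, c} := fun d _ => by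
    by_contra l
    simp only [Set.mem_insert_iff, Set.mem_singleton_iff, not_or] at l
    exact l.2.2 (k d (Ne.symm l.1) (Ne.symm l.2.1)).symm
  have h1 := Set.ncard_le_ncard this
  have h2 := Set.ncard_insert_le a ({b, c} : Set Φ)
  have h3 := Set.ncard_insert_le b ({c} : Set Φ)
  rw [Set.ncard_univ] at h1
  rw [Set.ncard_singleton] at h3
  omega

/-- **Counting in a 4-transitive group** (`n = |Φ| ≥ 4`): the number of `g` with prescribed images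
of 4, 3, 2 points.  (`N` = order of a four-point stabiliser: the solution sets are translates
`g₂ S g₁`; sum over the image of a further point.) -/
theorem cnt (h : T4 Y Φ) (h4 : 4 ≤ Nat.card Φ) : ∃ N : ℕ, 0 < N ∧
    (∀ a b c d a' b' c' d' : Φ, D4 a b c d → D4 a' b' c' d' →
      {g : Y | g • a = a' ∧ g • b = b' ∧ g • c = c' ∧ g • d = d'}.ncard = N) ∧
    (∀ a b c a' b' c' : Φ, D3 a b c → D3 a' b' c' →
      {g : Y | g • a = a' ∧ g • b = b' ∧ g • c = c'}.ncard = (Nat.card Φ - 3) * N) ∧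
    (∀ a b a' b' : Φ, a ≠ b → a' ≠ b' →
      {g : Y | g • a = a' ∧ g • b = b'}.ncard = (Nat.card Φ - 2) * ((Nat.card Φ - 3) * N)) := by
  obtain ⟨a₀⟩ : Nonempty Φ := (Nat.card_pos_iff.1 (by omega : 0 < Nat.card Φ)).1
  obtain ⟨b₀, ab, -⟩ := Cnt.ex h4 a₀ a₀ a₀
  obtain ⟨c₀, ac, bc, -⟩ := Cnt.ex h4 a₀ b₀ b₀
  obtain ⟨d₀, ad, bd, cd⟩ := Cnt.ex h4 a₀ b₀ c₀
  have D : D4 a₀ b₀ c₀ d₀ := ⟨ab, ac, ad, bc, bd, cd⟩
  set S := {g : Y | g • a₀ = a₀ ∧ g • b₀ = b₀ ∧ g • c₀ = c₀ ∧ g • d₀ = d₀} with hS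
  have k4 : ∀ a b c d a' b' c' d' : Φ, D4 a b c d → D4 a' b' c' d' →
      {g : Y | g • a = a' ∧ g • b = b' ∧ g • c = c' ∧ g • d = d'}.ncard = S.ncard := by
    intro a b c d a' b' c' d' h1 h2
    obtain ⟨s, rfl, rfl, rfl, rfl⟩ := h _ _ _ _ _ _ _ _ D h1
    obtain ⟨t, rfl, rfl, rfl, rfl⟩ := h _ _ _ _ _ _ _ _ D h2
    rw [← Set.ncard_preimage_of_injective_subset_range (s := S) (f := fun g => t⁻¹ * g * s)
      (fun x y e => by simpa using e) (fun x _ => ⟨t * x * s⁻¹, by group⟩)]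
    congr 1
    ext g
    simp [hS, mul_smul, inv_smul_eq_iff]
  have k3 : ∀ a b c a' b' c' : Φ, D3 a b c → D3 a' b' c' →
      {g : Y | g • a = a' ∧ g • b = b' ∧ g • c = c'}.ncard = (Nat.card Φ - 3) * S.ncard := by
    intro a b c a' b' c' h1 h2
    obtain ⟨d, e1, e2, e3⟩ := Cnt.ex h4 a b c
    rw [← Set.ncard_eq_three.2 ⟨a', b', c', h2.1, h2.2.1, h2.2.2, rfl⟩, ← Set.ncard_compl]
    refine Cnt.fib (· • d) _ _ _ ?_ fun x hx => ?_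
    · rintro g ⟨rfl, rfl, rfl⟩
      simp [e1.symm, e2.symm, e3.symm]
    · simp only [Set.mem_compl_iff, Set.mem_insert_iff, Set.mem_singleton_iff, not_or] at hx
      rw [← k4 a b c d a' b' c' x ⟨h1.1, h1.2.1, e1, h1.2.2, e2, e3⟩
        ⟨h2.1, h2.2.1, Ne.symm hx.1, h2.2.2, Ne.symm hx.2.1, Ne.symm hx.2.2⟩]
      simp [and_assoc]
  refine ⟨S.ncard, (Set.ncard_pos (Set.toFinite _)).2 ⟨1, by simp [hS]⟩, k4, k3, fun a b a' b' h1 h2 => ?_⟩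
  obtain ⟨d, e1, e2, -⟩ := Cnt.ex h4 a b b
  rw [← Set.ncard_pair h2, ← Set.ncard_compl]
  refine Cnt.fib (· • d) _ _ _ ?_ fun x hx => ?_
  · rintro g ⟨rfl, rfl⟩
    simp [e1.symm, e2.symm]
  · simp only [Set.mem_compl_iff, Set.mem_insert_iff, Set.mem_singleton_iff, not_or] at hx
    rw [← k3 a b d a' b' x ⟨h1, e1, e2⟩ ⟨h2, Ne.symm hx.1, Ne.symm hx.2⟩]
    simp [and_assoc]

theorem T4.t3 (h : T4 Y Φ) (h4 : 4 ≤ Nat.card Φ) : T3 Y Φ := by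
  intro a b c a' b' c' h1 h2
  obtain ⟨d, e1, e2, e3⟩ := Cnt.ex h4 a b c
  obtain ⟨d', f1, f2, f3⟩ := Cnt.ex h4 a' b' c'
  obtain ⟨g, k1, k2, k3, -⟩ := h a b c d a' b' c' d' ⟨h1.1, h1.2.1, e1, h1.2.2, e2, e3⟩
    ⟨h2.1, h2.2.1, f1, h2.2.2, f2, f3⟩
  exact ⟨g, k1, k2, k3⟩

theorem T4.t2 (h : T4 Y Φ) (h4 : 4 ≤ Nat.card Φ) {a b a' b' : Φ} (hab : a ≠ b) (hab' : a' ≠ b') :
    ∃ g : Y, g • a = a' ∧ g • b = b' := by
  obtain ⟨d, e1, e2, -⟩ := Cnt.ex h4 a b b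
  obtain ⟨d', f1, f2, -⟩ := Cnt.ex h4 a' b' b'
  obtain ⟨g, k1, k2, -⟩ := h.t3 h4 a b d a' b' d' ⟨hab, e1, e2⟩ ⟨hab', f1, f2⟩
  exact ⟨g, k1, k2⟩

theorem T4.multi (h : T4 Y Φ) : IsMultiplyPretransitive Y Φ 4 := by
  refine isMultiplyPretransitive_iff.2 fun x y => ?_
  obtain ⟨g, k⟩ := h (x 0) (x 1) (x 2) (x 3) (y 0) (y 1) (y 2) (y 3) (by simp [D4]) (by simp [D4])
  refine ⟨g, Function.Embedding.ext fun i => ?_⟩
  fin_cases i
  exacts [k.1, k.2.1, k.2.2.1, k.2.2.2]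

end CL.Pron
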