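import Cfsg.Agent.PERM.Pron.L1

set_option autoImplicit false

namespace CL.Pron

open MulAction

variable {G : Type} [Group G] {Ω : Type} [MulAction G Ω]

namespace D1

theorem inv {H : Subgroup G} {O : Set Ω} (hO : Orb H O) {h : G} (hh : h ∈ H) {x : Ω} (hx : x ∈ O) : h • x ∈ O :=
  hO x hx ▸ (⟨h, hh, rfl⟩ : h • x ∈ orb H x)

theorem tr {H : Subgroup G} {O : Set Ω} (hO : Orb H O) {x y : Ω} (hx : x ∈ O) (hy : y ∈ O) : ∃ h ∈ H, h • x = y :=
  (hO x hx).ge hy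

theorem pa {K H : Subgroup G} (hP : Pn K H) {a : Ω} (ha : a ∈ Fx K Ω) : Pn K (H ⊓ stabilizer G a) :=
  hP.mono (le_inf hP.1 ha) inf_le_left

theorem inv' {H : Subgroup G} {O : Set Ω} (hO : Orb H O) (a : Ω) :
    ∀ h ∈ H ⊓ stabilizer G a, ∀ x ∈ O \ {a}, h • x ∈ O \ {a} := fun h hh x hx =>
  ⟨inv hO hh.1 hx.1, fun e => hx.2 (MulAction.injective h (Eq.trans e (Eq.symm hh.2)))⟩

theorem sub {H : Subgroup G} {O : Set Ω} (hO : Orb H O) {a b : Ω} (hb : b ∈ O \ {a}) :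
    orb (H ⊓ stabilizer G a) b ⊆ O \ {a} := by
  rintro _ ⟨h, hh, rfl⟩
  exact inv' hO a h hh b hb

theorem dfa [Finite Ω] {K : Subgroup G} {O : Set Ω} {a : Ω} (haO : a ∈ O) (ha : a ∈ Fx K Ω) :
    df K (O \ {a}) = df K O + 1 := by
  rw [df_diff K (Set.singleton_subset_iff.2 haO), df_sub (Set.singleton_subset_iff.2 ha)]; simp

theorem aux [Finite G] [Finite Ω] {K H : Subgroup G} {n : ℕ} (ih : IH K n) (hP : Pn K H)
    {O : Set Ω} (hO : Orb H O) (hn : O.ncard ≤ n) (hF : ¬ O ⊆ Fx K Ω) (hd : df K O ≤ 1) {a : Ω} (haO : a ∈ O)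
    (ha : a ∈ Fx K Ω) {b : Ω} (hb : b ∈ O \ {a}) : ¬ orb (H ⊓ stabilizer G a) b ⊆ Fx K Ω ∧
      1 ≤ df K (orb (H ⊓ stabilizer G a) b) ∧
      (orb (H ⊓ stabilizer G a) b = O \ {a} ∨ df K (orb (H ⊓ stabilizer G a) b) ≤ df K O) := by
  have nf : ∀ x ∈ O \ {a}, ¬ orb (H ⊓ stabilizer G a) x ⊆ Fx K Ω := fun x hx c => by
    have h2 : 2 ≤ (cl K H O a).ncard :=
      (Set.one_lt_ncard (Set.toFinite _)).2 ⟨x, orb_cl hP ha hx.1 c, a, ⟨haO, fun _ _ k => k⟩, hx.2⟩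
    have := l1 ih hP hO hn hF haO ha h2
    omega
  have key : ∀ U ⊆ O \ {a}, (∀ h ∈ H ⊓ stabilizer G a, ∀ x ∈ U, h • x ∈ U) → U.Nonempty → 1 ≤ df K U :=
    fun U s hU => (df_inv ih (pa hP ha) hU (((Set.ncard_le_ncard s).trans_lt
      (Set.ncard_sdiff_singleton_lt_of_mem haO)).trans_le hn) fun x hx => nf x (s hx)).2
  refine ⟨nf b hb, key _ (sub hO hb) (fun h hh x hx => smul_mem_orb hh hx) ⟨b, mem_orb_self _ _⟩, ?_⟩
  rcases ((O \ {a}) \ orb (H ⊓ stabilizer G a) b).eq_empty_or_nonempty with e | e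
  · exact .inl ((sub hO hb).antisymm (Set.diff_eq_empty.1 e))
  · have := key _ Set.diff_subset (fun h hh x hx => ⟨inv' hO a h hh x hx.1, fun c => hx.2 (by
      simpa using smul_mem_orb (inv_mem hh) c)⟩) e
    rw [df_diff K (sub hO hb), dfa haO ha] at this
    exact .inr (by omega)

theorem shake [Finite Ω] {H : Subgroup G} {O : Set Ω} (hO : Orb H O) {a y : Ω} (haO : a ∈ O) (ay : a ≠ y) {t : G}
    (ht : t ∈ H) (ta : t • a = y) (ty : t • y = a) (od : Odd (orb (H ⊓ stabilizer G a) y).ncard) : Even O.ncard := by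
  classical
  have := Fintype.ofFinite Ω
  let Γ : SimpleGraph Ω :=
    { Adj := fun u v => ∃ h ∈ H, h • a = u ∧ h • y = v
      symm := ⟨fun u v ⟨h, hh, e, f⟩ => ⟨h * t, mul_mem hh ht, by rw [mul_smul, ta, f], by rw [mul_smul, ty, e]⟩⟩
      loopless := ⟨fun u ⟨h, _, e, f⟩ => ay (MulAction.injective h (e.trans f.symm))⟩ }
  have dg : ∀ v, Γ.degree v = (Γ.neighborSet v).ncard := fun v => by
    rw [← Γ.card_neighborSet_eq_degree, Set.ncard_eq_toFinset_card', Set.toFinset_card]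
  have := Γ.even_card_odd_degree_vertices
  rw [← Set.ncard_coe_finset] at this
  convert this
  ext v
  simp only [Finset.coe_filter, Finset.mem_univ, true_and, Set.mem_setOf_eq, dg]
  refine ⟨fun hv => ?_, fun k => ?_⟩
  · obtain ⟨g, hg, rfl⟩ := tr hO haO hv
    have : Γ.neighborSet (g • a) = (g • ·) '' orb (H ⊓ stabilizer G a) y := by
      ext w
      constructor
      · rintro ⟨h, hh, e, rfl⟩
        exact ⟨_, ⟨g⁻¹ * h, ⟨H.mul_mem (H.inv_mem hg) hh, show (g⁻¹ * h) • a = a by rw [mul_smul, e, inv_smul_smul]⟩, rfl⟩,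
          by simp [mul_smul]⟩
      · rintro ⟨_, ⟨h, hh, rfl⟩, rfl⟩
        exact ⟨g * h, mul_mem hg hh.1, by rw [mul_smul, show h • a = a from hh.2], mul_smul _ _ _⟩
    rwa [this, Set.ncard_image_of_injective _ (MulAction.injective g)]
  · obtain ⟨w, h, hh, e, -⟩ := Set.nonempty_of_ncard_ne_zero k.pos.ne'
    exact e ▸ inv hO hh haO

end D1
/-- **Defect one forces 2-transitivity.**  Strong induction on `|O|` (all `H`, `O`).
`O ∩ F ≠ ∅` (else `|O| = 1`, `O = {x}` is `K`-invariant so `x ∈ F`); take `a ∈ O ∩ F`; `|O| = 2f+1`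
and `O ⊄ F` give `|O| ≥ 3`.  By `l1`, `cl a = {a}`, so (`orb_cl`) no `H_a`-orbit on `O \ {a}` lies
in `F`; `df (O \ {a}) = 2`.  Let `O₁` be the `H_a`-orbit of some `b`, `U` the rest.  If `U = ∅`, `H`
is 2-transitive.  Else `df O₁ = df U = 1` (`df_inv`), by induction some `s ∈ H_a` swaps two points
`x ≠ y` of `O₁`; with `x = h • a`, `h⁻¹ s h` swaps `a` and `y' = h⁻¹ • y`.  The `H_a`-orbit `O₂` of
`y'` is `O₁` or `U` (else `df U ≥ 2`), so `|O₂|` is odd, and `|O|` is odd.  The relation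
`R x y := ∃ h ∈ H, h • a = x ∧ h • y' = y` is symmetric, irreflexive, of valency `|O₂|` on `O`:
`|O| |O₂|` is even (handshake, e.g. `Finset.sum_involution` in `ZMod 2`), contradiction. -/
theorem d1 [Finite G] [Finite Ω] {K H : Subgroup G} {n : ℕ} (ih : IH K n) (hP : Pn K H)
    {O : Set Ω} (hO : Orb H O) (hn : O.ncard ≤ n) (hF : ¬ O ⊆ Fx K Ω) (hd : df K O = 1) :
    3 ≤ O.ncard ∧ (O ∩ Fx K Ω).Nonempty ∧ Two H O := by
  induction' hN : O.ncard using Nat.strong_induction_on with N IN generalizing H O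
  subst hN
  have hd' := hd
  unfold df at hd'
  obtain ⟨a, haO, ha⟩ : (O ∩ Fx K Ω).Nonempty := by
    by_contra c
    rw [Set.not_nonempty_iff_eq_empty.1 c, Set.ncard_empty] at hd'
    obtain ⟨x, rfl⟩ := Set.ncard_eq_one.1 (show O.ncard = 1 by omega)
    exact hF (Set.singleton_subset_iff.2 fun k hk => D1.inv hO (hP.1 hk) rfl)
  have p := (Set.ncard_pos (Set.toFinite _)).2 (⟨a, haO, ha⟩ : (O ∩ Fx K Ω).Nonempty)
  refine ⟨by omega, ⟨a, haO, ha⟩, ?_⟩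
  by_cases c : ∃ b ∈ O \ {a}, orb (H ⊓ stabilizer G a) b = O \ {a}
  · obtain ⟨b, hb, e⟩ := c
    have k : ∀ x ∈ O, ∀ y ∈ O, x ≠ y → ∃ h ∈ H, h • a = x ∧ h • b = y := fun x hx y hy xy => by
      obtain ⟨h, hh, rfl⟩ := D1.tr hO haO hx
      obtain ⟨s, hs, f⟩ := e.ge (⟨D1.inv hO (inv_mem hh) hy, fun c => xy (inv_smul_eq_iff.1 c).symm⟩ : h⁻¹ • y ∈ O \ {a})
      exact ⟨h * s, mul_mem hh hs.1, by rw [mul_smul, show s • a = a from hs.2], by rw [mul_smul, f, smul_inv_smul]⟩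
    intro x hx y hy x' hx' y' hy' n n'
    obtain ⟨g, hg, rfl, rfl⟩ := k x hx y hy n
    obtain ⟨h, hh, rfl, rfl⟩ := k x' hx' y' hy' n'
    exact ⟨h * g⁻¹, mul_mem hh (inv_mem hg), by simp [mul_smul], by simp [mul_smul]⟩
  exfalso
  have one : ∀ b ∈ O \ {a}, df K (orb (H ⊓ stabilizer G a) b) = 1 := fun b hb => by
    obtain ⟨-, h1, h2⟩ := D1.aux ih hP hO hn hF hd.le haO ha hb
    have := h2.resolve_left fun e => c ⟨b, hb, e⟩
    omega
  obtain ⟨b, hbO, hb⟩ := Set.not_subset.1 hF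
  have hb' : b ∈ O \ {a} := ⟨hbO, fun e => hb (e ▸ ha)⟩
  have lt := (Set.ncard_le_ncard (D1.sub hO hb')).trans_lt (Set.ncard_sdiff_singleton_lt_of_mem haO)
  obtain ⟨h3, -, h2⟩ := IN _ lt (D1.pa hP ha) (orb_orb _ b) (lt.le.trans hn)
    (D1.aux ih hP hO hn hF hd.le haO ha hb').1 (one b hb') rfl
  obtain ⟨x, hx, y, hy, xy⟩ := (Set.one_lt_ncard (Set.toFinite _)).1 (lt_of_lt_of_le (by norm_num) h3)
  obtain ⟨s, hs, sx, sy⟩ := h2 x hx y hy y hy x hx xy xy.symm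
  obtain ⟨h, hh, rfl⟩ := D1.tr hO haO (D1.sub hO hb' hx).1
  have ay : a ≠ h⁻¹ • y := fun e => xy (eq_inv_smul_iff.1 e)
  have o := one (h⁻¹ • y) ⟨D1.inv hO (inv_mem hh) (D1.sub hO hb' hy).1, ay.symm⟩
  unfold df at o
  have := D1.shake hO haO ay (t := h⁻¹ * s * h) (mul_mem (mul_mem (inv_mem hh) hs.1) hh)
    (by rw [mul_smul, mul_smul, sx]) (by rw [mul_smul, mul_smul, smul_inv_smul, sy, inv_smul_smul])
    (Nat.odd_iff.2 (by omega))
  rw [Nat.even_iff] at this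
  omega

/-- **First reduction.**  `a ∈ F` exists; `l1` gives `cl a = {a}`; `df (univ \ {a}) ≤ 1`, so
`univ \ {a}` is one `G_a`-orbit (`df_inv`) of defect `1`, `n = 2 f`, and `d1` makes `G` 3-transitive
and `f ≥ 2`.  If `f = 2`, a `g` maps the two points outside `F` into `F`: `Pn.lemN` is violated. -/
theorem top_of [Finite G] [Finite Ω] {K : Subgroup G} (hP : Pn K ⊤) (ih : IH K (Nat.card Ω))
    (hO : Orb (⊤ : Subgroup G) (Set.univ : Set Ω)) (hF : ¬ (Set.univ : Set Ω) ⊆ Fx K Ω)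
    (hd : df K (Set.univ : Set Ω) ≤ 0) : Top K Ω := by
  have hd' := hd
  unfold df at hd'
  rw [Set.univ_inter, Set.ncard_univ] at hd'
  obtain ⟨b, -, hb⟩ := Set.not_subset.1 hF
  have : Nonempty Ω := ⟨b⟩
  have := Nat.card_pos (α := Ω)
  obtain ⟨a, ha⟩ := Set.nonempty_of_ncard_ne_zero (show (Fx K Ω).ncard ≠ 0 by omega)
  have hb' : b ∈ Set.univ \ {a} := ⟨trivial, fun e => hb (e ▸ ha)⟩
  obtain ⟨h0, h1, h2⟩ := D1.aux ih hP hO (Set.ncard_univ Ω).le hF (by omega) trivial ha hb'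
  have e := h2.resolve_right (by omega)
  have d := D1.dfa (K := K) (Set.mem_univ a) ha
  have c := Set.ncard_sdiff_singleton_add_one (Set.mem_univ a)
  rw [Set.ncard_univ] at c
  have o := orb_orb (⊤ ⊓ stabilizer G a) b
  rw [e] at h0 h1 o
  obtain ⟨h3, -, h4⟩ := d1 ih (D1.pa hP ha) o (by omega) h0 (by omega)
  have d0 : df K (Set.univ : Set Ω) = 0 := by omega
  unfold df at d0
  rw [Set.univ_inter, Set.ncard_univ] at d0
  have t3 : T3 G Ω := fun x y z x' y' z' p q => by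
    obtain ⟨g, -, rfl⟩ := D1.tr hO (Set.mem_univ a) (Set.mem_univ x)
    obtain ⟨h, -, rfl⟩ := D1.tr hO (Set.mem_univ a) (Set.mem_univ x')
    have m : ∀ (g : G) (y : Ω), g • a ≠ y → g⁻¹ • y ∈ Set.univ \ {a} := fun g y n =>
      ⟨trivial, fun c => n (inv_smul_eq_iff.1 c).symm⟩
    obtain ⟨s, hs, f1, f2⟩ := h4 _ (m g y p.1) _ (m g z p.2.1) _ (m h y' q.1) _ (m h z' q.2.1)
      (fun c => p.2.2 (MulAction.injective _ c)) fun c => q.2.2 (MulAction.injective _ c)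
    exact ⟨h * s * g⁻¹, by rw [mul_smul, mul_smul, inv_smul_smul, show s • a = a from hs.2],
      by rw [mul_smul, mul_smul, f1, smul_inv_smul], by rw [mul_smul, mul_smul, f2, smul_inv_smul]⟩
  refine ⟨hP, ih, by omega, t3, by_contra fun n => ?_⟩
  have cc := Set.ncard_add_ncard_compl (Fx K Ω)
  obtain ⟨p, q, pq, eF⟩ := Set.ncard_eq_two.1 (show (Fx K Ω).ncard = 2 by omega)
  obtain ⟨u, v, uv, eC⟩ := Set.ncard_eq_two.1 (show (Fx K Ω)ᶜ.ncard = 2 by omega)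
  have hp : p ∈ Fx K Ω := eF.ge (.inl rfl)
  have hq : q ∈ Fx K Ω := eF.ge (.inr rfl)
  have hu : u ∉ Fx K Ω := eC.ge (.inl rfl)
  have hv : v ∉ Fx K Ω := eC.ge (.inr rfl)
  obtain ⟨g, g1, g2, -⟩ := t3 u v p p q u ⟨uv, fun e => hu (e ▸ hp), fun e => hv (e ▸ hp)⟩
    ⟨pq, fun e => hu (e ▸ hp), fun e => hu (e ▸ hq)⟩
  refine hu (hP.lemN (Subgroup.mem_top g) fun k hk => ?_)
  have : k • u ∈ (Fx K Ω)ᶜ := fun c => hu ((nz_fx (Subgroup.le_normalizer hk) u).1 c)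
  rcases eC.le this with e | e <;> rw [e]
  exacts [g1 ▸ hp, g2 ▸ hq]

end CL.Pron
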