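import Mathlib

/-!
# Pronormal subgroups of transitive groups fix fewer than half of the points: definitions

`K` is pronormal, `F = Fx K Ω` its fixed points, the "blocks" are the translates `g⁻¹ F`.
`df K U = |U| - 2 |U ∩ F|` is the defect of a set; the theorem says `1 ≤ df K O` for an orbit `O`.
-/

set_option autoImplicit false

namespace CL.Pron

open MulAction

section
variable {Ω : Type}

/-- three distinct points -/
def D3 (a b c : Ω) : Prop := a ≠ b ∧ a ≠ c ∧ b ≠ c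

/-- four distinct points -/
def D4 (a b c d : Ω) : Prop := a ≠ b ∧ a ≠ c ∧ a ≠ d ∧ b ≠ c ∧ b ≠ d ∧ c ≠ d

end

/-- 3-transitivity -/
def T3 (G Ω : Type) [Group G] [MulAction G Ω] : Prop :=
  ∀ a b c a' b' c' : Ω, D3 a b c → D3 a' b' c' → ∃ g : G, g • a = a' ∧ g • b = b' ∧ g • c = c'

/-- 4-transitivity -/
def T4 (G Ω : Type) [Group G] [MulAction G Ω] : Prop :=
  ∀ a b c d a' b' c' d' : Ω, D4 a b c d → D4 a' b' c' d' →
    ∃ g : G, g • a = a' ∧ g • b = b' ∧ g • c = c' ∧ g • d = d'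

variable {G : Type} [Group G] {Ω : Type} [MulAction G Ω]

/-- `K` is a pronormal subgroup of `H` -/
def Pn (K H : Subgroup G) : Prop :=
  K ≤ H ∧ ∀ g ∈ H, ∀ M : Subgroup G, K ≤ M → (∀ k ∈ K, g * k * g⁻¹ ∈ M) →
    ∃ w ∈ M, w⁻¹ * g ∈ Subgroup.normalizer (K : Set G)

/-- the fixed points of `K` -/
def Fx (K : Subgroup G) (Ω : Type) [MulAction G Ω] : Set Ω := {x | ∀ k ∈ K, k • x = x}

/-- the `H`-orbit of `x` -/
def orb (H : Subgroup G) (x : Ω) : Set Ω := {y | ∃ h ∈ H, h • x = y}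

/-- `O` is empty or an `H`-orbit -/
def Orb (H : Subgroup G) (O : Set Ω) : Prop := ∀ x ∈ O, orb H x = O

/-- `H` is 2-transitive on the set `O` -/
def Two (H : Subgroup G) (O : Set Ω) : Prop :=
  ∀ x ∈ O, ∀ y ∈ O, ∀ x' ∈ O, ∀ y' ∈ O, x ≠ y → x' ≠ y' → ∃ h ∈ H, h • x = x' ∧ h • y = y'

/-- the defect `|U| - 2 |U ∩ F|` -/
noncomputable def df (K : Subgroup G) (U : Set Ω) : ℤ :=
  (U.ncard : ℤ) - 2 * ((U ∩ Fx K Ω).ncard : ℤ)

/-- the induction hypothesis: the theorem for all orbits with fewer than `n` points -/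
def IH (K : Subgroup G) (n : ℕ) : Prop :=
  ∀ (Ω : Type) [MulAction G Ω] [Finite Ω] (H : Subgroup G) (O : Set Ω),
    Pn K H → Orb H O → O.ncard < n → ¬ O ⊆ Fx K Ω → 1 ≤ df K O

/-- the points of `O` in all `H`-blocks through `a` -/
def cl (K H : Subgroup G) (O : Set Ω) (a : Ω) : Set Ω :=
  {x | x ∈ O ∧ ∀ h ∈ H, h • a ∈ Fx K Ω → h • x ∈ Fx K Ω}

/-- the stabiliser of three points -/
def S3 (G : Type) [Group G] [MulAction G Ω] (a b c : Ω) : Subgroup G :=
  stabilizer G a ⊓ stabilizer G b ⊓ stabilizer G c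

/-- the orbit of `x` under the stabiliser of `a, b, c` -/
def o4 (G : Type) [Group G] [MulAction G Ω] (a b c x : Ω) : Set Ω := orb (S3 G a b c) x

/-- a minimal counterexample, after the first reduction -/
structure Top (K : Subgroup G) (Ω : Type) [MulAction G Ω] : Prop where
  pn : Pn K ⊤
  ih : IH K (Nat.card Ω)
  half : Nat.card Ω = 2 * (Fx K Ω).ncard
  t3 : T3 G Ω
  three : 3 ≤ (Fx K Ω).ncard

/-- the setwise stabiliser `X` of `F` -/
def St (G : Type) [Group G] [MulAction G Ω] (F : Set Ω) : Subgroup G where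
  carrier := {g | ∀ x, g • x ∈ F ↔ x ∈ F}
  one_mem' := by simp
  mul_mem' := fun {a b} ha hb x => by rw [mul_smul, ha, hb]
  inv_mem' := fun {a} ha x => by rw [← ha, smul_inv_smul]

/-- the pointwise stabiliser `K₁` of `F` -/
def Kf (G : Type) [Group G] [MulAction G Ω] (F : Set Ω) : Subgroup G where
  carrier := {g | ∀ x ∈ F, g • x = x}
  one_mem' := by simp
  mul_mem' := fun {a b} ha hb x hx => by rw [mul_smul, hb x hx, ha x hx]
  inv_mem' := fun {a} ha x hx => by rw [inv_smul_eq_iff, ha x hx]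

theorem mem_St {F : Set Ω} {g : G} : g ∈ St G F ↔ ∀ x, g • x ∈ F ↔ x ∈ F := Iff.rfl

theorem mem_Kf {F : Set Ω} {g : G} : g ∈ Kf G F ↔ ∀ x ∈ F, g • x = x := Iff.rfl

theorem mem_S3 {a b c : Ω} {g : G} : g ∈ S3 G a b c ↔ g • a = a ∧ g • b = b ∧ g • c = c := by
  simp [S3, and_assoc]

/-- `X` acts on `F` -/
instance actF (F : Set Ω) : MulAction (St G F) F where
  smul g x := ⟨g.1 • x.1, (g.2 x.1).2 x.2⟩
  one_smul x := Subtype.ext (one_smul G x.1)
  mul_smul g h x := Subtype.ext (mul_smul g.1 h.1 x.1)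

theorem actF_val {F : Set Ω} (g : St G F) (x : F) : ((g • x : F) : Ω) = g.1 • x.1 := rfl

/-- the end game: `G` is 4-transitive (and faithful, finite), `F` is half of the points, no orbit
of `K₁` outside `F` lies in a block, and `X` is 4-transitive on `F` -/
structure Eg (G : Type) [Group G] [MulAction G Ω] (F : Set Ω) : Prop where
  fa : ∀ g : G, (∀ x : Ω, g • x = x) → g = 1
  t4 : T4 G Ω
  half : Nat.card Ω = 2 * F.ncard
  three : 3 ≤ F.ncard
  hN : ∀ g : G, ∀ c, c ∉ F → ∃ k ∈ Kf G F, g • k • c ∉ F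
  hW : T4 (St G F) F

/-- the subgroup `R` of the end game: `K₁` itself or its Frobenius kernel -/
structure Rk (F : Set Ω) (R : Subgroup G) : Prop where
  le : R ≤ Kf G F
  ne : R ≠ ⊥
  nm : ∀ x ∈ St G F, ∀ r ∈ R, x * r * x⁻¹ ∈ R
  sr : ∀ r ∈ R, ∀ c, c ∉ F → r • c = c → r = 1
  alt : R = Kf G F ∨ ∃ c₀, c₀ ∉ F ∧ orb (Kf G F) c₀ = orb R c₀ ∧
    ∀ c, c ∉ F → c ∉ orb (Kf G F) c₀ → ∀ k ∈ Kf G F, k • c = c → k = 1

/-- `r` preserves the fixed points of `y` outside `F` -/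
def Ps (F : Set Ω) (y r : G) : Prop := ∀ c, c ∉ F → (y • r • c = r • c ↔ y • c = c)

/-- `r` interchanges the fixed and the moved points of `y` outside `F` -/
def Ng (F : Set Ω) (y r : G) : Prop := ∀ c, c ∉ F → (y • r • c = r • c ↔ ¬ y • c = c)

/-- `y` fixes half of `F`, and outside `F` it acts as `z ∈ R` on the points it moves -/
structure Good (F : Set Ω) (R : Subgroup G) (q : ℕ) (y z : G) : Prop where
  mem : y ∈ St G F
  zR : z ∈ R
  act : ∀ c, c ∉ F → y • c ≠ c → y • c = z • c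
  pn : ∀ r ∈ R, Ps F y r ∨ Ng F y r
  pz : Ps F y z
  cm : ∀ r ∈ R, Ps F y r → r * z = z * r
  iv : ∀ r ∈ R, Ng F y r → r * z * r⁻¹ = z⁻¹
  zq : z ^ q = 1
  yq : y ^ q = 1
  half : 2 * {x | x ∈ F ∧ y • x = x}.ncard = F.ncard

end CL.Pron
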