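import Cfsg.Agent.PERM.Pron.Lf

set_option autoImplicit false

namespace CL.Pron

open MulAction

variable {G : Type} [Group G] [Finite G] {Ω : Type} [Finite Ω] [MulAction G Ω] {F : Set Ω}

namespace GoodX

omit [Finite G] [Finite Ω] in
theorem out {k : G} (hk : k ∈ Kf G F) {c : Ω} (hc : c ∉ F) : k • c ∉ F := fun h =>
  hc (by rwa [← MulAction.injective k (hk _ h)])

omit [Finite G] [Finite Ω] in
theorem cm {y k : G} {c : Ω} (hc : y • c = c) (h : y • k • c = k • c)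
    (sr : (y⁻¹ * k⁻¹ * y⁻¹⁻¹ * k) • c = c → y⁻¹ * k⁻¹ * y⁻¹⁻¹ * k = 1) : k * y = y * k := by
  have := sr (by rw [inv_inv, mul_smul, mul_smul, mul_smul, h, inv_smul_smul, inv_smul_eq_iff, hc])
  calc k * y = k * y * (y⁻¹ * k⁻¹ * y⁻¹⁻¹ * k) := by rw [this, mul_one]
    _ = y * k := by group

omit [Finite G] [Finite Ω] in
theorem img (k : G) (A : Set Ω) : ((fun c => k • c) '' A).ncard = A.ncard :=
  Set.ncard_image_of_injective _ (MulAction.injective k)

end GoodX

open GoodX in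
/-- **Structure of the pair.**  `Fix y = B = {c | g • c ∈ F}` (`Rk.le`, `Rk.sr`), `|B| = |F| = h`,
`B ≠ F`, `s = |B \ F| = |F \ B|` satisfies `6 ≤ s`, `h ≤ 2 s + 3` (`xb`).  For `c ∈ B \ F` and `k` in
a subgroup `L ∋ k` normalised by `y` and semiregular at the points of `L c`: `k • c ∈ B` iff `k`
commutes with `y`.  Let `R₀ = C_R(y) ∋ x`.  `R₀ ≠ R`: if `R = K₁` by `hN`; otherwise `B` misses the
orbit `O` of `c₀` (it is a union of `R`-orbits outside `F`, `hN`), meets each regular `K₁`-orbit in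
at most half of its points (`C_{K₁}(y) ≠ K₁` by `hN`), so `2 s ≤ h - |O| ≤ h - 5`.  Each `R`-orbit
in `Fᶜ` meets `B` in `0` or `|R₀|` points, so `s [R : R₀] ≤ h`; index `≥ 3` gives `s ≤ 3`; so the
index is 2, and an `R`-orbit missing `B` would give `2 s + |R| ≤ h`, `|R| = 2 |R₀| ≥ 4`.  So
`2 s = h`.  For `k ∈ R \ R₀` put `z = y k y⁻¹ k⁻¹ ∈ R₀`; it does not depend on `k` (`k' = k r`), so
it commutes with `R₀` (`k' = r k`), `k z k⁻¹ = z⁻¹` (`k² ∈ R₀`); every `c ∉ F` is `r • c'` with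
`c' ∈ B`, and `y • r • c' = r • c'` or `z • r • c'`.  `Ps F y r ↔ r ∈ R₀`, `Ng F y r ↔ r ∉ R₀`;
`z ^ q` fixes a point of `Fᶜ \ B`. -/
theorem Eg.good (E : Eg G F) {R : Subgroup G} (hR : Rk F R) {g y x : G} {q : ℕ}
    (hy1 : y ≠ 1) (hyq : y ^ q = 1) (hg : g * y * g⁻¹ ∈ R) (hy : y ∈ St G F) (hgF : g ∉ St G F)
    (hx : x ∈ R) (hx1 : x ≠ 1) (hxy : x * y = y * x) : ∃ z, Good F R q y z := by
  obtain ⟨B, hB⟩ : ∃ B : Set Ω, B = {c | g • c ∈ F} := ⟨_, rfl⟩
  have fix : ∀ c, y • c = c ↔ c ∈ B := by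
    intro c
    rw [hB]
    constructor
    · intro h
      by_contra n
      have := hR.sr _ hg _ n (by rw [mul_smul, mul_smul, inv_smul_smul, h])
      exact hy1 (by simpa using this)
    · intro h
      have := hR.le hg _ h
      rwa [mul_smul, mul_smul, inv_smul_smul, smul_left_cancel_iff] at this
  have cB : B.ncard = F.ncard := by
    rw [← img g B]
    congr 1
    ext c
    rw [hB]
    exact ⟨by rintro ⟨d, hd, rfl⟩; exact hd, fun h => ⟨g⁻¹ • c, by simpa using h, by simp⟩⟩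
  have eM : {x | x ∈ F ∧ y • x ≠ x} = F \ B := Set.ext fun c => and_congr_right' (not_congr (fix c))
  have eF : {x | x ∈ F ∧ y • x = x} = F ∩ B := Set.ext fun c => and_congr_right' (fix c)
  obtain ⟨s6, s3⟩ := E.xb hy (by
    by_contra n
    push Not at n
    have e : F = B := Set.eq_of_subset_of_ncard_le (fun c hc => (fix c).1 (n c hc)) cB.le
    exact hgF fun c => by
      conv_rhs => rw [e, hB]
      rfl)
  rw [eM] at s6 s3
  obtain ⟨A, hA⟩ : ∃ A, A = B \ F := ⟨_, rfl⟩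
  have c1 := Set.ncard_inter_add_ncard_diff_eq_ncard F B
  have c2 := Set.ncard_inter_add_ncard_diff_eq_ncard B F
  rw [Set.inter_comm, ← hA] at c2
  have c3 := Set.ncard_add_ncard_compl F
  have c4 := E.half
  have mA : ∀ c, c ∈ A ↔ y • c = c ∧ c ∉ F := fun c => by rw [hA, fix]; rfl
  obtain ⟨a, ha⟩ : A.Nonempty := Set.nonempty_of_ncard_ne_zero (by omega)
  obtain ⟨ya, aF⟩ := (mA a).1 ha
  have yi : y⁻¹ ∈ St G F := inv_mem hy
  have of_cm : ∀ {k : G} {c : Ω}, k * y = y * k → y • c = c → y • k • c = k • c := fun h hc => by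
    rw [← mul_smul, ← h, mul_smul, hc]
  have cmR : ∀ k ∈ R, ∀ c, c ∉ F → y • c = c → y • k • c = k • c → k * y = y * k :=
    fun k hk c hc h h' => cm h h' (hR.sr _ (R.mul_mem (hR.nm _ yi _ (R.inv_mem hk)) hk) c hc)
  have hN : ∀ c, c ∉ F → ∃ k ∈ Kf G F, y • k • c ≠ k • c := fun c hc => by
    obtain ⟨k, hk, n⟩ := E.hN g c hc
    exact ⟨k, hk, fun e => n (by have := (fix _).1 e; rwa [hB] at this)⟩
  -- `R₀ ≠ R`
  obtain ⟨k, kR, nk⟩ : ∃ k ∈ R, k * y ≠ y * k := by
    by_contra n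
    push Not at n
    obtain ⟨k, hk, nk⟩ := hN a aF
    rcases hR.alt with e | ⟨c₀, c₀F, eo, sr⟩
    · exact nk (of_cm (n k (e ▸ hk)) ya)
    have miss : ∀ c ∈ A, c ∉ orb (Kf G F) c₀ := by
      intro c hc o
      obtain ⟨yc, cF⟩ := (mA c).1 hc
      obtain ⟨l, hl, nl⟩ := hN c cF
      have o' := smul_mem_orb hl o
      rw [eo] at o o'
      rw [← orb_orb R c₀ c o] at o'
      obtain ⟨r, hr, e⟩ := o'
      exact nl (e ▸ of_cm (n r hr) yc)
    have d1 : Disjoint A ((fun c => k • c) '' A) := by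
      refine Set.disjoint_left.2 ?_
      rintro _ h ⟨c, hc, rfl⟩
      obtain ⟨yc, cF⟩ := (mA c).1 hc
      refine nk (of_cm (cm yc ((mA _).1 h).1 (sr c cF (miss c hc) _ (mul_mem (fun d hd => ?_) hk))) ya)
      rw [mul_smul, mul_smul, (Kf G F).inv_mem hk _ ((St G F).inv_mem yi d |>.2 hd), inv_inv, inv_smul_smul]
    have d2 : Disjoint (A ∪ (fun c => k • c) '' A) (orb (Kf G F) c₀) := by
      refine Set.disjoint_left.2 ?_
      rintro d (h | ⟨c, hc, rfl⟩) o
      · exact miss d h o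
      · exact miss c hc (by simpa using smul_mem_orb (inv_mem hk) o)
    have := Set.ncard_le_ncard (s := (A ∪ (fun c => k • c) '' A) ∪ orb (Kf G F) c₀) (t := Fᶜ) (by
      rintro d ((h | ⟨c, hc, rfl⟩) | ⟨l, hl, rfl⟩)
      · exact ((mA d).1 h).2
      · exact out hk ((mA c).1 hc).2
      · exact out hl c₀F)
    rw [Set.ncard_union_eq d2, Set.ncard_union_eq d1, img] at this
    have := E.orb5 c₀F
    omega
  have dj : ∀ l ∈ R, l * y ≠ y * l → Disjoint A ((fun c => l • c) '' A) := by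
    intro l hl nl
    refine Set.disjoint_left.2 ?_
    rintro _ h ⟨c, hc, rfl⟩
    obtain ⟨yc, cF⟩ := (mA c).1 hc
    exact nl (cmR l hl c cF yc ((mA _).1 h).1)
  have ninv : ∀ {l : G}, l * y ≠ y * l → l⁻¹ * y ≠ y * l⁻¹ := fun n e =>
    n (Commute.inv_left_iff.1 e)
  -- index two
  have two : ∀ u ∈ R, ∀ v ∈ R, u * y ≠ y * u → v * y ≠ y * v → Commute (u * v) y := by
    intro u hu v hv nu nv
    by_contra n
    have d1 := dj v hv nv
    have d2 : Disjoint (A ∪ (fun c => v • c) '' A) ((fun c => u⁻¹ • c) '' A) := by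
      refine Set.disjoint_union_left.2 ⟨dj _ (inv_mem hu) (ninv nu), Set.disjoint_left.2 ?_⟩
      rintro _ ⟨c, hc, rfl⟩ ⟨d, hd, e⟩
      refine Set.disjoint_left.1 (dj _ (mul_mem hu hv) n) hd ⟨c, hc, ?_⟩
      show (u * v) • c = d
      rw [mul_smul, ← inv_smul_eq_iff.1 e]
    have := Set.ncard_le_ncard (s := (A ∪ (fun c => v • c) '' A) ∪ (fun c => u⁻¹ • c) '' A) (t := Fᶜ) (by
      rintro d ((h | ⟨c, hc, rfl⟩) | ⟨c, hc, rfl⟩)
      · exact ((mA d).1 h).2
      · exact out (hR.le hv) ((mA c).1 hc).2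
      · exact out (hR.le (inv_mem hu)) ((mA c).1 hc).2)
    rw [Set.ncard_union_eq d2, Set.ncard_union_eq d1, img, img] at this
    omega
  have sub : A ∪ (fun c => k • c) '' A ⊆ Fᶜ := by
    rintro d (h | ⟨c, hc, rfl⟩)
    · exact ((mA d).1 h).2
    · exact out (hR.le kR) ((mA c).1 hc).2
  have cW := Set.ncard_diff_add_ncard_of_subset sub
  rw [Set.ncard_union_eq (dj k kR nk), img] at cW
  have cov : ∀ c, c ∉ F → c ∈ A ∪ (fun c => k • c) '' A := by
    intro c cF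
    by_contra n
    have back : ∀ r ∈ R, r • c ∉ A := by
      intro r hr h
      obtain ⟨h1, h2⟩ := (mA _).1 h
      by_cases e : r * y = y * r
      · refine n (.inl ((mA c).2 ⟨?_, cF⟩))
        simpa using of_cm (Commute.inv_left e) h1
      · refine n (.inr ⟨(k⁻¹ * r⁻¹) • r • c, (mA _).2 ⟨of_cm (two _ (inv_mem kR) _ (inv_mem hr) (ninv nk) (ninv e)) h1,
          out (hR.le (mul_mem (inv_mem kR) (inv_mem hr))) h2⟩, by simp [mul_smul]⟩)
    have inW : ∀ r ∈ R, r • c ∈ Fᶜ \ (A ∪ (fun c => k • c) '' A) := by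
      intro r hr
      refine ⟨out (hR.le hr) cF, ?_⟩
      rintro (h | ⟨d, hd, e⟩)
      · exact back r hr h
      · exact back (k⁻¹ * r) (mul_mem (inv_mem kR) hr) (by rwa [mul_smul, ← e, inv_smul_smul])
    have inj : ∀ u ∈ R, ∀ v ∈ R, u ≠ v → u • c ≠ v • c := fun u hu v hv ne e =>
      ne (inv_mul_eq_one.1 (hR.sr _ (mul_mem (inv_mem hv) hu) c cF (by rw [mul_smul, e, inv_smul_smul]))).symm
    have kx := R.mul_mem kR hx
    have nkx : k * x * y ≠ y * (k * x) := fun e => nk (by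
      rw [mul_assoc, hxy, ← mul_assoc, ← mul_assoc] at e
      exact mul_right_cancel e)
    have := (Set.three_lt_ncard_iff (Set.toFinite (Fᶜ \ (A ∪ (fun c => k • c) '' A)))).2
      ⟨_, _, _, _, inW 1 R.one_mem, inW x hx, inW k kR, inW _ kx, inj _ R.one_mem _ hx hx1.symm,
        inj _ R.one_mem _ kR (by rintro rfl; simp at nk), inj _ R.one_mem _ kx (fun e => nkx (by rw [← e]; simp)),
        inj _ hx _ kR (by rintro rfl; exact nk hxy), inj _ hx _ kx (fun e => nkx (by rw [← e, hxy])),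
        inj _ kR _ kx (by simpa using hx1)⟩
    omega
  have W0 : (Fᶜ \ (A ∪ (fun c => k • c) '' A)).ncard = 0 := by
    rw [Set.diff_eq_empty.2 (show Fᶜ ⊆ _ from fun c hc => cov c hc), Set.ncard_empty]
  have ps : ∀ r, r * y = y * r → Ps F y r := fun r e c _ => by
    rw [← mul_smul, ← e, mul_smul, smul_left_cancel_iff]
  have ng : ∀ r ∈ R, r * y ≠ y * r → Ng F y r := by
    intro r hr n c cF
    refine ⟨fun h h' => n (cmR r hr c cF h' h), fun h => ?_⟩
    rcases cov c cF with hc | ⟨d, hd, rfl⟩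
    · exact absurd ((mA c).1 hc).1 h
    · have := of_cm (two r hr k kR n nk) ((mA d).1 hd).1
      rwa [mul_smul] at this
  have ind : ∀ r ∈ R, r * y ≠ y * r → y * r * y⁻¹ * r⁻¹ = y * k * y⁻¹ * k⁻¹ := by
    intro r hr n
    have := (two _ (inv_mem kR) r hr (ninv nk) n).inv_right.eq
    calc y * r * y⁻¹ * r⁻¹ = y * k * (k⁻¹ * r * y⁻¹) * r⁻¹ := by group
      _ = _ := by rw [this]; group
  have zy : Commute (y * k * y⁻¹ * k⁻¹) y := two _ (hR.nm y hy k kR) _ (inv_mem kR) (fun e => nk (by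
    have : y * (k * y) * y⁻¹ = y * (y * k) * y⁻¹ := by
      calc y * (k * y) * y⁻¹ = y * k * y⁻¹ * y := by group
        _ = y * (y * k * y⁻¹) := e
        _ = _ := by group
    simpa using this)) (ninv nk)
  refine ⟨y * k * y⁻¹ * k⁻¹, hy, mul_mem (hR.nm y hy k kR) (inv_mem kR), fun c cF h => ?_, fun r hr => ?_,
    ps _ zy, fun r hr h => ?_, fun r hr h => ?_, ?_, hyq, by rw [eF]; omega⟩
  · rcases cov c cF with hc | ⟨d, hd, rfl⟩
    · exact absurd ((mA c).1 hc).1 h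
    · simp only [mul_smul, inv_smul_smul]
      rw [inv_smul_eq_iff.2 ((mA d).1 hd).1.symm]
  · by_cases e : r * y = y * r
    · exact .inl (ps r e)
    · exact .inr (ng r hr e)
  · have e := cmR r hr a aF ya ((h a aF).2 ya)
    have := ind (r * k) (mul_mem hr kR) fun e' => nk (by
      rw [← mul_assoc y, ← e, mul_assoc, mul_assoc] at e'
      exact mul_left_cancel e')
    calc r * (y * k * y⁻¹ * k⁻¹) = (r * y) * k * y⁻¹ * (r * k)⁻¹ * r := by group
      _ = y * (r * k) * y⁻¹ * (r * k)⁻¹ * r := by rw [e, mul_assoc y r k]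
      _ = _ := by rw [this]
  · have n : r * y ≠ y * r := fun e => (h a aF).1 (of_cm e ya) ya
    have := (two r hr r hr n n).inv_left.inv_right.eq
    rw [← ind r hr n]
    calc r * (y * r * y⁻¹ * r⁻¹) * r⁻¹ = r * y * r * (y⁻¹ * (r * r)⁻¹) := by group
      _ = _ := by rw [← this]; group
  · have w : Commute y (k * y⁻¹ * k⁻¹) := by
      have := zy.eq
      refine mul_left_cancel (a := y) ?_
      calc y * (y * (k * y⁻¹ * k⁻¹)) = y * (y * k * y⁻¹ * k⁻¹) := by group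
        _ = y * k * y⁻¹ * k⁻¹ * y := this.symm
        _ = _ := by group
    rw [show y * k * y⁻¹ * k⁻¹ = y * (k * y⁻¹ * k⁻¹) by group, w.mul_pow, hyq, conj_pow, inv_pow, hyq]
    group

end CL.Pron
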