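import Cfsg.Agent.PERM.Pron.Cnt

set_option autoImplicit false

namespace CL.Pron

open MulAction

variable {Y : Type} [Group Y] [Finite Y] {Φ : Type} [Finite Φ] [MulAction Y Φ]

/-- `y` fixes a point `u` and moves a point `α`; take `g` with `g•u = α`, `g•α = y•α`
(`T4.t2`): `y' = g y g⁻¹` fixes `α` and moves `y•α`, so `y y' ≠ y' y` at `α`. -/
theorem comm_false (h : T4 Y Φ) (h4 : 4 ≤ Nat.card Φ) {y : Y} (hu : ∃ u : Φ, y • u = u)
    (ha : ∃ a : Φ, y • a ≠ a) (hc : ∀ g : Y, y * (g * y * g⁻¹) = (g * y * g⁻¹) * y) : False := by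
  obtain ⟨u, hu⟩ := hu
  obtain ⟨a, ha⟩ := ha
  have ua : u ≠ a := fun e => ha (e ▸ hu)
  obtain ⟨g, g1, g2⟩ := h.t2 h4 ua (Ne.symm ha)
  have i1 : g⁻¹ • a = u := by rw [← g1, inv_smul_smul]
  have i2 : g⁻¹ • y • a = a := by rw [← g2, inv_smul_smul]
  have e := congrArg (fun k : Y => k • a) (hc g)
  simp only [mul_smul] at e
  rw [i1, hu, g1, i2] at e
  have : g • a = g • y • a := g2.trans e
  exact ha (smul_left_cancel g this).symm

namespace S3x

omit [Finite Y] [Finite Φ] in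
/-- the bound for one `g` -/
theorem one [Fintype Φ] [DecidableEq Φ] {y g : Y} (yy : ∀ x : Φ, y • y • x = x)
    (w3 : (y * (g * y * g⁻¹)) ^ 3 = 1) (A : Finset Φ)
    (hA : ∀ d ∈ A, y • d = d ∧ y • g • d ≠ g • d) :
    2 * A.card ≤ (Finset.univ.filter fun x : Φ => ¬ y • x = x).card := by
  have c1 : (A.image fun d => g • d).card = A.card :=
    Finset.card_image_of_injective _ (MulAction.injective g)
  have c2 : (A.image fun d => y • g • d).card = A.card :=
    Finset.card_image_of_injective _ ((MulAction.injective y).comp (MulAction.injective g))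
  have dj : Disjoint (A.image fun d => g • d) (A.image fun d => y • g • d) := by
    rw [Finset.disjoint_left]
    intro x h1 h2
    obtain ⟨d, hd, rfl⟩ := Finset.mem_image.1 h1
    obtain ⟨e, he, he'⟩ := Finset.mem_image.1 h2
    have a1 : (y * (g * y * g⁻¹)) • g • e = g • d := by
      simp only [mul_smul, inv_smul_smul]; rw [(hA e he).1, he']
    have a2 : (y * (g * y * g⁻¹)) • g • d = g • e := by
      simp only [mul_smul, inv_smul_smul]; rw [(hA d hd).1, ← he', yy]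
    have a3 : (y * (g * y * g⁻¹)) ^ 3 • g • e = g • d := by
      rw [pow_succ, pow_succ, pow_one, mul_smul, mul_smul, a1, a2, a1]
    rw [w3, one_smul] at a3
    exact (hA e he).2 (he'.trans a3.symm)
  rw [two_mul]
  nth_rewrite 1 [← c1]
  rw [← c2, ← Finset.card_union_of_disjoint dj]
  refine Finset.card_le_card fun x hx => ?_
  rw [Finset.mem_filter]
  refine ⟨Finset.mem_univ _, ?_⟩
  rcases Finset.mem_union.1 hx with h1 | h1
  · obtain ⟨d, hd, rfl⟩ := Finset.mem_image.1 h1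
    exact (hA d hd).2
  · obtain ⟨d, hd, rfl⟩ := Finset.mem_image.1 h1
    rw [yy]; exact fun e => (hA d hd).2 e.symm

end S3x

/-- **The `S₃` count.**  `Δ = Fix y`, `|Φ| = 2t`, `|Δ| = t ≥ 3`.  Fix `p₂ = y•p₁ ≠ p₁`, `p₃ ∈ Δ`, and
let `g` run over the `(2t-3)N` elements with `g•p₁ = p₃`, `g•p₂ = p₂`, `g•p₃ = p₁` (`cnt`).
`y' = g y g⁻¹` swaps `p₂, p₃` and fixes `p₁`, `w = y y'` is a 3-cycle on these points, so `w⁴ ≠ 1`
and `w³ = 1`.  For `δ ∈ gΔ \ Δ` the point `y•δ` is moved by `y` and by `y'` (else `w²•δ = δ`, so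
`w•δ = δ`): `s = |gΔ \ Δ| ≤ t - s`.  But `∑_g s = (2t-3)N + (t-2)(t-1)N` (`γ = p₁`: all `g`;
`γ = p₂`: none; other `γ ∉ Δ`: `(t-1)N`), and `2 (t² - t - 1) ≤ t (2t - 3)` forces `t ≤ 2`. -/
theorem s3_false (h : T4 Y Φ) {y : Y} (h2 : y ^ 2 = 1)
    (half : Nat.card Φ = 2 * {x : Φ | y • x = x}.ncard) (h6 : 6 ≤ Nat.card Φ)
    (hc : ∀ g : Y, (y * (g * y * g⁻¹)) ^ 3 = 1 ∨ (y * (g * y * g⁻¹)) ^ 4 = 1) : False := by
  classical
  let _ := Fintype.ofFinite Φ
  let _ := Fintype.ofFinite Y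
  obtain ⟨N, N0, c4, c3, -⟩ := cnt h (by omega)
  have yy : ∀ x : Φ, y • y • x = x := fun x => by rw [← mul_smul, ← pow_two, h2, one_smul]
  set D : Finset Φ := Finset.univ.filter fun x : Φ => y • x = x with hD
  set E : Finset Φ := Finset.univ.filter fun x : Φ => ¬ y • x = x with hE
  have mD : ∀ x, x ∈ D ↔ y • x = x := fun x => by simp [hD]
  have mE : ∀ x, x ∈ E ↔ ¬ y • x = x := fun x => by simp [hE]
  have cD : {x : Φ | y • x = x}.ncard = D.card := by
    rw [← Set.ncard_coe_finset]; congr 1; ext x; simp [hD]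
  have cDE : D.card + E.card = Nat.card Φ := by
    rw [hD, hE, Finset.card_filter_add_card_filter_not, Finset.card_univ, Nat.card_eq_fintype_card]
  rw [cD] at half
  obtain ⟨t, ht⟩ : ∃ t, D.card = t + 3 := ⟨D.card - 3, by omega⟩
  have cE : E.card = t + 3 := by omega
  obtain ⟨p1, h1⟩ : E.Nonempty := Finset.card_pos.1 (by omega)
  obtain ⟨p3, h3⟩ : D.Nonempty := Finset.card_pos.1 (by omega)
  have m1 := (mE _).1 h1
  have f3 := (mD _).1 h3
  have h2' : y • p1 ∈ E := (mE _).2 (by rw [yy]; exact fun e => m1 e.symm)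
  have DE : ∀ a ∈ D, ∀ b ∈ E, a ≠ b := fun a ha b hb e => (mE _).1 hb (e ▸ (mD _).1 ha)
  set S : Finset Y := Finset.univ.filter fun g : Y =>
    g • p1 = p3 ∧ g • y • p1 = y • p1 ∧ g • p3 = p1 with hS
  have mS : ∀ g, g ∈ S ↔ g • p1 = p3 ∧ g • y • p1 = y • p1 ∧ g • p3 = p1 := fun g => by simp [hS]
  have cS : S.card = (2 * t + 3) * N := by
    have := c3 p1 (y • p1) p3 p3 (y • p1) p1
      ⟨Ne.symm m1, (DE _ h3 _ h1).symm, (DE _ h3 _ h2').symm⟩ ⟨DE _ h3 _ h2', DE _ h3 _ h1, m1⟩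
    rw [show Nat.card Φ - 3 = 2 * t + 3 by omega] at this
    rw [← this, ← Set.ncard_coe_finset]; congr 1; ext g; simp [hS]
  set D' := D.erase p3 with hD'
  set E' := (E.erase p1).erase (y • p1) with hE'
  have cD' : D'.card = t + 2 := by rw [hD', Finset.card_erase_of_mem h3]; omega
  have cE' : E'.card = t + 1 := by
    rw [hE', Finset.card_erase_of_mem (Finset.mem_erase.2 ⟨m1, h2'⟩), Finset.card_erase_of_mem h1]
    omega
  have up : ∀ g ∈ S, 2 * (D'.filter fun d => g • d ∈ E').card ≤ t + 1 := by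
    intro g hg
    obtain ⟨g1, g2, g3⟩ := (mS g).1 hg
    have i1 : g⁻¹ • p1 = p3 := by rw [inv_smul_eq_iff, g3]
    have i2 : g⁻¹ • y • p1 = y • p1 := by rw [inv_smul_eq_iff, g2]
    have i3 : g⁻¹ • p3 = p1 := by rw [inv_smul_eq_iff, g1]
    have w1 : (y * (g * y * g⁻¹)) • p1 = y • p1 := by
      simp only [mul_smul]; rw [i1, f3, g3]
    have w2 : (y * (g * y * g⁻¹)) • y • p1 = p3 := by
      simp only [mul_smul]; rw [i2, yy, g1, f3]
    have w3 : (y * (g * y * g⁻¹)) • p3 = p1 := by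
      simp only [mul_smul]; rw [i3, g2, yy]
    have w : (y * (g * y * g⁻¹)) ^ 3 = 1 := by
      refine (hc g).resolve_right fun e => m1 ?_
      have : (y * (g * y * g⁻¹)) ^ 4 • p1 = y • p1 := by
        rw [pow_succ, pow_succ, pow_succ, pow_one, mul_smul, mul_smul, mul_smul, w1, w2, w3, w1]
      rw [e, one_smul] at this
      exact this.symm
    have np : p3 ∉ D'.filter fun d => g • d ∈ E' := fun e =>
      (Finset.mem_erase.1 (Finset.mem_filter.1 e).1).1 rfl
    have := S3x.one yy w (insert p3 (D'.filter fun d => g • d ∈ E')) (by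
      intro d hd
      rcases Finset.mem_insert.1 hd with rfl | hd
      · exact ⟨f3, by rw [g3]; exact m1⟩
      · obtain ⟨a, b⟩ := Finset.mem_filter.1 hd
        exact ⟨(mD _).1 (Finset.mem_of_mem_erase a),
          (mE _).1 (Finset.mem_of_mem_erase (Finset.mem_of_mem_erase b))⟩)
    rw [Finset.card_insert_of_notMem np, ← hE, cE] at this
    omega
  have sm : ∑ g ∈ S, (D'.filter fun d => g • d ∈ E').card = (t + 2) * ((t + 1) * N) := by
    have e1 : ∀ g : Y, (D'.filter fun d => g • d ∈ E').card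
        = ∑ d ∈ D', ∑ e ∈ E', if g • d = e then 1 else 0 := by
      intro g
      rw [Finset.card_filter]
      refine Finset.sum_congr rfl fun d _ => ?_
      rw [Finset.sum_ite_eq]
    simp only [e1]
    rw [Finset.sum_comm, ← cD', ← smul_eq_mul, ← Finset.sum_const]
    refine Finset.sum_congr rfl fun d hd => ?_
    rw [Finset.sum_comm, ← cE', ← smul_eq_mul, ← Finset.sum_const]
    refine Finset.sum_congr rfl fun e he => ?_
    obtain ⟨d3, dD⟩ := Finset.mem_erase.1 hd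
    obtain ⟨e2, he⟩ := Finset.mem_erase.1 he
    obtain ⟨e1, eE⟩ := Finset.mem_erase.1 he
    have := c4 p1 (y • p1) p3 d p3 (y • p1) p1 e
      ⟨Ne.symm m1, (DE _ h3 _ h1).symm, (DE _ dD _ h1).symm, (DE _ h3 _ h2').symm,
        (DE _ dD _ h2').symm, d3.symm⟩
      ⟨DE _ h3 _ h2', DE _ h3 _ h1, DE _ h3 _ eE, m1, e2.symm, e1.symm⟩
    rw [← Finset.card_filter, ← this, ← Set.ncard_coe_finset]
    congr 1; ext g; simp [hS, and_assoc]
  have tot : 2 * ((t + 2) * ((t + 1) * N)) ≤ (2 * t + 3) * N * (t + 1) := by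
    rw [← sm, Finset.mul_sum, ← cS, ← smul_eq_mul, ← Finset.sum_const]
    exact Finset.sum_le_sum up
  nlinarith [Nat.mul_pos N0 (Nat.succ_pos t)]

end CL.Pron
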