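import Cfsg.Agent.PERM.Pron.Rk
import Cfsg.Agent.PERM.Pron.Good
import Cfsg.Agent.PERM.Pron.S3c

set_option autoImplicit false

namespace CL.Pron

open MulAction

variable {G : Type} [Group G] [Finite G] {Ω : Type} [Finite Ω] [MulAction G Ω] {F : Set Ω}

namespace Endx

omit [Finite G] [Finite Ω] in
theorem off {x : G} (hx : x ∈ St G F) {c : Ω} (hc : c ∉ F) : x • c ∉ F := fun h => hc ((hx c).1 h)

omit [Finite G] [Finite Ω] in
theorem kSt {R : Subgroup G} (hR : Rk F R) {r : G} (hr : r ∈ R) : r ∈ St G F := by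
  intro x
  constructor
  · intro h
    have := hR.le hr _ h
    rw [smul_left_cancel_iff] at this
    exact this ▸ h
  · intro h
    rw [hR.le hr x h]
    exact h

omit [Finite G] [Finite Ω] in
theorem conj {R : Subgroup G} (hR : Rk F R) {q : ℕ} {y z x : G} (h : Good F R q y z)
    (hx : x ∈ St G F) : Good F R q (x * y * x⁻¹) (x * z * x⁻¹) := by
  have hx' : x⁻¹ ∈ St G F := inv_mem hx
  have bk : ∀ r ∈ R, x⁻¹ * r * x ∈ R := fun r hr => by simpa using hR.nm _ hx' r hr
  have e1 : ∀ r (c : Ω), ((x * y * x⁻¹) • r • c = r • c ↔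
      y • (x⁻¹ * r * x) • x⁻¹ • c = (x⁻¹ * r * x) • x⁻¹ • c) := fun r c => by
    simp only [mul_smul, smul_inv_smul]
    rw [smul_eq_iff_eq_inv_smul]
  have e2 : ∀ c : Ω, ((x * y * x⁻¹) • c = c ↔ y • x⁻¹ • c = x⁻¹ • c) := fun c => by
    simp only [mul_smul]
    rw [smul_eq_iff_eq_inv_smul]
  have ps : ∀ r, Ps F (x * y * x⁻¹) r ↔ Ps F y (x⁻¹ * r * x) := fun r => by
    constructor
    · intro H c hc
      have := H (x • c) (off hx hc)
      rwa [e1, e2, inv_smul_smul] at this
    · intro H c hc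
      rw [e1, e2]
      exact H _ (off hx' hc)
  have ng : ∀ r, Ng F (x * y * x⁻¹) r ↔ Ng F y (x⁻¹ * r * x) := fun r => by
    constructor
    · intro H c hc
      have := H (x • c) (off hx hc)
      rwa [e1, e2, inv_smul_smul] at this
    · intro H c hc
      rw [e1, e2]
      exact H _ (off hx' hc)
  refine ⟨mul_mem (mul_mem hx h.mem) hx', hR.nm x hx z h.zR, fun c hc hm => ?_, fun r hr => ?_, ?_,
    fun r hr hp => ?_, fun r hr hp => ?_, ?_, ?_, ?_⟩
  · rw [Ne, e2] at hm
    simp only [mul_smul]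
    rw [h.act _ (off hx' hc) hm]
  · rw [ps, ng]
    exact h.pn _ (bk r hr)
  · rw [ps]
    simpa [mul_assoc] using h.pz
  · have := h.cm _ (bk r hr) ((ps r).1 hp)
    calc r * (x * z * x⁻¹) = x * ((x⁻¹ * r * x) * z) * x⁻¹ := by group
      _ = x * (z * (x⁻¹ * r * x)) * x⁻¹ := by rw [this]
      _ = _ := by group
  · have := h.iv _ (bk r hr) ((ng r).1 hp)
    calc r * (x * z * x⁻¹) * r⁻¹ = x * ((x⁻¹ * r * x) * z * (x⁻¹ * r * x)⁻¹) * x⁻¹ := by group
      _ = x * z⁻¹ * x⁻¹ := by rw [this]
      _ = _ := by group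
  · rw [conj_pow, h.zq]; simp
  · rw [conj_pow, h.yq]; simp
  · rw [← h.half]
    congr 1
    have : {c | c ∈ F ∧ (x * y * x⁻¹) • c = c} = (fun c => x • c) '' {c | c ∈ F ∧ y • c = c} := by
      ext c
      simp only [Set.mem_ofPred_eq, Set.mem_image, e2]
      constructor
      · rintro ⟨h1, h2⟩
        exact ⟨x⁻¹ • c, ⟨(hx' c).2 h1, h2⟩, smul_inv_smul x c⟩
      · rintro ⟨d, ⟨h1, h2⟩, rfl⟩
        exact ⟨(hx d).2 h1, by rwa [inv_smul_smul]⟩
    rw [this, Set.ncard_image_of_injective _ (MulAction.injective x)]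

omit [Finite G] [Finite Ω] in
/-- squares preserve the fixed points -/
theorem ps_sq {R : Subgroup G} (hR : Rk F R) {q : ℕ} {y z r : G} (h : Good F R q y z) (hr : r ∈ R) :
    Ps F y (r * r) := by
  intro c hc
  have h1 := off (kSt hR hr) hc
  rw [mul_smul]
  rcases h.pn r hr with H | H
  · rw [H _ h1, H _ hc]
  · rw [H _ h1, H _ hc, not_not]

omit [Finite G] [Finite Ω] in
/-- both `z`, `z'` preserving: `y`, `y'` commute outside `F` -/
theorem comm {R : Subgroup G} {q : ℕ} {y z y' z' : G} (h : Good F R q y z) (h' : Good F R q y' z')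
    (p : Ps F y z') (p' : Ps F y' z) {c : Ω} (hc : c ∉ F) : y • y' • c = y' • y • c := by
  have zz : z' * z = z * z' := h.cm _ h'.zR p
  by_cases a : y • c = c <;> by_cases b : y' • c = c
  · rw [a, b, a]
  · have e := h'.act c hc b
    rw [a, e, (p c hc).2 a]
  · have e := h.act c hc a
    rw [b, e, (p' c hc).2 b]
  · have e := h.act c hc a
    have e' := h'.act c hc b
    have o : z • c ∉ F := e ▸ off h.mem hc
    have o' : z' • c ∉ F := e' ▸ off h'.mem hc
    rw [e, e', h.act _ o' fun H => a ((p c hc).1 H), h'.act _ o fun H => b ((p' c hc).1 H),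
      smul_smul, smul_smul, zz]

omit [Finite G] [Finite Ω] in
/-- one preserving, one interchanging: order 4 -/
theorem four {R : Subgroup G} (hR : Rk F R) {y z y' z' : G} (h : Good F R 2 y z)
    (h' : Good F R 2 y' z') (p : Ng F y z') (p' : Ps F y' z) {c : Ω} (hc : c ∉ F) :
    y • y' • y • y' • c = y' • y • y' • y • c := by
  have z2 : ∀ c : Ω, z • z • c = c := fun c => by rw [smul_smul, ← sq, h.zq, one_smul]
  have z2' : ∀ c : Ω, z' • z' • c = c := fun c => by rw [smul_smul, ← sq, h'.zq, one_smul]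
  have zi : z⁻¹ = z := inv_eq_of_mul_eq_one_right (by rw [← sq, h.zq])
  have zz : ∀ c : Ω, z' • z • c = z • z' • c := fun c => by
    have := h.iv _ h'.zR p
    rw [zi, mul_inv_eq_iff_eq_mul] at this
    rw [smul_smul, smul_smul, this]
  have o : ∀ {c : Ω}, c ∉ F → z • c ∉ F := fun hc => off (kSt hR h.zR) hc
  have o' : ∀ {c : Ω}, c ∉ F → z' • c ∉ F := fun hc => off (kSt hR h'.zR) hc
  by_cases b : y' • c = c
  · by_cases a : y • c = c
    · simp only [a, b]
    · have e := h.act c hc a
      have y2 : y • z • c = c := by rw [← e, smul_smul, ← sq, h.yq, one_smul]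
      have b1 : y' • z • c = z • c := (p' c hc).2 b
      rw [b, e, b1, y2, b]
  · have e' := h'.act c hc b
    have f1 : y' • z • c = z • z' • c := by
      rw [h'.act _ (o hc) fun H => b ((p' c hc).1 H), zz]
    have y2' : ∀ d : Ω, y' • y' • d = d := fun d => by rw [smul_smul, ← sq, h'.yq, one_smul]
    have y2 : ∀ d : Ω, y • y • d = d := fun d => by rw [smul_smul, ← sq, h.yq, one_smul]
    have f2 : y' • z • z' • c = z • c := by rw [← f1, y2']
    have f3 : y' • z' • c = c := by rw [← e', y2']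
    by_cases a : y • c = c
    · have g1 : y • z' • c = z • z' • c :=
        h.act _ (o' hc) fun H => (p c hc).1 H a
      have g2 : y • z • c = z • c := (h.pz c hc).2 a
      rw [a, e', g1, f2, g2]
    · have e := h.act c hc a
      have g1 : y • z' • c = z' • c := (p c hc).2 a
      have g2 : y • z • z' • c = z • z' • c := (h.pz _ (o' hc)).2 g1
      rw [e', g1, f3, e, f1, g2, f2]

omit [Finite G] [Finite Ω] in
/-- both interchanging: order 3 -/
theorem three {R : Subgroup G} (hR : Rk F R) {y z y' z' : G} (h : Good F R 2 y z)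
    (h' : Good F R 2 y' z') (p : Ng F y z') (p' : Ng F y' z) {c : Ω} (hc : c ∉ F) :
    y • y' • y • c = y' • y • y' • c := by
  have z2 : ∀ c : Ω, z • z • c = c := fun c => by rw [smul_smul, ← sq, h.zq, one_smul]
  have z2' : ∀ c : Ω, z' • z' • c = c := fun c => by rw [smul_smul, ← sq, h'.zq, one_smul]
  have zi : z⁻¹ = z := inv_eq_of_mul_eq_one_right (by rw [← sq, h.zq])
  have zz : ∀ c : Ω, z' • z • c = z • z' • c := fun c => by
    have := h.iv _ h'.zR p
    rw [zi, mul_inv_eq_iff_eq_mul] at this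
    rw [smul_smul, smul_smul, this]
  have o : ∀ {c : Ω}, c ∉ F → z • c ∉ F := fun hc => off (kSt hR h.zR) hc
  have o' : ∀ {c : Ω}, c ∉ F → z' • c ∉ F := fun hc => off (kSt hR h'.zR) hc
  have y2' : ∀ d : Ω, y' • y' • d = d := fun d => by rw [smul_smul, ← sq, h'.yq, one_smul]
  have y2 : ∀ d : Ω, y • y • d = d := fun d => by rw [smul_smul, ← sq, h.yq, one_smul]
  by_cases a : y • c = c <;> by_cases b : y' • c = c
  · simp only [a, b]
  · have e' := h'.act c hc b
    have g1 : y • z' • c = z • z' • c := h.act _ (o' hc) fun H => (p c hc).1 H a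
    have g2 : y' • z • z' • c = z • z' • c :=
      (p' _ (o' hc)).2 fun H => b ((h'.pz c hc).1 H)
    rw [a, e', g1, g2]
  · have e := h.act c hc a
    have g1 : y' • z • c = z' • z • c := h'.act _ (o hc) fun H => (p' c hc).1 H b
    have g2 : y • z' • z • c = z' • z • c :=
      (p _ (o hc)).2 fun H => a ((h.pz c hc).1 H)
    rw [b, e, g1, g2]
  · have e := h.act c hc a
    have e' := h'.act c hc b
    have g1 : y' • z • c = z • c := (p' c hc).2 b
    have g2 : y • z' • c = z' • c := (p c hc).2 a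
    rw [e, e', g1, g2, ← e, ← e', y2, y2']

end Endx

open Endx in
/-- the end game is impossible -/
theorem Eg.false (E : Eg G F) : False := by
  obtain ⟨R, hR⟩ := E.rk
  obtain ⟨g, y, x, q, hq, hy1, hyq, hg, hy, hgF, hx, hx1, hxy⟩ := E.pair hR
  obtain ⟨z, h⟩ := E.good hR hy1 hyq hg hy hgF hx hx1 hxy
  have h5 := E.five
  have hc : Nat.card F = F.ncard := Nat.card_coe_set_eq F
  have hfix : {c : F | (⟨y, hy⟩ : St G F) • c = c}.ncard = {c | c ∈ F ∧ y • c = c}.ncard := by
    rw [← Set.ncard_image_of_injective _ Subtype.val_injective]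
    congr 1
    ext c
    simp only [Set.mem_image, Set.mem_ofPred_eq, Subtype.ext_iff, actF_val]
    constructor
    · rintro ⟨d, h1, rfl⟩
      exact ⟨d.2, h1⟩
    · rintro ⟨h1, h2⟩
      exact ⟨⟨c, h1⟩, h2, rfl⟩
  have hh := h.half
  have eq : ∀ {u v : G}, (∀ c, c ∉ F → u • c = v • c) → u = v := fun {u v} H =>
    (inv_mul_eq_one.1 (E.lf fun c hc => by rw [mul_smul, H c hc, inv_smul_smul])).symm
  rcases hq.eq_two_or_odd' with rfl | hodd
  · have yy : y * y = 1 := by rw [← sq, hyq]
    refine s3_false (Y := St G F) (Φ := F) E.hW (y := ⟨y, hy⟩) (Subtype.ext hyq)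
      (by rw [hfix, hc, hh]) (by omega) fun k => ?_
    have h' := conj hR h k.2
    simp only [Subtype.ext_iff, Subgroup.coe_pow, Subgroup.coe_mul, Subgroup.coe_inv,
      Subgroup.coe_one]
    generalize (k : G) * y * (k : G)⁻¹ = y' at h'
    generalize (k : G) * z * (k : G)⁻¹ = z' at h'
    have yy' : y' * y' = 1 := by rw [← sq, h'.yq]
    have i1 : y⁻¹ = y := inv_eq_of_mul_eq_one_right yy
    have i2 : y'⁻¹ = y' := inv_eq_of_mul_eq_one_right yy'
    have f4 : y * y' * y * y' = y' * y * y' * y → (y * y') ^ 4 = 1 := fun H => by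
      calc (y * y') ^ 4 = (y * y' * y * y') * (y * y' * y * y') := by simp only [pow_succ]; group
        _ = (y' * y * y' * y) * (y⁻¹ * y'⁻¹ * y⁻¹ * y'⁻¹) := by rw [i1, i2, ← H]
        _ = 1 := by group
    rcases h.pn z' h'.zR with p | p <;> rcases h'.pn z h.zR with p' | p'
    · have : y * y' = y' * y := eq fun c hc => by
        simpa only [mul_smul] using Endx.comm h h' p p' hc
      exact .inr (f4 (by rw [mul_assoc (y * y'), mul_assoc (y' * y), this]))
    · exact .inr (f4 (eq fun c hc => by simpa only [mul_smul] using (four hR h' h p' p hc).symm))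
    · exact .inr (f4 (eq fun c hc => by simpa only [mul_smul] using four hR h h' p p' hc))
    · have : y * y' * y = y' * y * y' := eq fun c hc => by
        simpa only [mul_smul] using Endx.three hR h h' p p' hc
      left
      calc (y * y') ^ 3 = (y * y' * y) * (y' * y * y') := by simp only [pow_succ]; group
        _ = (y' * y * y') * (y'⁻¹ * y⁻¹ * y'⁻¹) := by rw [i1, i2, this]
        _ = 1 := by group
  · obtain ⟨j, hj⟩ := hodd
    have sq' : ∀ {u : G}, u ^ q = 1 → u = u ^ (j + 1) * u ^ (j + 1) := fun {u} hu => by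
      rw [← pow_add, show j + 1 + (j + 1) = q + 1 by omega, pow_succ, hu, one_mul]
    refine comm_false (Y := St G F) (Φ := F) E.hW (by omega) (y := ⟨y, hy⟩) ?_ ?_ fun k => ?_
    · have : 0 < {c : F | (⟨y, hy⟩ : St G F) • c = c}.ncard := by omega
      exact Set.nonempty_of_ncard_ne_zero this.ne'
    · by_contra H
      push Not at H
      have : {c : F | (⟨y, hy⟩ : St G F) • c = c} = Set.univ := Set.eq_univ_of_forall H
      rw [this, Set.ncard_univ] at hfix
      omega
    · have h' := conj hR h k.2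
      refine Subtype.ext (eq fun c hc => ?_)
      have p : Ps F y ((k : G) * z * (k : G)⁻¹) := by
        rw [sq' h'.zq]
        exact ps_sq hR h (pow_mem h'.zR _)
      have p' : Ps F ((k : G) * y * (k : G)⁻¹) z := by
        rw [sq' h.zq]
        exact ps_sq hR h' (pow_mem h.zR _)
      have := Endx.comm h h' p p' hc
      simpa only [Subgroup.coe_mul, Subgroup.coe_inv, ← mul_smul] using this

end CL.Pron
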