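import Cfsg.Agent.PERM.Pron.Base

set_option autoImplicit false

namespace CL.Pron

open MulAction

variable {G : Type} [Group G] {Ω : Type} [MulAction G Ω]

open Pointwise

theorem L1x.count {α β : Type} [Finite α] (f : α → β) (A : Set α) (l : ℕ)
    (h : ∀ x ∈ A, {y | y ∈ A ∧ f y = f x}.ncard = l) : A.ncard = l * (f '' A).ncard := by
  classical
  have hA : A.Finite := Set.toFinite A
  have e1 : A.ncard = hA.toFinset.card := Set.ncard_eq_toFinset_card A hA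
  have e2 : (f '' A).ncard = (hA.toFinset.image f).card := by
    rw [← Set.ncard_coe_finset, Finset.coe_image, hA.coe_toFinset]
  rw [e1, e2, Finset.card_eq_sum_card_image f, Finset.sum_const_nat (m := l), mul_comm]
  intro b hb
  obtain ⟨x, hx, rfl⟩ := Finset.mem_image.1 hb
  rw [← h x (hA.mem_toFinset.1 hx), ← Set.ncard_coe_finset]
  congr 1
  ext y
  simp

/-- the blocks through `x` -/
def L1x.ph (K H : Subgroup G) (x : Ω) : Set G := {h | h ∈ H ∧ h⁻¹ • x ∈ Fx K Ω}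

theorem L1x.ph_smul {K H : Subgroup G} {g : G} (hg : g ∈ H) (x : Ω) :
    L1x.ph K H (g • x) = g • L1x.ph K H x := by
  ext h
  rw [Set.mem_smul_set_iff_inv_smul_mem]
  simp only [L1x.ph, Set.mem_setOf_eq, smul_eq_mul, mul_inv_rev, inv_inv, mul_smul]
  rw [H.mul_mem_cancel_left (H.inv_mem hg)]

theorem L1x.fx {K H : Subgroup G} (hP : Pn K H) {a : Ω} (ha : a ∈ Fx K Ω) {h : G} (hh : h ∈ H) :
    L1x.ph K H (h • a) ∈ Fx K (Set G) ↔ h • a ∈ Fx K Ω := by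
  constructor
  · intro hx
    obtain ⟨w, hw, e⟩ := hP.blk (Ω := Ω) hh (M := H ⊓ stabilizer G (L1x.ph K H (h • a)))
      (fun k hk => ⟨hP.1 hk, hx k hk⟩) (fun k hk => by
        have hm : h * k * h⁻¹ ∈ H := H.mul_mem (H.mul_mem hh (hP.1 hk)) (H.inv_mem hh)
        refine ⟨hm, ?_⟩
        change (h * k * h⁻¹) • L1x.ph K H (h • a) = L1x.ph K H (h • a)
        rw [← L1x.ph_smul hm, mul_smul, mul_smul, inv_smul_smul, ha k hk])
    have h1 : w ∈ L1x.ph K H (h • a) := ⟨hw.1, (e _).2 (by rwa [inv_smul_smul])⟩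
    have h2 : w • L1x.ph K H (h • a) = L1x.ph K H (h • a) := hw.2
    rw [← h2, Set.mem_smul_set_iff_inv_smul_mem, smul_eq_mul, inv_mul_cancel] at h1
    simpa using h1.2
  · intro hx k hk
    rw [← L1x.ph_smul (hP.1 hk), hx k hk]

/-- **Imprimitive step.**  Proof: `φ x = {h | h ∈ H ∧ h⁻¹ • x ∈ F} : Set G`, and `G` acts on
`Set G` by left multiplication (`open Pointwise`); `φ (g • x) = g • φ x` for `g ∈ H`, so
`Σ = φ '' O` is an `H`-orbit.  All `φ x` (`x ∈ O`) have the same size, so `x ∈ cl a` (which says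
`φ a ⊆ φ x`) iff `φ x = φ a`; all fibres of `φ` on `O` have size `l = |cl a|`.  For `x ∈ O`:
`φ x ∈ Fx K (Set G) ↔ x ∈ F`.  (←) `φ (k • x) = φ x`.  (→) `x = h • a`, `M = H ⊓ stabilizer (φ x)`
contains `K` and `h K h⁻¹` (which fixes `x`); `Pn.blk` gives `w ∈ M` with `w ∈ φ x` (as `h ∈ φ x`),
so `1 ∈ w⁻¹ • φ x = φ x`, i.e. `x ∈ F`.  Hence `|O| = l |Σ|`, `|O ∩ F| = l |Σ ∩ Fx|`,
`|Σ| < |O| ≤ n`, `Σ ⊄ Fx`, and `ih` gives `df O = l * df Σ ≥ l`. -/
theorem l1 [Finite G] [Finite Ω] {K H : Subgroup G} {n : ℕ} (ih : IH K n) (hP : Pn K H)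
    {O : Set Ω} (hO : Orb H O) (hn : O.ncard ≤ n) (hF : ¬ O ⊆ Fx K Ω) {a : Ω} (haO : a ∈ O)
    (ha : a ∈ Fx K Ω) (h2 : 2 ≤ (cl K H O a).ncard) : ((cl K H O a).ncard : ℤ) ≤ df K O := by
  have ex : ∀ x ∈ O, ∃ h ∈ H, h • a = x := fun x hx => by
    have : x ∈ orb H a := (hO a haO).symm ▸ hx
    exact this
  have st : ∀ h ∈ H, ∀ x ∈ O, h • x ∈ O := fun h hh x hx => by
    rw [← hO x hx]
    exact ⟨h, hh, rfl⟩
  have c0 : cl K H O a = {y | y ∈ O ∧ L1x.ph K H y = L1x.ph K H a} := by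
    ext y
    refine and_congr_right fun hy => ⟨fun h => ?_, fun h g hg e => ?_⟩
    · obtain ⟨g, hg, rfl⟩ := ex y hy
      symm
      refine Set.eq_of_subset_of_ncard_le (fun t ht => ⟨ht.1, h _ (H.inv_mem ht.1) ht.2⟩) ?_
      rw [L1x.ph_smul hg, Set.ncard_smul_set]
    · have : g⁻¹ ∈ L1x.ph K H a := ⟨H.inv_mem hg, by rwa [inv_inv]⟩
      rw [← h] at this
      simpa using this.2
  have c1 : ∀ x ∈ O, {y | y ∈ O ∧ L1x.ph K H y = L1x.ph K H x}.ncard = (cl K H O a).ncard := by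
    intro x hx
    obtain ⟨g, hg, rfl⟩ := ex x hx
    rw [c0, ← Set.ncard_smul_set g {y | y ∈ O ∧ L1x.ph K H y = L1x.ph K H a}]
    congr 1
    ext y
    rw [Set.mem_smul_set_iff_inv_smul_mem]
    simp only [Set.mem_setOf_eq]
    rw [L1x.ph_smul hg, L1x.ph_smul (H.inv_mem hg), inv_smul_eq_iff]
    refine and_congr_left fun _ => ⟨fun h => st _ (H.inv_mem hg) _ h, fun h => ?_⟩
    simpa using st _ hg _ h
  have fx : ∀ x ∈ O, L1x.ph K H x ∈ Fx K (Set G) ↔ x ∈ Fx K Ω := fun x hx => by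
    obtain ⟨g, hg, rfl⟩ := ex x hx
    exact L1x.fx hP ha hg
  have e1 := L1x.count (L1x.ph K H) O _ c1
  have e2 := L1x.count (L1x.ph K H) (O ∩ Fx K Ω) (cl K H O a).ncard (fun x hx => by
    rw [← c1 x hx.1]
    congr 1
    ext y
    refine and_congr_left fun e => ⟨fun h => h.1, fun h => ⟨h, (fx y h).1 ?_⟩⟩
    rw [e]
    exact (fx x hx.1).2 hx.2)
  have e3 : L1x.ph K H '' (O ∩ Fx K Ω) = L1x.ph K H '' O ∩ Fx K (Set G) := by
    ext S
    constructor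
    · rintro ⟨x, hx, rfl⟩
      exact ⟨⟨x, hx.1, rfl⟩, (fx x hx.1).2 hx.2⟩
    · rintro ⟨⟨x, hx, rfl⟩, h⟩
      exact ⟨x, ⟨hx, (fx x hx).1 h⟩, rfl⟩
  have ho : Orb H (L1x.ph K H '' O) := by
    rintro _ ⟨x, hx, rfl⟩
    ext S
    constructor
    · rintro ⟨h, hh, rfl⟩
      exact ⟨h • x, st h hh x hx, L1x.ph_smul hh x⟩
    · rintro ⟨y, hy, rfl⟩
      rw [← hO x hx] at hy
      obtain ⟨h, hh, rfl⟩ := hy
      exact ⟨h, hh, (L1x.ph_smul hh x).symm⟩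
  have pos : 0 < (L1x.ph K H '' O).ncard :=
    (Set.ncard_pos (Set.toFinite _)).2 ⟨_, a, haO, rfl⟩
  have lt : (L1x.ph K H '' O).ncard < n := by nlinarith
  have nf : ¬ L1x.ph K H '' O ⊆ Fx K (Set G) := fun h =>
    hF fun x hx => (fx x hx).1 (h ⟨x, hx, rfl⟩)
  have := ih (Set G) H _ hP ho lt nf
  unfold df at this ⊢
  rw [e1, e2, e3]
  push_cast
  nlinarith [Int.natCast_nonneg (cl K H O a).ncard]

end CL.Pron
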