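import Cfsg.Agent.PERM.Pron.Boch
import Cfsg.Agent.PERM.Pron.Base
import Cfsg.Agent.S0698

set_option autoImplicit false

namespace CL.Pron

open MulAction

variable {G : Type} [Group G] [Finite G] {Ω : Type} [Finite Ω] [MulAction G Ω] {F : Set Ω}

namespace Lf

theorem cc (E : Eg G F) : Fᶜ.ncard = F.ncard := by
  have := Set.ncard_add_ncard_compl F
  have := E.half
  omega

omit [Finite G] [Finite Ω] in
theorem out {k : G} (hk : k ∈ Kf G F) {c : Ω} (hc : c ∉ F) : k • c ∉ F := fun h =>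
  hc (MulAction.injective k (hk _ h) ▸ h)

theorem exc (E : Eg G F) : ∃ c, c ∉ F := Set.nonempty_of_ncard_ne_zero (s := Fᶜ) (by
  have := E.three
  rw [cc E]; omega)

theorem sub {c : Ω} (hc : c ∉ F) : orb (Kf G F) c ⊆ Fᶜ := by
  rintro _ ⟨k, hk, rfl⟩
  exact out hk hc

theorem emb {A B : Set Ω} (h : A.ncard ≤ B.ncard) : Nonempty (A ↪ B) := by
  have := Fintype.ofFinite A
  have := Fintype.ofFinite B
  exact Function.Embedding.nonempty_of_card_le (by simpa only [← Nat.card_eq_fintype_card, Nat.card_coe_set_eq] using h)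

end Lf
/-- every `K₁`-orbit outside `F` has at least 5 points: it lies in `Fᶜ` (`|Fᶜ| = |F|`), so if it had
at most 4 points some `g` would map it into `F` (4-transitivity), against `hN`. -/
theorem Eg.orb5 (E : Eg G F) {c : Ω} (hc : c ∉ F) : 5 ≤ (orb (Kf G F) c).ncard := by
  by_contra n
  have h3 := E.three
  obtain ⟨f⟩ := Lf.emb ((Set.ncard_le_ncard (Lf.sub (G := G) hc)).trans (Lf.cc E).le)
  have := E.t4.multi
  have := isMultiplyPretransitive_of_le (G := G) (α := Ω) (n := 4) (m := Nat.card (orb (Kf G F) c))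
    (by rw [Nat.card_coe_set_eq]; omega) (by rw [E.half]; omega)
  let e := (Finite.equivFin (orb (Kf G F) c)).symm.toEmbedding
  obtain ⟨g, hg⟩ := exists_smul_eq G (e.trans (Function.Embedding.subtype _))
    (e.trans (f.trans (Function.Embedding.subtype _)))
  obtain ⟨k, hk, m⟩ := E.hN g c hc
  have := DFunLike.congr_fun hg (Finite.equivFin _ ⟨k • c, k, hk, rfl⟩)
  simp only [e, Function.Embedding.smul_apply, Function.Embedding.trans_apply, Equiv.coe_toEmbedding,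
    Equiv.symm_apply_apply, Function.Embedding.subtype_apply] at this
  exact m (this ▸ (f _).2)

theorem Eg.five (E : Eg G F) : 5 ≤ F.ncard := by
  obtain ⟨c, hc⟩ := Lf.exc E
  exact (E.orb5 hc).trans ((Set.ncard_le_ncard (Lf.sub hc)).trans (Lf.cc E).le)

/-- `boch` for `G`: the alternating group contains a `σ` with `σ Fᶜ = F` (multiply by a swap inside
`F` if odd), against `hN`; so a non-identity element moves at least `|F| - 1` points. -/
theorem Eg.supp (E : Eg G F) {g : G} (hg : g ≠ 1) : F.ncard ≤ {x : Ω | g • x ≠ x}.ncard + 1 := by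
  classical
  have := Fintype.ofFinite Ω
  have h3 := E.three
  have hh := E.half
  rcases boch E.t4 (by omega) with k | k
  · exfalso
    obtain ⟨f⟩ := Lf.emb (Lf.cc E).le
    obtain ⟨σ, hσ⟩ := Equiv.Perm.exists_extending_pair (f := fun x : ↥Fᶜ => x.1) (g := fun x => (f x).1)
      Subtype.val_injective (Subtype.val_injective.comp f.injective)
    obtain ⟨τ, s, hτ⟩ : ∃ τ : Equiv.Perm Ω, Equiv.Perm.sign τ = 1 ∧ ∀ x, x ∉ F → τ x ∈ F := by
      have m : ∀ x, x ∉ F → σ x ∈ F := fun x hx => hσ ⟨x, hx⟩ ▸ (f _).2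
      rcases Int.units_eq_one_or (Equiv.Perm.sign σ) with s | s
      · exact ⟨σ, s, m⟩
      obtain ⟨a, ha, b, hb, ab⟩ := (Set.one_lt_ncard (Set.toFinite F)).1 (by omega)
      refine ⟨Equiv.swap a b * σ, by simp [ab, s], fun x hx => ?_⟩
      rw [Equiv.Perm.mul_apply, Equiv.swap_apply_def]
      split_ifs
      exacts [hb, ha, m x hx]
    obtain ⟨g, hg⟩ := k τ s
    obtain ⟨c, hc⟩ := Lf.exc E
    obtain ⟨u, hu, m⟩ := E.hN g c hc
    exact m (hg _ ▸ hτ _ (Lf.out hu hc))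
  · have := (k g (not_forall.1 fun c => hg (E.fa g c))).2
    omega

theorem Lf.fix2 (E : Eg G F) {A : Set Ω} (hA : A.ncard = F.ncard) {k : G} (hk : ∀ x, x ∉ A → k • x = x) {c d : Ω}
    (hc : c ∈ A) (hd : d ∈ A) (hcd : c ≠ d) (h1 : k • c = c) (h2 : k • d = d) : k = 1 := by
  by_contra n
  have := E.supp n
  have s : {x : Ω | k • x ≠ x} ⊆ A \ {c, d} := fun x hx => ⟨by_contra fun m => hx (hk x m), by
    rintro (rfl | rfl)
    exacts [hx h1, hx h2]⟩
  have := Set.ncard_le_ncard s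
  rw [Set.ncard_sdiff (Set.pair_subset hc hd), Set.ncard_pair hcd] at this
  have := E.three
  omega
/-- an element of `K₁` fixing two points outside `F` is trivial -/
theorem Eg.two (E : Eg G F) {k : G} (hk : k ∈ Kf G F) {c d : Ω} (hc : c ∉ F) (hd : d ∉ F)
    (hcd : c ≠ d) (h1 : k • c = c) (h2 : k • d = d) : k = 1 := Lf.fix2 E (Lf.cc E) (fun x hx => hk x (not_not.1 hx)) hc hd hcd h1 h2

namespace Lf

theorem ex5 (E : Eg G F) (p q r s : Ω) : ∃ t ∈ F, p ≠ t ∧ q ≠ t ∧ r ≠ t ∧ s ≠ t := by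
  have : ({p, q, r, s} : Set Ω).ncard ≤ 4 := (Set.ncard_insert_le _ _).trans (by
    have := Set.ncard_insert_le q {r, s}
    have := Set.ncard_insert_le r {s}
    rw [Set.ncard_singleton] at this
    omega)
  obtain ⟨t, ht, n⟩ := Set.exists_mem_notMem_of_ncard_lt_ncard (this.trans_lt E.five)
  simp only [Set.mem_insert_iff, Set.mem_singleton_iff, not_or] at n
  exact ⟨t, ht, Ne.symm n.1, Ne.symm n.2.1, Ne.symm n.2.2.1, Ne.symm n.2.2.2⟩

omit [Finite G] [Finite Ω] in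
theorem inn {w : G} (hw : w ∈ Kf G Fᶜ) {c : Ω} (hc : c ∈ F) : w • c ∈ F := not_not.1 (out hw (not_not.2 hc))

theorem cj (E : Eg G F) {w : G} (hw : w ∈ Kf G Fᶜ) {p q r : Ω} (hp : p ∈ F) (hq : q ∈ F) (hr : r ∈ F)
    (d : D4 p q r (w • r)) : ∃ v ∈ Kf G Fᶜ, v • r ≠ r ∧
      ∀ u, (u = p ∨ u = q ∨ u = r) → (w • u = p ∨ w • u = q ∨ w • u = r) → v • u = u := by
  obtain ⟨t, ht, t1, t2, t3, t4⟩ := ex5 E p q r (w • r)
  obtain ⟨x, x1, x2, x3, x4⟩ := E.hW ⟨p, hp⟩ ⟨q, hq⟩ ⟨r, hr⟩ ⟨_, inn hw hr⟩ ⟨p, hp⟩ ⟨q, hq⟩ ⟨r, hr⟩ ⟨t, ht⟩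
    (by simpa [D4] using d) (by simpa [D4] using ⟨d.1, d.2.1, t1, d.2.2.2.1, t2, t3⟩)
  have fx : ∀ u, (u = p ∨ u = q ∨ u = r) → x.1 • u = u := by
    rintro _ (rfl | rfl | rfl)
    exacts [congrArg Subtype.val x1, congrArg Subtype.val x2, congrArg Subtype.val x3]
  have fi : ∀ u, (u = p ∨ u = q ∨ u = r) → x.1⁻¹ • u = u := fun u hu => inv_smul_eq_iff.2 (fx u hu).symm
  refine ⟨w⁻¹ * (x.1 * w * x.1⁻¹), mul_mem (inv_mem hw) fun c hc => ?_, fun e => t4 ?_, fun u hu hv => ?_⟩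
  · rw [mul_smul, mul_smul, hw _ fun k => hc (((St G F).inv_mem x.2 c).1 k), smul_inv_smul]
  · rw [mul_smul, mul_smul, mul_smul, fi r (.inr (.inr rfl)), inv_smul_eq_iff] at e
    exact e.symm.trans (congrArg Subtype.val x4)
  · rw [mul_smul, mul_smul, mul_smul, fi u hu, fx _ hv, inv_smul_smul]

theorem f2 (E : Eg G F) {w : G} (hw : w ∈ Kf G Fᶜ) {c d : Ω} (hc : c ∈ F) (hd : d ∈ F) (hcd : c ≠ d)
    (h1 : w • c = c) (h2 : w • d = d) : w = 1 := fix2 E rfl hw hc hd hcd h1 h2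

theorem one (E : Eg G F) {w : G} (hw : w ∈ Kf G Fᶜ) {a : Ω} (ha : a ∈ F) (e : w • a = a) : w = 1 := by
  by_contra n
  have mv : ∀ b ∈ F, a ≠ b → w • b ≠ b := fun b hb ab k => n (f2 E hw ha hb ab e k)
  have ne : ∀ b, a ≠ b → a ≠ w • b := fun b ab k => ab (MulAction.injective w (e.trans k))
  obtain ⟨b, hb, ab, -⟩ := ex5 E a a a a
  have hb' := inn hw hb
  by_cases k : w • w • b = b
  · obtain ⟨c, hc, c1, c2, c3, -⟩ := ex5 E a b (w • b) a
    obtain ⟨v, hv, v1, v2⟩ := cj E hw hb hb' hc ⟨(mv b hb ab).symm, c2, fun f => c3 (MulAction.injective w (k.trans f)), c3,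
      fun f => c2 (MulAction.injective w f), (mv c hc c1).symm⟩
    exact v1 (by rw [f2 E hv hb hb' (mv b hb ab).symm (v2 _ (.inl rfl) (.inr (.inl rfl))) (v2 _ (.inr (.inl rfl)) (.inl k)),
      one_smul])
  · obtain ⟨v, hv, v1, v2⟩ := cj E hw ha hb hb' ⟨ab, ne b ab, ne _ (ne b ab), (mv b hb ab).symm, Ne.symm k,
      (mv _ hb' (ne b ab)).symm⟩
    exact v1 (by rw [f2 E hv ha hb ab (v2 _ (.inl rfl) (.inl e)) (v2 _ (.inr (.inl rfl)) (.inr (.inr rfl))), one_smul])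

end Lf
/-- **`X` is faithful on `Fᶜ`.**  `N = Kf G Fᶜ` is normalised by `X`; a non-identity element of `N`
fixes at most one point of `F` (`supp`).  If `N ≠ 1` its image in `Perm F` is a non-trivial normal
subgroup of the 4-transitive image of `X`, so 3-transitive (`S0698`), and some element of `N` fixes
two points of `F` and moves a third.  (Direct: an involution `(a b)(c d)…` of `N` commutes with all
of `X_ab`, but `X_abc` moves `d`; an arc `a → b → c → d` likewise; for a 3-cycle, `w^g w⁻¹` with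
`g ∈ X_ab` moving `c` fixes one point `a` and has an arc `b₁ → b₂ → b₃`, use `X_{a b₁ b₂}`.) -/
theorem Eg.lf (E : Eg G F) {g : G} (hg : ∀ c, c ∉ F → g • c = c) : g = 1 := by
  by_contra n
  have hw : g ∈ Kf G Fᶜ := hg
  have mv : ∀ b ∈ F, g • b ≠ b := fun b hb k => n (Lf.one E hw hb k)
  obtain ⟨a, ha, -⟩ := Lf.ex5 E (Lf.exc E).choose (Lf.exc E).choose (Lf.exc E).choose (Lf.exc E).choose
  obtain ⟨c, hc, c1, c2, c3, -⟩ := Lf.ex5 E a (g • a) (g⁻¹ • a) a
  obtain ⟨v, hv, v1, v2⟩ := Lf.cj E hw ha (Lf.inn hw ha) hc ⟨(mv a ha).symm, c1, fun f => c3 (inv_smul_eq_iff.2 f), c2,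
    fun f => c1 (MulAction.injective g f), (mv c hc).symm⟩
  exact v1 (by rw [Lf.one E hv ha (v2 _ (.inl rfl) (.inr (.inl rfl))), one_smul])

/-- `boch` for `X` on `F`: if the image contained `Alt F`, then `|X| ≥ |K₁| · h!/2` and
`|X| ≤ h!` (`lf`: `X` embeds in `Perm Fᶜ`), so `|K₁| ≤ 2`, against `orb5`. -/
theorem Eg.xb (E : Eg G F) {y : G} (hy : y ∈ St G F) (hm : ∃ x ∈ F, y • x ≠ x) :
    6 ≤ {x | x ∈ F ∧ y • x ≠ x}.ncard ∧ F.ncard ≤ 2 * {x | x ∈ F ∧ y • x ≠ x}.ncard + 3 := by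
  classical
  have := Fintype.ofFinite F
  have h5 := E.five
  have cF : Nat.card F = F.ncard := Nat.card_coe_set_eq F
  rcases boch E.hW (by omega) with k | k
  · exfalso
    have : Nontrivial F := Finite.one_lt_card_iff_nontrivial.1 (by omega)
    have h1 : Nat.card (alternatingGroup F) ≤ Nat.card (toPermHom (St G F) F).range :=
      Subgroup.card_le_of_le fun σ hσ => (k σ hσ).imp fun g e => Equiv.ext e
    have le : St G F ≤ St G Fᶜ := fun g hg x => not_congr (hg x)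
    have h2 : Nat.card (St G F) ≤ Nat.card (Equiv.Perm ↥Fᶜ) := Nat.card_le_card_of_injective
      ((toPermHom (St G Fᶜ) ↥Fᶜ).comp (Subgroup.inclusion le)) ((injective_iff_map_eq_one _).2 fun g e =>
        Subtype.ext (E.lf fun c hc => congrArg Subtype.val (Equiv.ext_iff.1 e ⟨c, hc⟩)))
    rw [Nat.card_perm, Nat.card_coe_set_eq, Lf.cc E, ← cF, ← Nat.card_perm, ← two_mul_nat_card_alternatingGroup,
      ← (toPermHom (St G F) F).ker.card_mul_index, Subgroup.index_ker] at h2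
    obtain ⟨c, hc⟩ := Lf.exc E
    have h3 : (orb (Kf G F) c).ncard ≤ Nat.card (toPermHom (St G F) F).ker := by
      refine le_trans (Set.ncard_le_ncard (t := (fun g : St G F => g.1 • c) '' (toPermHom (St G F) F).ker) ?_)
        Set.ncard_image_le
      rintro _ ⟨u, hu, rfl⟩
      exact ⟨⟨u, fun x => ⟨fun m => by_contra fun n => Lf.out hu n m, fun m => (hu x m).symm ▸ m⟩⟩,
        Equiv.ext fun x => Subtype.ext (hu x x.2), rfl⟩
    have := E.orb5 hc
    have := Nat.card_pos (α := alternatingGroup F)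
    nlinarith
  · obtain ⟨x, hx, m⟩ := hm
    have := k ⟨y, hy⟩ ⟨⟨x, hx⟩, fun e => m (congrArg Subtype.val e)⟩
    rwa [← Set.ncard_image_of_injective _ Subtype.val_injective, cF, show Subtype.val '' {x : F | (⟨y, hy⟩ : St G F) • x ≠ x} =
      {x | x ∈ F ∧ y • x ≠ x} from Set.ext fun z => ⟨by
        rintro ⟨z, hz, rfl⟩
        exact ⟨z.2, fun e => hz (Subtype.ext e)⟩, fun hz => ⟨⟨z, hz.1⟩, fun e => hz.2 (congrArg Subtype.val e), rfl⟩⟩] at this

end CL.Pron
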