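import Cfsg.Agent.PERM.Pron.Red
import Cfsg.Agent.PERM.Pron.End

set_option autoImplicit false

namespace CL.Pron

open MulAction

/-- the end game for a (not necessarily faithful) action -/
theorem Top.false {G : Type} [Group G] [Finite G] {Ω : Type} [Finite Ω] [MulAction G Ω]
    {K : Subgroup G} (T : Top K Ω) : False := by
  have t4 := T.t4
  let φ := MulAction.toPermHom G Ω
  have sm : ∀ (g : G) (x : Ω), (⟨φ g, g, rfl⟩ : φ.range) • x = g • x := fun g x => rfl
  refine Eg.false (G := φ.range) (F := Fx K Ω) ⟨fun g hg => ?_, ?_, T.half, T.three, ?_, ?_⟩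
  · exact Subtype.ext (Equiv.ext hg)
  · intro a b c d a' b' c' d' h h'
    obtain ⟨g, hg⟩ := t4 a b c d a' b' c' d' h h'
    exact ⟨⟨φ g, g, rfl⟩, hg⟩
  · rintro ⟨_, g, rfl⟩ c hc
    by_contra H
    push Not at H
    refine hc (T.pn.lemN (Subgroup.mem_top g) fun k hk => ?_)
    exact H ⟨φ k, k, rfl⟩ fun x hx => hx k hk
  · intro a b c d a' b' c' d' h h'
    obtain ⟨g, h1, h2, h3, h4⟩ := t4 a b c d a' b' c' d'
      (by simpa only [D4, ne_eq, Subtype.ext_iff] using h)
      (by simpa only [D4, ne_eq, Subtype.ext_iff] using h')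
    obtain ⟨n, -, hn, he⟩ := T.pn.witt (Ω := Ω) (Subgroup.mem_top g) (D := {a.1, b.1, c.1, d.1})
      (by
        rintro x (rfl | rfl | rfl | rfl)
        exacts [a.2, b.2, c.2, d.2])
      (by
        rintro x (rfl | rfl | rfl | rfl)
        exacts [h1 ▸ a'.2, h2 ▸ b'.2, h3 ▸ c'.2, h4 ▸ d'.2])
    refine ⟨⟨⟨φ n, n, rfl⟩, fun x => nz_fx hn x⟩, Subtype.ext ?_, Subtype.ext ?_, Subtype.ext ?_,
      Subtype.ext ?_⟩
    · exact (he _ (by simp)).trans h1
    · exact (he _ (by simp)).trans h2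
    · exact (he _ (by simp)).trans h3
    · exact (he _ (by simp)).trans h4

/-- the theorem for all groups and all orbits with fewer than `n` points -/
theorem ih_all (n : ℕ) : ∀ (G : Type) [Group G] [Finite G] (K : Subgroup G), IH K n := by
  induction n with
  | zero => intro G _ _ K Ω _ _ H O _ _ h; omega
  | succ n ih =>
    intro G _ _ K Ω _ _ H O hP hO hn hF
    rcases Nat.lt_succ_iff_lt_or_eq.1 hn with hn | hn
    · exact ih G K Ω H O hP hO hn hF
    by_contra hd
    have inv : ∀ h ∈ H, ∀ x ∈ O, h • x ∈ O := fun h hh x hx => by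
      rw [← hO x hx]
      exact ⟨h, hh, rfl⟩
    let _ : MulAction H O :=
      { smul := fun h x => ⟨h.1 • x.1, inv _ h.2 _ x.2⟩
        one_smul := fun x => Subtype.ext (one_smul G x.1)
        mul_smul := fun g h x => Subtype.ext (mul_smul g.1 h.1 x.1) }
    have sv : ∀ (h : H) (x : O), ((h • x : O) : Ω) = h.1 • x.1 := fun _ _ => rfl
    have fx : ∀ x : O, x ∈ Fx (K.subgroupOf H) O ↔ x.1 ∈ Fx K Ω := fun x =>
      ⟨fun h k hk => congrArg Subtype.val (h ⟨k, hP.1 hk⟩ hk), fun h k hk => Subtype.ext (h k.1 hk)⟩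
    have hc : Nat.card O = n := (Nat.card_coe_set_eq O).trans hn
    refine Top.false (top_of (G := H) (Ω := O) (K := K.subgroupOf H) ⟨le_top, ?_⟩ ?_ ?_ ?_ ?_)
    · intro g _ M hKM hc
      obtain ⟨w, hw, hn⟩ := hP.2 g g.2 (M.map H.subtype)
        (fun k hk => ⟨⟨k, hP.1 hk⟩, hKM hk, rfl⟩)
        (fun k hk => ⟨_, hc ⟨k, hP.1 hk⟩ hk, rfl⟩)
      obtain ⟨w, hw, rfl⟩ := hw
      refine ⟨w, hw, ?_⟩
      rw [Subgroup.mem_normalizer_iff] at hn ⊢
      intro h
      exact hn h.1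
    · rw [hc]
      exact ih H _
    · intro x _
      refine Set.eq_univ_of_forall fun y => ?_
      have : y.1 ∈ orb H x.1 := by rw [hO _ x.2]; exact y.2
      obtain ⟨h, hh, e⟩ := this
      exact ⟨⟨h, hh⟩, trivial, Subtype.ext e⟩
    · intro h
      exact hF fun x hx => (fx ⟨x, hx⟩).1 (h trivial)
    · have e : (Set.univ ∩ Fx (K.subgroupOf H) O).ncard = (O ∩ Fx K Ω).ncard := by
        rw [← Set.ncard_image_of_injective _ Subtype.val_injective]
        congr 1
        ext c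
        constructor
        · rintro ⟨d, h1, rfl⟩
          exact ⟨d.2, (fx d).1 h1.2⟩
        · rintro ⟨h1, h2⟩
          exact ⟨⟨c, h1⟩, ⟨trivial, (fx _).2 h2⟩, rfl⟩
      unfold df at hd ⊢
      rw [e, Set.ncard_univ, hc, ← hn]
      omega

end CL.Pron
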