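import Cfsg.Agent.PERM.Pron.Base

set_option autoImplicit false

namespace CL.Pron

open MulAction

variable {G : Type} [Group G] {Ω : Type} [MulAction G Ω]

namespace Man

variable {H : Subgroup G} {O : Set Ω}

theorem dc [Finite Ω] {A B : Set Ω} (r : Ω → Ω → Prop) {m n : ℕ} (hm : ∀ a ∈ A, {b | b ∈ B ∧ r a b}.ncard = m)
    (hn : ∀ b ∈ B, {a | a ∈ A ∧ r a b}.ncard = n) : A.ncard * m = B.ncard * n := by
  classical
  have := Fintype.ofFinite Ω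
  rw [Set.ncard_eq_toFinset_card', Set.ncard_eq_toFinset_card']
  refine Finset.card_mul_eq_card_mul r (fun a ha => ?_) fun b hb => ?_
  · rw [← hm a (by simpa using ha), ← Set.ncard_coe_finset]; congr 1; ext; simp
  · rw [← hn b (by simpa using hb), ← Set.ncard_coe_finset]; congr 1; ext; simp

theorem tl {A B : Set Ω} (g : G) (h : ∀ z, z ∈ A ↔ g • z ∈ B) : A.ncard = B.ncard :=
  Set.ncard_congr (fun z _ => g • z) (fun z => (h z).1) (fun _ _ _ _ e => MulAction.injective g e)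
    fun z hz => ⟨g⁻¹ • z, (h _).2 (by rwa [smul_inv_smul]), smul_inv_smul g z⟩

/-- `H`-invariant relations -/
def Iv (H : Subgroup G) (Q : Ω → Ω → Prop) : Prop := ∀ g ∈ H, ∀ x y, Q x y → Q (g • x) (g • y)

theorem Iv.iff {Q : Ω → Ω → Prop} (i : Iv H Q) {g : G} (hg : g ∈ H) (x y : Ω) : Q x y ↔ Q (g • x) (g • y) :=
  ⟨i g hg x y, fun e => by simpa using i _ (inv_mem hg) _ _ e⟩

theorem Iv.val {Q : Ω → Ω → Prop} (i : Iv H Q) (hO : Orb H O) {x y : Ω} (hx : x ∈ O) (hy : y ∈ O) :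
    {z | Q x z}.ncard = {z | Q y z}.ncard := by
  obtain ⟨g, hg, rfl⟩ : y ∈ orb H x := (hO x hx).symm ▸ hy
  exact tl g (i.iff hg x)

theorem Iv.out {Q : Ω → Ω → Prop} (i : Iv H Q)
    (t : ∀ x y x' y', Q x y → Q x' y' → ∃ g ∈ H, g • x = x' ∧ g • y = y') {x y : Ω} (e : Q x y) :
    {z | Q x z} = orb (H ⊓ stabilizer G x) y :=
  Set.ext fun z => ⟨fun e' => (t _ _ _ _ e e').imp fun _ a => ⟨⟨a.1, a.2.1⟩, a.2.2⟩, by
    rintro ⟨g, hg, rfl⟩
    have := i g hg.1 _ _ e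
    rwa [show g • x = x from hg.2] at this⟩

theorem one [Finite Ω] {A B : Set Ω} {k : ℕ} (hA : A.ncard = k + 1) (h : (A ∩ B).ncard = k) :
    ∃ a, A \ B = {a} :=
  Set.ncard_eq_one.1 (by have := Set.ncard_inter_add_ncard_sdiff_eq_ncard A B; omega)

end Man

open Man

/-- **Manning's argument.**  Let `P = orb H_c x₀` be a suborbit of maximal size `k` (over all
`c ≠ x₀` in `O`), `R x y := ∃ h ∈ H, h • c = x ∧ h • x₀ = y`, `Out x = {y | R x y} = orb H_x y`,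
`In y = {x | R x y} = orb H_y x`; both have size `k` (`|H_x : H_xy| = |H_y : H_xy|` as `H_x`, `H_y`
are conjugate; or count pairs).  Fix `y₀ ≠ y₁` in `P`, `D` the orbital of `(y₀, y₁)`; any two
distinct points of an `Out x` are `D`-related (2-transitivity), `D` is symmetric, its valency `kD` is
odd and `≤ k`, `μ = |In y ∩ In y'|` is constant on `D`, and `k (k-1) = kD μ` (count pairs
`x ∈ In y`, `y' ∈ Out x \ {y}`).  `μ ≤ k`, and `μ = k` gives `kD = k - 1` even; so `μ = k - 1`,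
`kD = k`.  For `D y y'` let `In y \ In y' = {o y'}`, `In y' \ In y = {e y'}`.  `o` is
`H_y`-equivariant onto the orbit `In y`, so bijective; for `y' ≠ y''` the sets `In y'`, `In y''` share
the `k - 2 ≥ 1` points of `In y \ {o y', o y''}`, so `D y' y''`, they share `k - 1` points and
`e y' = e y''`.  So `e` is fixed by `H_y`, hence `e = y` (other suborbits have size `≥ 3`):
`D y y' → R y y'`, so `D = R`. -/
theorem man [Finite G] [Finite Ω] {H : Subgroup G} {O : Set Ω} (hO : Orb H O) {c x : Ω}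
    (hc : c ∈ O) (hx : x ∈ O) (hcx : c ≠ x)
    (h : ∀ x ∈ O, ∀ y ∈ O, x ≠ y → Odd (orb (H ⊓ stabilizer G x) y).ncard ∧
      3 ≤ (orb (H ⊓ stabilizer G x) y).ncard ∧
      Two (H ⊓ stabilizer G x) (orb (H ⊓ stabilizer G x) y)) :
    ∃ (R : Ω → Ω → Prop) (k : ℕ), 3 ≤ k ∧ (∀ x y, R x y → x ∈ O ∧ x ≠ y) ∧
      (∀ x y, R x y → R y x) ∧ (∀ x y z, R x y → R y z → x ≠ z → R x z) ∧
      (∀ x ∈ O, {y | R x y}.ncard = k) ∧
      ∀ x y, R x y → {z | R x z} = orb (H ⊓ stabilizer G x) y := by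
  obtain ⟨⟨c, x⟩, ⟨hc, hx, hcx⟩, mx⟩ := Set.exists_max_image {p : Ω × Ω | p.1 ∈ O ∧ p.2 ∈ O ∧ p.1 ≠ p.2}
    (fun p => (orb (H ⊓ stabilizer G p.1) p.2).ncard) (Set.toFinite _) ⟨(c, x), hc, hx, hcx⟩
  simp only at hc hx hcx mx
  obtain ⟨R, hR⟩ : ∃ R : Ω → Ω → Prop, ∀ y z, R y z ↔ ∃ g ∈ H, g • c = y ∧ g • x = z := ⟨_, fun _ _ => Iff.rfl⟩
  have sm : ∀ g ∈ H, ∀ y ∈ O, g • y ∈ O := fun g hg y hy => hO y hy ▸ ⟨g, hg, rfl⟩
  have r0 : R c x := (hR _ _).2 ⟨1, one_mem _, one_smul _ _, one_smul _ _⟩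
  have rO : ∀ {y z}, R y z → y ∈ O ∧ z ∈ O ∧ y ≠ z := fun e => by
    obtain ⟨g, hg, rfl, rfl⟩ := (hR _ _).1 e
    exact ⟨sm g hg c hc, sm g hg x hx, fun e => hcx (MulAction.injective g e)⟩
  have iR : Iv H R := fun g hg y z e => by
    obtain ⟨a, ha, rfl, rfl⟩ := (hR _ _).1 e
    exact (hR _ _).2 ⟨g * a, mul_mem hg ha, mul_smul .., mul_smul ..⟩
  have tR : ∀ x y x' y', R x y → R x' y' → ∃ g ∈ H, g • x = x' ∧ g • y = y' := fun _ _ _ _ e e' => by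
    obtain ⟨a, ha, rfl, rfl⟩ := (hR _ _).1 e
    obtain ⟨b, hb, rfl, rfl⟩ := (hR _ _).1 e'
    exact ⟨b * a⁻¹, mul_mem hb (inv_mem ha), by simp [mul_smul], by simp [mul_smul]⟩
  obtain ⟨k1, k3, two⟩ := h c hc x hx hcx
  rw [← iR.out tR r0] at k1 k3 two mx
  have ko : ∀ y ∈ O, {z | R y z}.ncard = {z | R c z}.ncard := fun y hy => iR.val hO hy hc
  have iR' : Iv H fun y z => R z y := fun g hg y z => iR g hg z y
  have ki : ∀ y ∈ O, {z | R z y}.ncard = {z | R c z}.ncard := fun y hy => by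
    refine Nat.eq_of_mul_eq_mul_left ((Set.ncard_pos (Set.toFinite O)).2 ⟨c, hc⟩) (dc R (fun a ha => ?_) fun b hb => ?_).symm
    · rw [← ko a ha]; congr 1; ext z; exact and_iff_right_of_imp fun e => (rO e).2.1
    · rw [← iR'.val hO hb hy]; congr 1; ext z; exact and_iff_right_of_imp fun e => (rO e).1
  obtain ⟨y₀, hy₀, y₁, hy₁, y01⟩ := (Set.one_lt_ncard (Set.toFinite {z | R c z})).1 (by omega)
  obtain ⟨k, hk⟩ : ∃ k, {z | R c z}.ncard = k + 1 := ⟨_, (Nat.sub_add_cancel (by omega : 1 ≤ _)).symm⟩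
  rw [hk] at k1 k3 mx ko ki
  let D : Ω → Ω → Prop := fun y z => y ≠ z ∧ ∃ w, R w y ∧ R w z
  have d0 : D y₀ y₁ := ⟨y01, c, hy₀, hy₁⟩
  have dO : ∀ {y z}, D y z → y ∈ O ∧ z ∈ O := fun ⟨_, _, a, b⟩ => ⟨(rO a).2.1, (rO b).2.1⟩
  have iD : Iv H D := fun g hg y z ⟨n, w, a, b⟩ =>
    ⟨fun e => n (MulAction.injective g e), g • w, iR g hg _ _ a, iR g hg _ _ b⟩
  have tD : ∀ x y x' y', D x y → D x' y' → ∃ g ∈ H, g • x = x' ∧ g • y = y' :=
    fun y z y' z' ⟨n, w, a, b⟩ ⟨n', w', a', b'⟩ => by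
      obtain ⟨g, hg, e, -⟩ := tR _ _ _ _ a r0
      obtain ⟨g', hg', e', -⟩ := tR _ _ _ _ a' r0
      obtain ⟨f, hf, e1, e2⟩ := two (g • y) (e ▸ iR g hg _ _ a) (g • z) (e ▸ iR g hg _ _ b) (g' • y')
        (e' ▸ iR g' hg' _ _ a') (g' • z') (e' ▸ iR g' hg' _ _ b') (fun e => n (MulAction.injective g e))
        fun e => n' (MulAction.injective g' e)
      exact ⟨g'⁻¹ * f * g, mul_mem (mul_mem (inv_mem hg') hf.1) hg, by simp [mul_smul, e1], by simp [mul_smul, e2]⟩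
  have mu : ∀ {y z}, D y z → ({w | R w y} ∩ {w | R w z}).ncard = ({w | R w y₀} ∩ {w | R w y₁}).ncard := fun e => by
    obtain ⟨g, hg, e1, e2⟩ := tD _ _ _ _ e d0
    exact tl g fun w => e1 ▸ e2 ▸ and_congr (iR.iff hg _ _) (iR.iff hg _ _)
  have o1 : ∀ {w y}, R w y → {z | D y z} ∩ {z | R w z} = {z | R w z} \ {y} := fun {w y} e => Set.ext fun z =>
    ⟨fun a => ⟨a.2, fun b => a.1.1 b.symm⟩, fun a => ⟨⟨fun b => a.2 b.symm, w, e, a.1⟩, a.1⟩⟩
  have o2 : ∀ {w y}, R w y → ({z | D y z} ∩ {z | R w z}).ncard = k := fun {w y} e => by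
    rw [o1 e, Set.ncard_sdiff_singleton_of_mem (s := {z | R w z}) e, ko w (rO e).1]; rfl
  have ct := dc (A := {w | R w y₀}) (B := {z | D y₀ z}) R (fun w hw => o2 hw) fun z hz => mu hz
  have m1 := Set.ncard_le_ncard (Set.inter_subset_left (s := {w | R w y₀}) (t := {w | R w y₁}))
  have m2 := mx (y₀, y₁) ⟨(dO d0).1, (dO d0).2, y01⟩
  have m3 := (h _ (dO d0).1 _ (dO d0).2 y01).1
  simp only at m2
  rw [← iD.out tD d0] at m2 m3
  have kd : ∀ y ∈ O, {z | D y z}.ncard = {z | D y₀ z}.ncard := fun y hy => iD.val hO hy (dO d0).1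
  rw [ki _ (dO d0).1] at ct m1
  generalize ({w | R w y₀} ∩ {w | R w y₁}).ncard = μ at mu ct m1
  generalize {z | D y₀ z}.ncard = d at kd ct m2 m3
  have m4 : μ ≤ k := by
    by_contra a
    rw [show μ = k + 1 by omega, mul_comm] at ct
    rw [← Nat.eq_of_mul_eq_mul_right (Nat.succ_pos k) ct] at m3
    exact (Nat.odd_add_one.1 k1) m3
  obtain rfl : d = k + 1 := by nlinarith
  obtain rfl : k = μ := Nat.eq_of_mul_eq_mul_left (Nat.succ_pos k) ct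
  have u1 : ∀ {y z e e'}, D y z → ¬ R e y → R e z → ¬ R e' y → R e' z → e = e' := fun {y z e e'} a b1 b2 b3 b4 => by
    obtain ⟨o, ho⟩ := one (ki z (dO a).2) (Set.inter_comm _ _ ▸ mu a)
    exact (show e ∈ ({o} : Set Ω) from ho ▸ ⟨b2, b1⟩).trans (show e' ∈ ({o} : Set Ω) from ho ▸ ⟨b4, b3⟩).symm
  have u2 : ∀ {y z z' e e'}, D y z → D y z' → ¬ R e y → R e z → ¬ R e' y → R e' z' → e = e' :=
    fun {y z z' e e'} a a' b1 b2 b3 b4 => by
      by_cases n : z = z'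
      · exact u1 a b1 b2 b3 (n ▸ b4)
      obtain ⟨o, ho⟩ := one (ki y (dO a).1) (mu a)
      obtain ⟨o', ho'⟩ := one (ki y (dO a).1) (mu a')
      have h1 : o ∈ {w | R w y} \ {w | R w z} := ho ▸ rfl
      have h2 : o' ∈ {w | R w y} \ {w | R w z'} := ho' ▸ rfl
      have oo : o' ≠ o := fun q => by
        obtain ⟨p, hp⟩ := one (kd y (dO a).1) (o2 h1.1)
        exact n ((show z ∈ ({p} : Set Ω) from hp ▸ ⟨a, h1.2⟩).trans
          (show z' ∈ ({p} : Set Ω) from hp ▸ ⟨a', q ▸ h2.2⟩).symm)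
      have h3 : (({w | R w y} \ {o}) \ {o'}).ncard = k - 1 := by
        rw [Set.ncard_sdiff_singleton_of_mem (Set.mem_sdiff_singleton.2 ⟨h2.1, oo⟩), Set.ncard_sdiff_singleton_of_mem h1.1, ki y (dO a).1]; rfl
      obtain ⟨w, hw⟩ := (Set.ncard_pos (Set.toFinite _)).1 (h3 ▸ (by omega : 0 < k - 1))
      have h4 := mu ⟨n, w, by_contra fun q => hw.1.2 (ho ▸ ⟨hw.1.1, q⟩), by_contra fun q => hw.2 (ho' ▸ ⟨hw.1.1, q⟩)⟩
      obtain ⟨v, hv, q⟩ := Set.exists_mem_notMem_of_ncard_lt_ncard (h3.trans_lt ((by omega : k - 1 < k).trans_eq h4.symm))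
      have h5 : ¬ R v y := fun b => q ⟨⟨b, fun q => h1.2 (q ▸ hv.1)⟩, fun q => h2.2 (q ▸ hv.2)⟩
      exact (u1 a b1 b2 h5 hv.1).trans (u1 a' h5 hv.2 b3 b4)
  have dr : ∀ {y z}, D y z → R y z := fun {y z} a => by
    obtain ⟨e, he⟩ := one (ki z (dO a).2) (Set.inter_comm _ _ ▸ mu a)
    have h1 : e ∈ {w | R w z} \ {w | R w y} := he ▸ rfl
    by_contra n
    have h2 := (h y (dO a).1 e (rO h1.1).1 fun q => n (q ▸ h1.1)).2.1
    have h3 : orb (H ⊓ stabilizer G y) e ⊆ {e} := by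
      rintro _ ⟨g, hg, rfl⟩
      have gy : g • y = y := hg.2
      exact u2 (gy ▸ iD g hg.1 _ _ a) a (fun q => h1.2 ((iR.iff hg.1 _ _).2 (gy.symm ▸ q))) (iR g hg.1 _ _ h1.1) h1.2 h1.1
    have := Set.ncard_le_ncard h3
    rw [Set.ncard_singleton] at this
    omega
  have rd : ∀ {y z}, R y z → D y z := fun {y z} a => by
    have := Set.eq_of_subset_of_ncard_le (s := {z | D y z}) (t := {z | R y z}) (fun _ => dr)
      (by rw [ko y (rO a).1, kd y (rO a).1])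
    exact show z ∈ {z | D y z} from this ▸ a
  have sy : ∀ y z, R y z → R z y := fun y z a => by
    obtain ⟨n, w, b1, b2⟩ := rd a
    exact dr ⟨n.symm, w, b2, b1⟩
  exact ⟨R, k + 1, k3, fun _ _ a => ⟨(rO a).1, (rO a).2.2⟩, sy, fun x y z a b n => dr ⟨n, y, sy _ _ a, b⟩, ko,
    fun _ _ => iR.out tR⟩

end CL.Pron
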