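import Cfsg.Agent.PERM.Pron.Two
import Cfsg.Agent.PERM.Pron.Man

set_option autoImplicit false

namespace CL.Pron

open MulAction

variable {G : Type} [Group G] {Ω : Type} [MulAction G Ω]

namespace Red

/-- `d` lies in all blocks through `a, b, c` -/
def Z (K : Subgroup G) (a b c d : Ω) : Prop := D4 a b c d ∧
  ∀ g : G, g • a ∈ Fx K Ω → g • b ∈ Fx K Ω → g • c ∈ Fx K Ω → g • d ∈ Fx K Ω

theorem d4 (g : G) {a b c d : Ω} : D4 (g • a) (g • b) (g • c) (g • d) ↔ D4 a b c d := by simp [D4]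

theorem d3 {a b c d : Ω} (h : D4 a b c d) : D3 a b c := ⟨h.1, h.2.1, h.2.2.2.1⟩

theorem Ztr {K : Subgroup G} (g : G) {a b c d : Ω} (h : Z K a b c d) : Z K (g • a) (g • b) (g • c) (g • d) :=
  ⟨(d4 g).2 h.1, fun k => by simpa only [mul_smul] using h.2 (k * g)⟩

theorem mem_tr (g : G) {a b c x y : Ω} (h : y ∈ o4 G a b c x) : g • y ∈ o4 G (g • a) (g • b) (g • c) (g • x) := by
  obtain ⟨s, hs, rfl⟩ := h
  rw [mem_S3] at hs
  exact ⟨g * s * g⁻¹, mem_S3.2 (by simp [mul_smul, hs]), by simp [mul_smul]⟩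

theorem o4_tr (g : G) (a b c x : Ω) : o4 G (g • a) (g • b) (g • c) (g • x) = (g • ·) '' o4 G a b c x := by
  ext y
  refine ⟨fun h => ⟨g⁻¹ • y, by simpa using mem_tr g⁻¹ h, by simp⟩, ?_⟩
  rintro ⟨y, h, rfl⟩
  exact mem_tr g h

theorem card_tr (g : G) (a b c x : Ω) : (o4 G (g • a) (g • b) (g • c) (g • x)).ncard = (o4 G a b c x).ncard := by
  rw [o4_tr, Set.ncard_image_of_injective _ (MulAction.injective g)]

theorem two_tr (g : G) {a b c x : Ω} (h : Two (S3 G a b c) (o4 G a b c x)) :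
    Two (S3 G (g • a) (g • b) (g • c)) (o4 G (g • a) (g • b) (g • c) (g • x)) := by
  rw [o4_tr]
  rintro _ ⟨u, hu, rfl⟩ _ ⟨v, hv, rfl⟩ _ ⟨u', hu', rfl⟩ _ ⟨v', hv', rfl⟩ n n'
  obtain ⟨s, hs, e, f⟩ := h u hu v hv u' hu' v' hv' (fun c => n (by rw [c])) fun c => n' (by rw [c])
  rw [mem_S3] at hs
  exact ⟨g * s * g⁻¹, mem_S3.2 (by simp [mul_smul, hs]), by simp [mul_smul, e], by simp [mul_smul, f]⟩

theorem inv4 {a b c : Ω} : ∀ h ∈ S3 G a b c, ∀ x ∈ {x | D4 a b c x}, h • x ∈ {x | D4 a b c x} := fun h hh x hx => by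
  have := (d4 h).2 hx
  rwa [(mem_S3.1 hh).1, (mem_S3.1 hh).2.1, (mem_S3.1 hh).2.2] at this

theorem sub4 {a b c x : Ω} (h : D4 a b c x) : o4 G a b c x ⊆ {x | D4 a b c x} := by
  rintro _ ⟨s, hs, rfl⟩
  exact inv4 s hs x h

theorem orb2 (t : T3 G Ω) {a b : Ω} (ab : a ≠ b) : Orb (stabilizer G a ⊓ stabilizer G b) ({a, b}ᶜ : Set Ω) := by
  intro x hx
  simp only [Set.mem_compl_iff, Set.mem_insert_iff, Set.mem_singleton_iff, not_or] at hx
  ext y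
  simp only [Set.mem_compl_iff, Set.mem_insert_iff, Set.mem_singleton_iff, not_or]
  constructor
  · rintro ⟨s, hs, rfl⟩
    exact ⟨fun e => hx.1 (MulAction.injective s (e.trans (Eq.symm hs.1))),
      fun e => hx.2 (MulAction.injective s (e.trans (Eq.symm hs.2)))⟩
  · intro hy
    obtain ⟨g, g1, g2, g3⟩ := t a b x a b y ⟨ab, Ne.symm hx.1, Ne.symm hx.2⟩ ⟨ab, Ne.symm hy.1, Ne.symm hy.2⟩
    exact ⟨g, ⟨g1, g2⟩, g3⟩

theorem t4_of (t : T3 G Ω) {a b c x : Ω} (h : D3 a b c) (e : {x | D4 a b c x} ⊆ o4 G a b c x) : T4 G Ω := by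
  have k : ∀ p q r s : Ω, D4 p q r s → ∃ g : G, g • a = p ∧ g • b = q ∧ g • c = r ∧ g • x = s := fun p q r s d => by
    obtain ⟨g, rfl, rfl, rfl⟩ := t a b c p q r h (d3 d)
    obtain ⟨u, hu, f⟩ := e (show D4 a b c (g⁻¹ • s) by simpa using (d4 g⁻¹).2 d)
    rw [mem_S3] at hu
    exact ⟨g * u, by simp [mul_smul, hu, f]⟩
  intro p q r s p' q' r' s' d d'
  obtain ⟨g, rfl, rfl, rfl, rfl⟩ := k p q r s d
  obtain ⟨g', rfl, rfl, rfl, rfl⟩ := k p' q' r' s' d'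
  exact ⟨g' * g⁻¹, by simp [mul_smul]⟩

variable [Finite G] [Finite Ω] {K : Subgroup G}

theorem dfc (T : Top K Ω) {U : Set Ω} (h : U ⊆ Fx K Ω) : df K Uᶜ = U.ncard := by
  rw [Set.compl_eq_univ_sdiff, df_diff K (Set.subset_univ _), df_sub h, df, Set.univ_inter, Set.ncard_univ, T.half]
  push_cast
  ring

theorem out (T : Top K Ω) : ∃ y, y ∉ Fx K Ω := by
  have := Set.ncard_add_ncard_compl (Fx K Ω)
  have := T.half
  have := T.three
  exact Set.nonempty_of_ncard_ne_zero (s := (Fx K Ω)ᶜ) (by omega)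

theorem trip (T : Top K Ω) : ∃ a ∈ Fx K Ω, ∃ b ∈ Fx K Ω, ∃ c ∈ Fx K Ω, D3 a b c := by
  obtain ⟨a, b, c, ha, hb, hc, h⟩ := (Set.two_lt_ncard_iff (Set.toFinite _)).1 (show 2 < (Fx K Ω).ncard from T.three)
  exact ⟨a, ha, b, hb, c, hc, h⟩

theorem p2 (T : Top K Ω) {a b : Ω} (ha : a ∈ Fx K Ω) (hb : b ∈ Fx K Ω) : Pn K (stabilizer G a ⊓ stabilizer G b) :=
  T.pn.mono (le_inf ha hb) le_top

theorem noZ (T : Top K Ω) {a b c d : Ω} (z : Z K a b c d) : False := by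
  refine sqs T fun p q r D => ?_
  obtain ⟨g, rfl, rfl, rfl⟩ := T.t3 a b c p q r (d3 z.1) D
  have z' := Ztr g z
  refine ⟨g • d, z', fun e (y : Z K _ _ _ e) => by_contra fun n => ?_⟩
  obtain ⟨u, hu, v, hv, w, hw, D'⟩ := trip T
  obtain ⟨h, rfl, rfl, rfl⟩ := T.t3 _ _ _ u v w D D'
  have m : ∀ x, Z K (g • a) (g • b) (g • c) x → h • x ∈ cl K (stabilizer G (h • g • a) ⊓ stabilizer G (h • g • b))
      {h • g • a, h • g • b}ᶜ (h • g • c) := fun x k => by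
    have k' := Ztr h k
    refine ⟨?_, fun s hs => k'.2 s (by rwa [show s • h • g • a = _ from hs.1]) (by rwa [show s • h • g • b = _ from hs.2])⟩
    rintro (f | f)
    exacts [k'.1.2.2.1 f.symm, k'.1.2.2.2.2.1 (Eq.symm f)]
  have hc : h • g • c ∈ ({h • g • a, h • g • b}ᶜ : Set Ω) := by
    rintro (f | f)
    exacts [D'.2.1 f.symm, D'.2.2 (Eq.symm f)]
  have h3 := (Set.two_lt_ncard_iff (Set.toFinite _)).2 ⟨_, _, h • g • c, m _ y, m _ z', ⟨hc, fun _ _ k => k⟩,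
    fun f => n (MulAction.injective h f), (Ztr h y).1.2.2.2.2.2.symm, (Ztr h z').1.2.2.2.2.2.symm⟩
  obtain ⟨o, ho⟩ := out T
  have := l1 T.ih (p2 T hu hv) (orb2 T.t3 D'.1) (Set.ncard_le_card _) (fun k => ho (k (by
    rintro (f | f)
    exacts [ho (f ▸ hu), ho (f ▸ hv)]))) hc hw h3.le
  rw [dfc T (Set.pair_subset hu hv), Set.ncard_pair D'.1] at this
  omega

theorem nf (T : Top K Ω) {a b c x : Ω} (ha : a ∈ Fx K Ω) (hb : b ∈ Fx K Ω) (hc : c ∈ Fx K Ω) (d : D4 a b c x) :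
    ¬ o4 G a b c x ⊆ Fx K Ω := fun k => by
  have m := orb_cl (O := Set.univ) (p2 T ha hb) hc trivial k
  refine noZ T ⟨d, fun g ga gb gc => ?_⟩
  obtain ⟨n, -, hn, e⟩ := T.pn.witt (Subgroup.mem_top g) (Set.pair_subset ha hb) (by rintro _ (rfl | rfl) <;> assumption)
  have := m.2 (n⁻¹ * g) ⟨show (n⁻¹ * g) • a = a by rw [mul_smul, ← e a (.inl rfl), inv_smul_smul],
    show (n⁻¹ * g) • b = b by rw [mul_smul, ← e b (.inr rfl), inv_smul_smul]⟩
    (by rw [mul_smul]; exact (nz_fx (inv_mem hn) _).2 gc)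
  rw [mul_smul] at this
  exact (nz_fx (inv_mem hn) _).1 this

theorem p3 (T : Top K Ω) {a b c : Ω} (ha : a ∈ Fx K Ω) (hb : b ∈ Fx K Ω) (hc : c ∈ Fx K Ω) : Pn K (S3 G a b c) :=
  T.pn.mono (le_inf (le_inf ha hb) hc) le_top

theorem key (T : Top K Ω) {a b c : Ω} (ha : a ∈ Fx K Ω) (hb : b ∈ Fx K Ω) (hc : c ∈ Fx K Ω) {W : Set Ω}
    (s : W ⊆ {x | D4 a b c x}) (i : ∀ h ∈ S3 G a b c, ∀ x ∈ W, h • x ∈ W) : 0 ≤ df K W ∧ (W.Nonempty → 1 ≤ df K W) :=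
  df_inv T.ih (p3 T ha hb hc) i (by
    rw [← Set.ncard_univ]
    exact Set.ncard_lt_ncard ⟨Set.subset_univ _, fun k => (s (k (Set.mem_univ a))).2.2.1 rfl⟩)
    fun x hx => nf T ha hb hc (s hx)

theorem df3 (T : Top K Ω) {a b c : Ω} (ha : a ∈ Fx K Ω) (hb : b ∈ Fx K Ω) (hc : c ∈ Fx K Ω) (d : D3 a b c) :
    df K {x | D4 a b c x} = 3 := by
  have : {x | D4 a b c x} = ({a, b, c}ᶜ : Set Ω) := by
    ext x
    simp only [D4, Set.mem_setOf_eq, d.1, d.2.1, d.2.2, ne_eq, not_false_eq_true, true_and, Set.mem_compl_iff,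
      Set.mem_insert_iff, Set.mem_singleton_iff, not_or, @eq_comm _ x]
  rw [this, dfc T (by rintro _ (rfl | rfl | rfl) <;> assumption), Set.ncard_eq_three.2 ⟨a, b, c, d.1, d.2.1, d.2.2, rfl⟩]
  rfl

omit [Finite G] [Finite Ω] in
theorem idiff {a b c x : Ω} {W : Set Ω} (i : ∀ h ∈ S3 G a b c, ∀ x ∈ W, h • x ∈ W) :
    ∀ h ∈ S3 G a b c, ∀ y ∈ W \ o4 G a b c x, h • y ∈ W \ o4 G a b c x := fun h hh y hy =>
  ⟨i h hh y hy.1, fun k => hy.2 (by simpa [o4] using smul_mem_orb (inv_mem hh) k)⟩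

end Red

open Red in/-- **Second reduction: `G` is 4-transitive.**  Fix distinct `a b c ∈ F`, `H = G_ab`,
`O = {a,b}ᶜ` (an `H`-orbit by `t3`), `df O = 2`.  By `l1`, `|cl K H O c| ≤ 2`; and `x ∈ cl` iff
`x ∉ {a,b}` and every `g` with `g•a, g•b, g•c ∈ F` has `g•x ∈ F` (`Pn.blk`/`Pn.witt` with
`D = {a,b}`).  Size 2: transport to all triples by `t3`, `sqs`.  Size 1 (then for all triples in
`F`): no `o4 a b c x` lies in `F` (`orb_cl`), `df {a,b,c}ᶜ = 3`, each orbit has `df ≥ 1` and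
`df ≡ size (mod 2)`.  One orbit: 4-transitive.  Otherwise the defects are `1,2` (`two`; the orbit
sizes and the number of orbits are the same for all triples by `t3`) or `1,1,1` (`d1`, transport to
all `x ∈ O` by `H`, `man`, `clq`). -/
theorem Top.t4 [Finite G] [Finite Ω] {K : Subgroup G} (T : Top K Ω) : T4 G Ω := by
  by_contra n4
  have h3 : ∀ a ∈ Fx K Ω, ∀ b ∈ Fx K Ω, ∀ c ∈ Fx K Ω, ∀ x, D4 a b c x → ¬ o4 G a b c x ⊆ Fx K Ω ∧
      (Odd (o4 G a b c x).ncard → df K (o4 G a b c x) = 1) ∧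
      (¬ Odd (o4 G a b c x).ncard → df K (o4 G a b c x) = 2) := fun a ha b hb c hc x d => by
    have h1 := (key T ha hb hc (sub4 d) fun h hh y hy => smul_mem_orb hh hy).2 ⟨x, mem_orb_self _ _⟩
    have h2 := (key T ha hb hc Set.sdiff_subset (idiff (x := x) inv4)).2
      (Set.sdiff_nonempty.2 fun k => n4 (t4_of T.t3 (d3 d) k))
    rw [df_diff K (sub4 d), df3 T ha hb hc (d3 d)] at h2
    refine ⟨nf T ha hb hc d, fun o => ?_, fun o => ?_⟩ <;> rw [Nat.odd_iff] at o <;> unfold df at * <;> omega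
  obtain ⟨a, ha, b, hb, c, hc, D⟩ := trip T
  by_cases od : ∀ x, D4 a b c x → Odd (o4 G a b c x).ncard
  · obtain ⟨o, ho⟩ := out T
    have mO : ∀ x, x ∈ ({a, b}ᶜ : Set Ω) ↔ x ≠ a ∧ x ≠ b := fun x => by simp
    have hm : ∀ x ∈ ({a, b}ᶜ : Set Ω), ∀ y ∈ ({a, b}ᶜ : Set Ω), x ≠ y → Odd (o4 G a b x y).ncard ∧
        3 ≤ (o4 G a b x y).ncard ∧ Two (S3 G a b x) (o4 G a b x y) := fun x hx y hy xy => by
      rw [mO] at hx hy
      obtain ⟨g, g1, g2, rfl⟩ := T.t3 a b c a b x D ⟨D.1, hx.1.symm, hx.2.symm⟩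
      obtain ⟨y, rfl⟩ := MulAction.surjective g y
      have d : D4 a b c y := (d4 g).1 (by rw [g1, g2]; exact ⟨D.1, hx.1.symm, hy.1.symm, hx.2.symm, hy.2.symm, xy⟩)
      obtain ⟨k1, -, k2⟩ := d1 T.ih (p3 T ha hb hc) (orb_orb _ y) (Set.ncard_le_card _) (nf T ha hb hc d)
        ((h3 a ha b hb c hc y d).2.1 (od y d))
      have e := card_tr g a b c y
      have f := two_tr g k2
      rw [g1, g2] at e f
      exact ⟨e ▸ od y d, e ▸ k1, f⟩
    obtain ⟨R, k, hk, r1, r2, r3, r4, r5⟩ := man (orb2 T.t3 D.1) ((mO c).2 ⟨D.2.1.symm, D.2.2.symm⟩)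
      ((mO o).2 ⟨fun e => ho (e ▸ ha), fun e => ho (e ▸ hb)⟩) (fun e => ho (e ▸ hc)) hm
    refine clq T.half T.three ha hb D.1 R hk (fun x y r => ⟨((mO x).1 (r1 x y r).1).1, ((mO x).1 (r1 x y r).1).2,
      (r1 x y r).2⟩) r2 r3 (fun x p q => r4 x ((mO x).2 ⟨p, q⟩)) fun x hx p q => ?_
    have e := r4 x ((mO x).2 ⟨p, q⟩)
    obtain ⟨y, hy⟩ := Set.nonempty_of_ncard_ne_zero (show {y | R x y}.ncard ≠ 0 by omega)
    have m := (r1 y x (r2 x y hy)).1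
    have := (h3 a ha b hb x hx y ⟨D.1, p.symm, ((mO y).1 m).1.symm, q.symm, ((mO y).1 m).2.symm, (r1 x y hy).2⟩).2.1
      (hm x ((mO x).2 ⟨p, q⟩) y m (r1 x y hy).2).1
    rw [r5 x y hy] at e ⊢
    change (o4 G a b x y).ncard = k at e
    change 2 * (o4 G a b x y ∩ Fx K Ω).ncard + 1 = k
    unfold df at this
    omega
  push Not at od
  obtain ⟨y, dy, ey⟩ := od
  have e1 : df K ({x | D4 a b c x} \ o4 G a b c y) = 1 := by
    rw [df_diff K (sub4 dy), df3 T ha hb hc D, (h3 a ha b hb c hc y dy).2.2 ey]; rfl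
  obtain ⟨x, hx⟩ : ({x | D4 a b c x} \ o4 G a b c y).Nonempty := Set.nonempty_iff_ne_empty.2 fun e => by
    rw [e] at e1; simp [df] at e1
  have sx : o4 G a b c x ⊆ {x | D4 a b c x} \ o4 G a b c y := by
    rintro _ ⟨s, hs, rfl⟩
    exact idiff inv4 s hs x hx
  obtain ⟨k0, k1⟩ := key T ha hb hc (Set.sdiff_subset.trans Set.sdiff_subset) (idiff (x := x) (idiff (x := y) inv4))
  rw [df_diff K sx, e1] at k0 k1
  have ox : Odd (o4 G a b c x).ncard := by_contra fun o => by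
    have := (h3 a ha b hb c hc x hx.1).2.2 o
    omega
  have cov : ∀ z, D4 a b c z → z ∈ o4 G a b c x ∨ z ∈ o4 G a b c y := fun z d => by_contra fun n => by
    have := k1 ⟨z, ⟨d, fun k => n (.inr k)⟩, fun k => n (.inl k)⟩
    have := (h3 a ha b hb c hc x hx.1).2.1 ox
    omega
  refine two T (fun p q r u v du dv e => ?_) (fun p q r d => ?_) h3
  · obtain ⟨g, rfl, rfl, rfl⟩ := T.t3 a b c p q r D (d3 du)
    obtain ⟨u, rfl⟩ := MulAction.surjective g u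
    obtain ⟨v, rfl⟩ := MulAction.surjective g v
    rw [card_tr, card_tr] at e
    refine mem_tr g ?_
    have w : ∀ s t : Ω, t ∈ o4 G a b c s → o4 G a b c t = o4 G a b c s := fun s t => orb_orb _ s t
    rcases cov u ((d4 g).1 du) with i | i <;> rcases cov v ((d4 g).1 dv) with j | j
    · exact (w _ _ i).ge j
    · rw [w _ _ i, w _ _ j] at e; exact (ey (e.1 ox)).elim
    · rw [w _ _ i, w _ _ j] at e; exact (ey (e.2 ox)).elim
    · exact (w _ _ i).ge j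
  · obtain ⟨g, rfl, rfl, rfl⟩ := T.t3 a b c p q r D d
    exact ⟨g • x, g • y, (d4 g).2 hx.1, (d4 g).2 dy, by rwa [card_tr], by rwa [card_tr]⟩

end CL.Pron
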