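import Cfsg.Agent.PERM.Pron.Lf
import Cfsg.Agent.S0035
import Cfsg.Agent.PERM.ZassBasic

set_option autoImplicit false

namespace CL.Pron

open MulAction

variable {G : Type} [Group G] [Finite G] {Ω : Type} [Finite Ω] [MulAction G Ω] {F : Set Ω}

theorem Rkx.out {k : G} (hk : k ∈ Kf G F) {c : Ω} (hc : c ∉ F) : k • c ∉ F := fun h =>
  hc (by rwa [smul_left_cancel k (hk _ h)] at h)

theorem Rkx.orb_out {c y : Ω} (hc : c ∉ F) (hy : y ∈ orb (Kf G F) c) : y ∉ F := by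
  obtain ⟨k, hk, rfl⟩ := hy
  exact Rkx.out hk hc

theorem Rkx.nm {x k : G} (hx : x ∈ St G F) (hk : k ∈ Kf G F) : x * k * x⁻¹ ∈ Kf G F := fun y hy => by
  rw [mul_smul, mul_smul, hk _ ((inv_mem hx y).2 hy), smul_inv_smul]

theorem Rkx.ker (E : Eg G F) {c : Ω} (hc : c ∉ F) : ∃ N : Subgroup G,
    (∀ g, g ∈ N ↔ g ∈ Kf G F ∧ (g = 1 ∨ ∀ y ∈ orb (Kf G F) c, g • y ≠ y)) ∧
      ∀ y ∈ orb (Kf G F) c, ∀ z ∈ orb (Kf G F) c, ∃ g ∈ N, g • y = z :=
  CL.Zass.exists_frobenius_kernel (Kf G F) _ (mem_orb_self _ c) (fun _ hh _ hx => smul_mem_orb hh hx) (fun _ hy => hy)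
    fun _ hg _ hy _ hz => E.two hg (Rkx.orb_out hc hy) (Rkx.orb_out hc hz)

/-- **The subgroup `R`.**  If `K₁` is semiregular on `Fᶜ`, `R = K₁` (non-trivial by `hN`/`orb5`).
Otherwise `H = (K₁)_{c₀} ≠ 1` for some `c₀ ∉ F` is a Frobenius complement in `K₁` (`Eg.two`; proper
by `orb5`); `S0035` gives the kernel `R(c₀)` = `1` and the elements fixing no point of the orbit of
`c₀`, normal, with `K₁ = R H`.  No other orbit has a non-trivial stabiliser `H₂`: else `H₂ ≤ R`,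
`H ≤ R₂` (`Eg.two`), and for `1 ≠ h ∈ H` the map `r ↦ r h r⁻¹ h⁻¹ : R → R ⊓ R₂` is injective
(`C_R(h) = 1`: `r` would fix `c₀`), so `H₂ ≤ R ≤ R₂`, `H₂ = 1`.  So `R` = `1` and the elements of
`K₁` fixing no point of `Fᶜ`, which is `X`-invariant. -/
theorem Eg.rk (E : Eg G F) : ∃ R : Subgroup G, Rk F R := by
  have ne : ∀ c, c ∉ F → ∃ y ∈ orb (Kf G F) c, y ≠ c := fun c hc => by
    by_contra! k
    have := Set.ncard_le_ncard (show orb (Kf G F) c ⊆ {c} from k)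
    rw [Set.ncard_singleton] at this
    have := E.orb5 hc
    omega
  by_cases q : ∀ r ∈ Kf G F, ∀ c, c ∉ F → r • c = c → r = 1
  · refine ⟨Kf G F, le_rfl, fun k => ?_, fun x hx r hr => Rkx.nm hx hr, q, .inl rfl⟩
    obtain ⟨c, hc⟩ : ∃ c, c ∉ F := by
      by_contra! l
      have h1 := E.half
      have h2 := E.three
      rw [Set.eq_univ_of_forall l, Set.ncard_univ] at h1 h2
      omega
    obtain ⟨_, ⟨g, hg, rfl⟩, l⟩ := ne c hc
    exact l (by rw [Subgroup.mem_bot.1 (k.le hg), one_smul])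
  push Not at q
  obtain ⟨h, hh, c₀, h0, hc, h1⟩ := q
  obtain ⟨N, hN, tr⟩ := Rkx.ker E h0
  have cl : ∀ c, c ∉ F → c ∉ orb (Kf G F) c₀ → ∀ k ∈ Kf G F, k • c = c → k = 1 := fun c c1 c2 k hk kc => by
    by_contra k1
    obtain ⟨M, hM, -⟩ := Rkx.ker E c1
    have dj : ∀ y ∈ orb (Kf G F) c₀, ∀ z ∈ orb (Kf G F) c, y ≠ z := by
      rintro y hy _ hz rfl
      exact c2 (by rw [← orb_orb _ _ y hy, orb_orb _ _ y hz]; exact mem_orb_self _ _)
    have a1 : ∀ g ∈ Kf G F, ∀ y ∈ orb (Kf G F) c₀, g • y = y → g ∈ M := fun g hg y hy e =>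
      (hM g).2 ⟨hg, or_iff_not_imp_left.2 fun g1 z hz f =>
        g1 (E.two hg (Rkx.orb_out h0 hy) (Rkx.orb_out c1 hz) (dj y hy z hz) e f)⟩
    have kN : k ∈ N := (hN k).2 ⟨hk, .inr fun y hy e =>
      k1 (E.two hk (Rkx.orb_out h0 hy) c1 (dj y hy c (mem_orb_self _ _)) e kc)⟩
    by_cases p : h * k ∈ N
    · exact (((hN h).1 ((mul_mem_cancel_right kN).1 p)).2.resolve_left h1) _ (mem_orb_self _ _) hc
    · rw [hN, not_and, not_or] at p
      obtain ⟨-, p⟩ := p (mul_mem hh hk)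
      push Not at p
      obtain ⟨y, hy, e⟩ := p
      exact (((hM k).1 ((mul_mem_cancel_left (a1 h hh c₀ (mem_orb_self _ _) hc)).1
        (a1 _ (mul_mem hh hk) y hy e))).2.resolve_left k1) _ (mem_orb_self _ _) kc
  have sr : ∀ r ∈ N, ∀ c, c ∉ F → r • c = c → r = 1 := fun r hr c c1 e => by
    by_cases p : c ∈ orb (Kf G F) c₀
    · exact ((hN r).1 hr).2.resolve_right fun l => l c p e
    · exact cl c c1 p r ((hN r).1 hr).1 e
  refine ⟨N, fun r hr => ((hN r).1 hr).1, fun k => ?_, fun x hx r hr => (hN _).2 ⟨Rkx.nm hx ((hN r).1 hr).1, ?_⟩, sr,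
    .inr ⟨c₀, h0, Set.ext fun y => ⟨fun hy => tr _ (mem_orb_self _ _) y hy, ?_⟩, cl⟩⟩
  · obtain ⟨y, hy, l⟩ := ne c₀ h0
    obtain ⟨g, hg, rfl⟩ := tr _ (mem_orb_self _ _) y hy
    exact l (by rw [Subgroup.mem_bot.1 (k.le hg), one_smul])
  · refine or_iff_not_imp_left.2 fun k y hy e => k ?_
    rw [mul_smul, mul_smul, ← eq_inv_smul_iff] at e
    rw [sr r hr _ (fun l => Rkx.orb_out h0 hy ((inv_mem hx y).1 l)) e, mul_one, mul_inv_cancel]
  · rintro ⟨g, hg, rfl⟩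
    exact ⟨g, ((hN g).1 hg).1, rfl⟩

theorem Rkx.fix {α : Type} [Finite α] {p : ℕ} [Fact p.Prime] (f : Equiv.Perm α) (hf : f ^ p = 1) {A : Set α}
    (hA : Set.MapsTo f A A) (ne : ¬ p ∣ A.ncard) : ∃ b ∈ A, f b = b := by
  classical
  have := Fintype.ofFinite A
  obtain ⟨b, hb⟩ := Equiv.Perm.exists_fixed_point_of_prime (p := p) (n := 1)
    (σ := f.subtypePerm (p := (· ∈ A)) fun b => ⟨fun h => by
      simpa using Equiv.Perm.perm_symm_mapsTo_of_mapsTo f hA h, fun h => hA h⟩)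
    (by rwa [← Nat.card_eq_fintype_card]) (by rw [pow_one, Equiv.Perm.subtypePerm_pow]; ext; simp [hf])
  exact ⟨b, b.2, congrArg Subtype.val hb⟩

theorem Rkx.os {α : Type} [Finite α] [MulAction G α] (b : α) {S : Set α} (hS : S ⊆ orbit G b) :
    {g : G | g • b ∈ S}.ncard = S.ncard * {g : G | g • b = b}.ncard := by
  refine Cnt.fib (· • b) _ _ _ (fun _ h => h) fun c hc => ?_
  obtain ⟨t, rfl⟩ := hS hc
  rw [← Set.ncard_preimage_of_injective_subset_range (s := {g : G | g • b = b}) (f := fun g => t⁻¹ * g)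
    (mul_right_injective _) (fun x _ => ⟨t * x, by group⟩)]
  congr 1
  ext g
  simp only [Set.mem_ofPred_eq, Set.mem_preimage, mul_smul, inv_smul_eq_iff, and_iff_right_iff_imp]
  exact fun e => e ▸ hc

theorem Rkx.pr {r : G} (h : r ≠ 1) : ∃ q n : ℕ, q.Prime ∧ r ^ n ≠ 1 ∧ (r ^ n) ^ q = 1 := by
  have o : orderOf r ≠ 1 := by rwa [Ne, orderOf_eq_one_iff]
  have pq := Nat.minFac_prime o
  exact ⟨_, orderOf r / (orderOf r).minFac, pq, pow_ne_one_of_lt_orderOf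
    (Nat.div_pos (Nat.minFac_le (orderOf_pos r)) pq.pos).ne' (Nat.div_lt_self (orderOf_pos r) pq.one_lt),
    by rw [← pow_mul, Nat.div_mul_cancel (Nat.minFac_dvd _), pow_orderOf_eq_one]⟩

open scoped Pointwise in
theorem Rkx.blk (E : Eg G F) {x : G} (hx : x ∈ Kf G F) {p : ℕ} [Fact p.Prime] (hp : x ^ p = 1) :
    ∃ g : G, g • F ≠ F ∧ x • g • F = g • F := by
  obtain ⟨a, ha⟩ : F.Nonempty := Set.nonempty_of_ncard_ne_zero (by have := E.three; omega)
  have h4 : 4 ≤ Nat.card Ω := by have := E.three; have := E.half; omega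
  let A : Prop → Set (Set Ω) := fun P => {B | B ∈ orbit G F ∧ (a ∈ B ↔ P)}
  have c : ∀ P : Prop, (A P).ncard * {g : G | g • F = F}.ncard =
      {c | c ∈ F ↔ P}.ncard * {g : G | g • a = a}.ncard := fun P => by
    rw [← Rkx.os F (S := A P) fun _ h => h.1, ← Rkx.os a fun c _ => by
      obtain ⟨d, e, f, -⟩ := Cnt.ex h4 a c c
      obtain ⟨g, k, -⟩ := E.t4.t2 h4 e f
      exact ⟨g, k⟩, ← Set.ncard_inv]
    congr 1
    ext g
    simp [A, Set.mem_smul_set_iff_inv_smul_mem]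
  have e : (A True).ncard = (A False).ncard := by
    refine Nat.eq_of_mul_eq_mul_right ((Set.ncard_pos (s := {g : G | g • F = F})).2 ⟨1, one_smul G F⟩) ?_
    rw [c, c]
    congr 1
    have := Set.ncard_add_ncard_compl F
    have := E.half
    simp only [iff_true, iff_false, Set.ofPred_mem_eq]
    change _ = Fᶜ.ncard
    omega
  have m : ∀ P, Set.MapsTo (toPerm x) (A P) (A P) := by
    rintro P _ ⟨⟨g, rfl⟩, h⟩
    exact ⟨⟨x * g, mul_smul _ _ _⟩, by
      rwa [toPerm_apply, Set.mem_smul_set_iff_inv_smul_mem, inv_mem hx a ha]⟩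
  have xp : (toPerm x : Equiv.Perm (Set Ω)) ^ p = 1 := by rw [← toPermHom_apply, ← map_pow, hp, map_one]
  by_cases q : p ∣ (A False).ncard
  · have xF : x • F = F := Set.ext fun c => by
      rw [Set.mem_smul_set_iff_inv_smul_mem]
      exact ⟨fun h => by_contra fun l => Rkx.out (inv_mem hx) l h, fun h => by rwa [inv_mem hx c h]⟩
    obtain ⟨_, ⟨⟨⟨g, rfl⟩, -⟩, k⟩, l⟩ := Rkx.fix (toPerm x) xp (A := A True \ {F})
      (fun B hB => ⟨m _ hB.1, fun k => hB.2 (smul_left_cancel x (k.trans xF.symm))⟩) fun d => by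
        rw [← e, ← Set.ncard_sdiff_singleton_add_one (show F ∈ A True from ⟨mem_orbit_self _, by simpa using ha⟩),
          Nat.dvd_add_right d, Nat.dvd_one] at q
        exact (Fact.out : p.Prime).one_lt.ne' q
    exact ⟨g, k, l⟩
  · obtain ⟨_, ⟨⟨g, rfl⟩, k⟩, l⟩ := Rkx.fix (toPerm x) xp (m False) q
    exact ⟨g, fun f => k.1 (f.ge ha), l⟩

/-- **A commuting pair.**  Take `x ∈ R` of prime order `p`, `a ∈ F`, blocks `B_g = {c | g • c ∈ F}`.
As many blocks contain `a` as miss `a` (`|Ω| = 2|F|`, transitivity, double count; or count `g`).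
`⟨x⟩` permutes the blocks through `a` (`x • B_g = B_{g x⁻¹}`) and those missing `a`; if `F` were the
only fixed block the common number would be `≡ 1` and `≡ 0 (mod p)`.  So `x` fixes a block
`B_g ≠ F`, i.e. `g x g⁻¹ ∈ X` normalises `R`, has `p`-th power 1, `p ∣ |R|`, so it centralises some
`r ∈ R` of prime order `q`.  `y = g⁻¹ r g` commutes with `x`, so it preserves `Fix x = F`. -/
theorem Eg.pair (E : Eg G F) {R : Subgroup G} (hR : Rk F R) :
    ∃ (g y x : G) (q : ℕ), q.Prime ∧ y ≠ 1 ∧ y ^ q = 1 ∧ g * y * g⁻¹ ∈ R ∧ y ∈ St G F ∧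
      g ∉ St G F ∧ x ∈ R ∧ x ≠ 1 ∧ x * y = y * x := by
  obtain ⟨⟨x₀, h0⟩, x1⟩ := Subgroup.ne_bot_iff_exists_ne_one.1 hR.ne
  obtain ⟨p, n, pp, x1, xp⟩ := Rkx.pr (r := x₀) fun k => x1 (Subtype.ext k)
  have xR := R.pow_mem h0 n
  generalize x₀ ^ n = x at x1 xp xR
  have := Fact.mk pp
  obtain ⟨g, g1, g2⟩ := Rkx.blk E (hR.le xR) xp
  have u : g⁻¹ * x * g ∈ St G F := fun c => by
    rw [mul_smul, mul_smul, ← Set.mem_smul_set_iff_inv_smul_mem, ← g2, Set.smul_mem_smul_set_iff,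
      Set.smul_mem_smul_set_iff]
  obtain ⟨r, ⟨rR, r1⟩, e⟩ := Rkx.fix (p := p) (MulAut.toPerm G (MulAut.conj (g⁻¹ * x * g)))
    (by rw [← map_pow, ← map_pow, show (g⁻¹ * x * g) ^ p = 1 by
      simpa [xp] using conj_pow (a := g⁻¹) (b := x) (i := p), map_one, map_one]) (A := (R : Set G) \ {1})
    (fun r hr => ⟨hR.nm _ u r hr.1, fun k => hr.2 (conj_eq_one_iff.1 k)⟩) fun d => by
      have q : p ∣ (R : Set G).ncard := orderOf_eq_prime xp x1 ▸ R.orderOf_dvd_natCard xR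
      rw [← Set.ncard_sdiff_singleton_add_one (a := (1 : G)) R.one_mem, Nat.dvd_add_right d, Nat.dvd_one] at q
      exact pp.one_lt.ne' q
  obtain ⟨q, m, qq, y1, yq⟩ := Rkx.pr (r := r) r1
  have cm : Commute (g⁻¹ * x * g) (r ^ m) := Commute.pow_right (mul_inv_eq_iff_eq_mul.1 e) m
  have yR := R.pow_mem rR m
  generalize r ^ m = y at y1 yq yR cm
  have c2 : x * (g * y * g⁻¹) = g * y * g⁻¹ * x := by
    simpa [mul_assoc] using congrArg (fun t => g * t * g⁻¹) cm.eq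
  have fx : ∀ c, c ∈ F ↔ x • c = c := fun c =>
    ⟨hR.le xR c, fun k => by_contra fun l => x1 (hR.sr x xR c l k)⟩
  refine ⟨g⁻¹, g * y * g⁻¹, x, q, qq, fun k => y1 (conj_eq_one_iff.1 k), by rw [conj_pow, yq]; simp,
    by simpa [mul_assoc] using yR, fun c => ?_, fun k => g1 (Set.ext fun c => ?_), xR, x1, c2⟩
  · rw [fx, fx, ← mul_smul, c2, mul_smul, smul_left_cancel_iff]
  · rw [Set.mem_smul_set_iff_inv_smul_mem, k]

end CL.Pron
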