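import Cfsg.Agent.PERM.Pron.Base

set_option autoImplicit false

namespace CL.Pron

open MulAction

variable {G : Type} [Group G] {Ω : Type} [MulAction G Ω]

namespace Sq

theorem dc {α β : Type} [Finite α] [Finite β] (A : Set α) (B : Set β) (r : α → β → Prop) :
    ∑ᶠ a ∈ A, {b | b ∈ B ∧ r a b}.ncard = ∑ᶠ b ∈ B, {a | a ∈ A ∧ r a b}.ncard := by
  classical
  rw [finsum_mem_eq_finite_toFinset_sum _ A.toFinite, finsum_mem_eq_finite_toFinset_sum _ B.toFinite]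
  have := Finset.sum_card_bipartiteAbove_eq_sum_card_bipartiteBelow (s := A.toFinite.toFinset)
    (t := B.toFinite.toFinset) r
  convert this using 2 with a _ b _
  · rw [← Set.ncard_coe_finset]
    congr 1
    ext; simp
  · rw [← Set.ncard_coe_finset]
    congr 1
    ext; simp

theorem cst {α : Type} [Finite α] (A : Set α) (f : α → ℕ) (m : ℕ) (h : ∀ a ∈ A, f a = m) :
    ∑ᶠ a ∈ A, f a = A.ncard * m := by
  rw [finsum_mem_eq_finite_toFinset_sum _ A.toFinite, Set.ncard_eq_toFinset_card A A.toFinite,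
    Finset.sum_congr rfl fun a ha => h a (by simpa using ha), Finset.sum_const, smul_eq_mul]

theorem dc' {α β : Type} [Finite α] [Finite β] (A : Set α) (B : Set β) (r : α → β → Prop) {m n : ℕ}
    (h1 : ∀ a ∈ A, {b | b ∈ B ∧ r a b}.ncard = m) (h2 : ∀ b ∈ B, {a | a ∈ A ∧ r a b}.ncard = n) :
    A.ncard * m = B.ncard * n := by
  rw [← cst A _ m h1, ← cst B _ n h2, dc]

theorem lg1 {A B C D : Prop} (a1 : A → B → C → D) (a2 : A → B → D → C) (a3 : A → C → D → B)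
    (a4 : B → C → D → A) (b1 : A → ¬ B → ¬ C → D) (b2 : B → ¬ A → ¬ C → D) (b3 : C → ¬ A → ¬ B → D)
    (b4 : D → ¬ A → ¬ B → C) : (A ↔ B) ↔ (C ↔ D) := by
  by_cases A <;> by_cases B <;> by_cases C <;> by_cases D <;> simp_all

theorem lg2 {A B C D A' B' C' D' : Prop} (e : (A ↔ B) ↔ (C ↔ D)) (e' : (A' ↔ B') ↔ (C' ↔ D'))
    (a : ¬ (A ↔ A')) (b : ¬ (B ↔ B')) (c : ¬ ¬ (C ↔ C')) (d : ¬ (D ↔ D')) : False := by
  by_cases A <;> by_cases B <;> by_cases C <;> by_cases D <;> simp_all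

/-- planes -/
def Pl (G : Type) [Group G] [MulAction G Ω] (F : Set Ω) (a b c d : Ω) : Prop :=
  D4 a b c d ∧ ∀ g : G, g • a ∈ F → g • b ∈ F → g • c ∈ F → g • d ∈ F

variable {F : Set Ω} {a b c d : Ω}

theorem Pl.s12 (h : Pl G F a b c d) : Pl G F b a c d := by
  obtain ⟨⟨a1, a2, a3, a4, a5, a6⟩, h⟩ := h
  exact ⟨⟨a1.symm, a4, a5, a2, a3, a6⟩, fun g x y z => h g y x z⟩

theorem Pl.s23 (h : Pl G F a b c d) : Pl G F a c b d := by
  obtain ⟨⟨a1, a2, a3, a4, a5, a6⟩, h⟩ := h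
  exact ⟨⟨a2, a1, a3, a4.symm, a6, a5⟩, fun g x y z => h g x z y⟩

theorem Pl.s34 [Finite G] (t : T3 G Ω) (h : Pl G F a b c d) : Pl G F a b d c := by
  obtain ⟨⟨a1, a2, a3, a4, a5, a6⟩, h⟩ := h
  refine ⟨⟨a1, a3, a2, a5, a4, a6.symm⟩, fun g x y z => ?_⟩
  obtain ⟨s, s1, s2, s3⟩ := t a b c a b d ⟨a1, a2, a4⟩ ⟨a1, a3, a5⟩
  have e : {g : G | g • a ∈ F ∧ g • b ∈ F ∧ g • c ∈ F} = {g | g • a ∈ F ∧ g • b ∈ F ∧ g • d ∈ F} := by
    refine Set.eq_of_subset_of_ncard_le (fun g hg => ⟨hg.1, hg.2.1, h g hg.1 hg.2.1 hg.2.2⟩) ?_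
    refine Set.ncard_le_ncard_of_injOn (fun g => g * s) (fun g hg => ?_)
      (mul_left_injective s).injOn
    simpa only [Set.mem_ofPred_eq, mul_smul, s1, s2, s3] using hg
  exact (e.ge (show g ∈ {g : G | g • a ∈ F ∧ g • b ∈ F ∧ g • d ∈ F} from ⟨x, y, z⟩)).2.2

theorem inj [Finite G] (t : T3 G Ω) (h : ∀ a b c : Ω, D3 a b c → ∃! d, Pl G F a b c d)
    {W : Set Ω} (ha : a ∈ W) (hc : c ∉ W) (ev : ∀ b d, Pl G F a b c d → b ∈ W → d ∉ W) :
    ∃ φ : Ω → Ω, (∀ b ∈ W \ {a}, Pl G F a b c (φ b)) ∧ φ '' (W \ {a}) ⊆ Wᶜ \ {c} ∧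
      (φ '' (W \ {a})).ncard = (W \ {a}).ncard := by
  have : ∀ b, ∃ d, b ∈ W \ {a} → Pl G F a b c d := fun b => by
    by_cases hb : b ∈ W \ {a}
    · obtain ⟨d, hd, -⟩ := h a b c ⟨fun e => hb.2 e.symm, fun e => hc (e ▸ ha), fun e => hc (e ▸ hb.1)⟩
      exact ⟨d, fun _ => hd⟩
    · exact ⟨a, fun k => absurd k hb⟩
  choose φ hφ using this
  refine ⟨φ, hφ, ?_, Set.InjOn.ncard_image fun b hb b' hb' e => ?_⟩
  · rintro _ ⟨b, hb, rfl⟩
    exact ⟨ev b _ (hφ b hb) hb.1, (hφ b hb).1.2.2.2.2.2.symm⟩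
  · have p := (hφ b hb).s23.s34 t
    have p' := (hφ b' hb').s23.s34 t
    rw [← e] at p'
    exact (h _ _ _ ⟨p.1.1, p.1.2.1, p.1.2.2.2.1⟩).unique p p'

theorem blk [Finite Ω] (F : Set Ω) (g : G) : {x | g • x ∈ F}.ncard = F.ncard :=
  Set.ncard_preimage_of_injective_subset_range (MulAction.injective g)
    (by rw [(MulAction.surjective g).range_eq]; exact Set.subset_univ _)

theorem ev [Finite G] [Finite Ω] (t : T3 G Ω) (half : Nat.card Ω = 2 * F.ncard)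
    (h : ∀ a b c : Ω, D3 a b c → ∃! d, Pl G F a b c d) (g : G) (p : Pl G F a b c d) :
    (g • a ∈ F ↔ g • b ∈ F) ↔ (g • c ∈ F ↔ g • d ∈ F) := by
  have one : ∀ {a b c d : Ω}, Pl G F a b c d → g • a ∈ F → g • b ∉ F → g • c ∉ F → g • d ∈ F := by
    intro a c d b p ha hc hd
    obtain ⟨φ, h1, h2, h3⟩ := inj (W := {x | g • x ∈ F}) t h ha hc
      fun b d q hb hd => hc ((q.s34 t).2 g ha hb hd)
    have c1 := Set.ncard_sdiff_singleton_add_one (s := {x | g • x ∈ F}) ha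
    have c2 := Set.ncard_sdiff_singleton_add_one (s := {x | g • x ∈ F}ᶜ) hc
    have c3 := Set.ncard_add_ncard_compl {x | g • x ∈ F}
    have c4 := blk F g
    have e := Set.eq_of_subset_of_ncard_le h2 (by omega)
    obtain ⟨b', hb', e'⟩ := e.ge (show d ∈ _ from ⟨hd, p.1.2.2.2.1.symm⟩)
    have q := (h1 b' hb').s23.s34 t
    rw [e'] at q
    rw [(h _ _ _ ⟨p.1.1, p.1.2.1, p.1.2.2.2.1⟩).unique p q]
    exact hb'.1
  exact lg1 (p.2 g) ((p.s34 t).2 g) ((p.s23.s34 t).2 g) ((p.s12.s23.s34 t).2 g) (one p) (one p.s12)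
    (one p.s23.s12) (one (p.s34 t).s23.s12)

end Sq

open Sq

/-- **Steiner quadruple systems.**  Write `Pl a b c d` for the relation in `h`, `n = 2 f`, and call
`B_g = {x | g • x ∈ F}` a block (size `f`).  `Pl` is symmetric in all four places (in `a b c`
trivially; `Pl a b c d → Pl a b d c` since by `t3` the sets `{g | g•a, g•b, g•c ∈ F} ⊆
{g | g•a, g•b, g•d ∈ F}` have the same size).  (1) For a block `B`, `a ∈ B`, `c ∉ B` the map
`b ∈ B \ {a} ↦ d(a,b,c) ∈ Bᶜ \ {c}` is injective, so bijective; hence no plane has exactly one (or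
exactly three) points in `B`.  (2) `W = F ∆ B` meets each plane in an even number of points and
`W ≠ univ` (`Pn.lemN`, `F ≠ univ`); if `a ∈ W`, `c ∉ W`, then `b ∈ W \ {a} ↦ d(a,b,c) ∈ Wᶜ \ {c}` is
injective, so `|W| ≤ f`, i.e. `f ≤ 2 |F ∩ B|`.  (3) `∑_g 2 |F ∩ B_g| = |G| f` (double counting:
`#{g | g • x ∈ F}` does not depend on `x`, so it is `|G|/2`), but the term `g = 1` is `2 f > f`. -/
theorem sqs [Finite G] [Finite Ω] {K : Subgroup G} (T : Top K Ω)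
    (h : ∀ a b c : Ω, D3 a b c → ∃! d, D4 a b c d ∧
      ∀ g : G, g • a ∈ Fx K Ω → g • b ∈ Fx K Ω → g • c ∈ Fx K Ω → g • d ∈ Fx K Ω) : False := by
  classical
  have t := T.t3
  have half := T.half
  have three := T.three
  replace h : ∀ a b c : Ω, D3 a b c → ∃! d, Pl G (Fx K Ω) a b c d := h
  have key : ∀ g : G, (Fx K Ω).ncard ≤ 2 * {x | x ∈ Fx K Ω ∧ g • x ∈ Fx K Ω}.ncard := fun g => by
    let W : Set Ω := {x | ¬ (x ∈ Fx K Ω ↔ g • x ∈ Fx K Ω)}
    have w1 : W.ncard ≤ (Fx K Ω).ncard := by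
      rcases W.eq_empty_or_nonempty with e | ⟨a, ha⟩
      · simp [e]
      obtain ⟨c, hc⟩ : ∃ c, c ∉ W := by
        by_contra k
        push Not at k
        obtain ⟨c, hc⟩ : (Fx K Ω)ᶜ.Nonempty := Set.nonempty_of_ncard_ne_zero (by
          have := Set.ncard_add_ncard_compl (Fx K Ω)
          omega)
        refine hc (T.pn.lemN (Subgroup.mem_top g) fun u hu => by_contra fun k' => k (u • c) ?_)
        refine iff_of_false (fun k'' => hc ?_) k'
        have := k'' u⁻¹ (inv_mem hu)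
        rw [inv_smul_smul] at this
        rwa [← this] at k''
      obtain ⟨φ, -, h2, h3⟩ := inj t h ha hc fun b d q hb hd => by
        have e1 := ev t half h 1 q
        simp only [one_smul] at e1
        exact lg2 e1 (ev t half h g q) ha hb hc hd
      have c1 := Set.ncard_sdiff_singleton_add_one (s := W) ha
      have c2 := Set.ncard_sdiff_singleton_add_one (s := Wᶜ) hc
      have c3 := Set.ncard_add_ncard_compl W
      have := Set.ncard_le_ncard h2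
      omega
    have c1 := Set.ncard_union_add_ncard_inter (Fx K Ω) {x | g • x ∈ Fx K Ω}
    have c2 := blk (Fx K Ω) g
    have c3 : (Fx K Ω ∪ {x | g • x ∈ Fx K Ω}).ncard ≤
        W.ncard + (Fx K Ω ∩ {x | g • x ∈ Fx K Ω}).ncard :=
      (Set.ncard_le_ncard fun x hx => (em (x ∈ W)).imp id fun k =>
        hx.elim (fun j => ⟨j, (not_not.1 k).1 j⟩) fun j => ⟨(not_not.1 k).2 j, j⟩).trans
        (Set.ncard_union_le _ _)
    have c4 : {x | x ∈ Fx K Ω ∧ g • x ∈ Fx K Ω} = Fx K Ω ∩ {x | g • x ∈ Fx K Ω} := rfl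
    rw [c4]
    omega
  obtain ⟨a, -, b, -, c, -, ab, ac, bc⟩ := (Set.two_lt_ncard (Fx K Ω).toFinite).1 three
  have tr : ∀ x : Ω, {g : G | g ∈ Set.univ ∧ g • x ∈ Fx K Ω}.ncard =
      {g : G | g • a ∈ Fx K Ω}.ncard := fun x => by
    obtain ⟨s, hs⟩ : ∃ s : G, s • x = a := by
      by_cases xa : x = a
      · exact ⟨1, by rw [one_smul, xa]⟩
      by_cases xb : x = b
      · obtain ⟨s, k, -⟩ := t b a c a b c ⟨ab.symm, bc, ac⟩ ⟨ab, ac, bc⟩
        exact ⟨s, xb ▸ k⟩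
      · obtain ⟨s, k, -⟩ := t x a b a b c ⟨xa, xb, ab⟩ ⟨ab, ac, bc⟩
        exact ⟨s, k⟩
    rw [← Set.ncard_image_of_injective {g : G | g • a ∈ Fx K Ω} (mul_left_injective s)]
    congr 1
    ext g
    refine ⟨fun k => ⟨g * s⁻¹, ?_, by simp⟩, ?_⟩
    · show (g * s⁻¹) • a ∈ Fx K Ω
      rw [← hs, mul_smul, inv_smul_smul]
      exact k.2
    · rintro ⟨u, hu, rfl⟩
      exact ⟨trivial, by rw [mul_smul, hs]; exact hu⟩
  have e1 := dc' (Set.univ : Set Ω) (Set.univ : Set G) (fun x g => g • x ∈ Fx K Ω)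
    (fun x _ => tr x) (n := (Fx K Ω).ncard) fun g _ => by simpa using blk (Fx K Ω) g
  have e2 := dc (Fx K Ω) (Set.univ : Set G) (fun x g => g • x ∈ Fx K Ω)
  rw [cst _ _ _ fun x _ => tr x] at e2
  rw [Set.ncard_univ, half, ← cst Set.univ (fun _ => (Fx K Ω).ncard) _ fun _ _ => rfl, mul_assoc, e2,
    finsum_mem_eq_finite_toFinset_sum _ (Set.toFinite _),
    finsum_mem_eq_finite_toFinset_sum _ (Set.toFinite _), Finset.mul_sum] at e1
  refine (Finset.sum_lt_sum (fun g _ => key g) ⟨1, by simp, ?_⟩).ne' e1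
  simp only [one_smul, and_self, Set.ofPred_mem_eq]
  omega

/-- **Cliques.**  `n = 2 f`, `F' = F \ {a, b}` (non-empty, `f - 2` points), `S = Fᶜ` (`f` points).
Each `x ∈ F'` has `(k+1)/2` neighbours in `S`; a point `y ∈ S` with a neighbour `x ∈ F'` has exactly
`(k+1)/2` neighbours in `F'` (the class of `x` meets `F` in `(k+1)/2` points).  Double counting: the
set `S₁` of such `y` has `f - 2` points, so `|S \ S₁| = 2`; but a point of `S \ S₁` and its `k ≥ 3`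
neighbours all lie in `S \ S₁`. -/
theorem clq [Finite Ω] {F : Set Ω} (half : Nat.card Ω = 2 * F.ncard) (three : 3 ≤ F.ncard)
    {a b : Ω} (ha : a ∈ F) (hb : b ∈ F) (hab : a ≠ b) (R : Ω → Ω → Prop) {k : ℕ} (hk : 3 ≤ k)
    (hO : ∀ x y, R x y → x ≠ a ∧ x ≠ b ∧ x ≠ y) (sy : ∀ x y, R x y → R y x)
    (tr : ∀ x y z, R x y → R y z → x ≠ z → R x z)
    (val : ∀ x, x ≠ a → x ≠ b → {y | R x y}.ncard = k)
    (vF : ∀ x ∈ F, x ≠ a → x ≠ b → 2 * ({y | R x y} ∩ F).ncard + 1 = k) : False := by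
  have c1 := Set.ncard_sdiff_add_ncard_of_subset (s := {a, b}) (t := F)
    (Set.insert_subset ha (Set.singleton_subset_iff.2 hb))
  rw [Set.ncard_pair hab] at c1
  obtain ⟨m, rfl⟩ : ∃ m, k = 2 * m + 1 := by
    obtain ⟨w, hw⟩ : (F \ {a, b}).Nonempty := Set.nonempty_of_ncard_ne_zero (by omega)
    exact ⟨_, (vF w hw.1 (fun e => hw.2 (Or.inl e)) fun e => hw.2 (Or.inr e)).symm⟩
  let S₁ : Set Ω := {y | y ∉ F ∧ ∃ x ∈ F, R x y}
  have e := dc' (F \ {a, b}) S₁ R (m := m + 1) (n := m + 1) (fun x hx => by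
    have xa : x ≠ a := fun e => hx.2 (Or.inl e)
    have xb : x ≠ b := fun e => hx.2 (Or.inr e)
    have c1 := Set.ncard_inter_add_ncard_sdiff_eq_ncard {y | R x y} F
    have c2 := val x xa xb
    have c3 := vF x hx.1 xa xb
    have : {y | y ∈ S₁ ∧ R x y} = {y | R x y} \ F :=
      Set.ext fun y => ⟨fun k => ⟨k.2, k.1.1⟩, fun k => ⟨⟨k.2, x, hx.1, k.1⟩, k.1⟩⟩
    rw [this]
    omega) (by
    rintro y ⟨hy, x, hx, r⟩
    have c3 := vF x hx (hO x y r).1 (hO x y r).2.1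
    have : {u | u ∈ F \ {a, b} ∧ R u y} = insert x ({y | R x y} ∩ F) := by
      ext u
      refine ⟨fun k => ?_, ?_⟩
      · by_cases ux : u = x
        · exact Or.inl ux
        · exact Or.inr ⟨tr x y u r (sy _ _ k.2) (Ne.symm ux), k.1.1⟩
      · have : ∀ u ∈ F, R u y → u ∈ F \ {a, b} ∧ R u y := fun u hu k =>
          ⟨⟨hu, fun e => e.elim (hO u y k).1 (hO u y k).2.1⟩, k⟩
        rintro (rfl | k)
        · exact this _ hx r
        · exact this _ k.2 (tr u x y (sy _ _ k.1) r fun e => hy (e ▸ k.2))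
    rw [this, Set.ncard_insert_of_notMem fun k => (hO x x k.1).2.2 rfl]
    omega)
  have e1 := Nat.eq_of_mul_eq_mul_right (Nat.succ_pos m) e
  have c2 := Set.ncard_sdiff_add_ncard_of_subset (s := S₁) (t := Fᶜ) fun y hy => hy.1
  have c3 := Set.ncard_add_ncard_compl F
  obtain ⟨y, hy⟩ : (Fᶜ \ S₁).Nonempty := Set.nonempty_of_ncard_ne_zero (by omega)
  have c4 := val y (fun e => hy.1 (e ▸ ha)) fun e => hy.1 (e ▸ hb)
  have c5 : {z | R y z} ⊆ Fᶜ \ S₁ := fun z hz =>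
    ⟨fun k => hy.2 ⟨hy.1, z, k, sy _ _ hz⟩, fun ⟨_, x, hx, r⟩ =>
      hy.2 ⟨hy.1, x, hx, tr x z y r (sy _ _ hz) fun e => hy.1 (e ▸ hx)⟩⟩
  have := Set.ncard_le_ncard c5
  omega

end CL.Pron
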