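import Cfsg.Agent.PERM.Pron.D1
import Cfsg.Agent.PERM.Pron.Sqs

set_option autoImplicit false

namespace CL.Pron

open MulAction

variable {G : Type} [Group G] {Ω : Type} [MulAction G Ω]

namespace Twx

/-- odd 4-tuples -/
def Q (G : Type) [Group G] [MulAction G Ω] (a b c x : Ω) : Prop :=
  D4 a b c x ∧ Odd (o4 G a b c x).ncard

/-- even 4-tuples -/
def P (G : Type) [Group G] [MulAction G Ω] (a b c x : Ω) : Prop :=
  D4 a b c x ∧ ¬ Odd (o4 G a b c x).ncard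

theorem o4_smul (g : G) (a b c x : Ω) :
    o4 G (g • a) (g • b) (g • c) (g • x) = (fun y => g • y) '' o4 G a b c x := by
  ext y
  constructor
  · rintro ⟨h, hh, rfl⟩
    obtain ⟨h1, h2, h3⟩ := mem_S3.1 hh
    refine ⟨(g⁻¹ * h * g) • x, ⟨_, mem_S3.2 ⟨?_, ?_, ?_⟩, rfl⟩, by simp [mul_smul]⟩ <;>
      simp [mul_smul, h1, h2, h3]
  · rintro ⟨_, ⟨h, hh, rfl⟩, rfl⟩
    obtain ⟨h1, h2, h3⟩ := mem_S3.1 hh
    refine ⟨g * h * g⁻¹, mem_S3.2 ⟨?_, ?_, ?_⟩, by simp [mul_smul]⟩ <;>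
      simp [mul_smul, h1, h2, h3]

theorem sz_smul (g : G) (a b c x : Ω) :
    (o4 G (g • a) (g • b) (g • c) (g • x)).ncard = (o4 G a b c x).ncard := by
  rw [o4_smul, Set.ncard_image_of_injective _ (MulAction.injective g)]

theorem d4_smul (g : G) (a b c x : Ω) : D4 (g • a) (g • b) (g • c) (g • x) ↔ D4 a b c x := by
  simp [D4]

theorem q_smul (g : G) (a b c x : Ω) : Q G (g • a) (g • b) (g • c) (g • x) ↔ Q G a b c x := by
  unfold Q; rw [sz_smul, d4_smul]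

theorem p_smul (g : G) (a b c x : Ω) : P G (g • a) (g • b) (g • c) (g • x) ↔ P G a b c x := by
  unfold P; rw [sz_smul, d4_smul]

theorem s12 (a b c : Ω) : S3 G b a c = S3 G a b c := by
  ext g; simp only [mem_S3]; tauto

theorem s23 (a b c : Ω) : S3 G a c b = S3 G a b c := by
  ext g; simp only [mem_S3]; tauto

theorem Q.sw12 {a b c x : Ω} (h : Q G a b c x) : Q G b a c x := by
  obtain ⟨⟨h1, h2, h3, h4, h5, h6⟩, h⟩ := h
  exact ⟨⟨h1.symm, h4, h5, h2, h3, h6⟩, by unfold o4 at h ⊢; rwa [s12]⟩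

theorem Q.sw23 {a b c x : Ω} (h : Q G a b c x) : Q G a c b x := by
  obtain ⟨⟨h1, h2, h3, h4, h5, h6⟩, h⟩ := h
  exact ⟨⟨h2, h1, h3, h4.symm, h6, h5⟩, by unfold o4 at h ⊢; rwa [s23]⟩

theorem P.sw12 {a b c x : Ω} (h : P G a b c x) : P G b a c x := by
  obtain ⟨⟨h1, h2, h3, h4, h5, h6⟩, h⟩ := h
  exact ⟨⟨h1.symm, h4, h5, h2, h3, h6⟩, by unfold o4 at h ⊢; rwa [s12]⟩

theorem P.sw23 {a b c x : Ω} (h : P G a b c x) : P G a c b x := by
  obtain ⟨⟨h1, h2, h3, h4, h5, h6⟩, h⟩ := h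
  exact ⟨⟨h2, h1, h3, h4.symm, h6, h5⟩, by unfold o4 at h ⊢; rwa [s23]⟩

theorem sz_mul (H : Subgroup G) (x : Ω) :
    (orb H x).ncard * H.index = (stabilizer G x ⊓ H).index := by
  have e : orb H x = orbit H x := by
    ext y
    exact ⟨fun ⟨h, hh, e⟩ => ⟨⟨h, hh⟩, e⟩, fun ⟨h, e⟩ => ⟨h.1, h.2, e⟩⟩
  rw [e, ← MulAction.index_stabilizer, ← Subgroup.relIndex_mul_index (inf_le_right : _ ⊓ H ≤ H),
    Subgroup.inf_relIndex_right]
  rfl

theorem idx_smul (g : G) (a b c : Ω) :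
    (S3 G (g • a) (g • b) (g • c)).index = (S3 G a b c).index := by
  have : S3 G a b c = (S3 G (g • a) (g • b) (g • c)).comap (MulAut.conj g).toMonoidHom := by
    ext h
    simp [mem_S3, mul_smul]
  rw [this, Subgroup.index_comap_of_surjective _ (MulAut.conj g).surjective]

theorem sz34 [Finite G] (t3 : T3 G Ω) {a b c x : Ω} (h : D4 a b c x) :
    (o4 G a b x c).ncard = (o4 G a b c x).ncard := by
  obtain ⟨h1, h2, h3, h4, h5, h6⟩ := h
  obtain ⟨g, e1, e2, e3⟩ := t3 a b c a b x ⟨h1, h2, h4⟩ ⟨h1, h3, h5⟩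
  have i := idx_smul g a b c
  rw [e1, e2, e3] at i
  have m1 := sz_mul (S3 G a b c) x
  have m2 := sz_mul (S3 G a b x) c
  have e : stabilizer G c ⊓ S3 G a b x = stabilizer G x ⊓ S3 G a b c := by
    ext g; simp only [Subgroup.mem_inf, mem_S3, mem_stabilizer_iff]; tauto
  rw [e, ← m1, i] at m2
  exact Nat.eq_of_mul_eq_mul_right (Nat.pos_of_ne_zero Subgroup.index_ne_zero_of_finite) m2

theorem Q.sw34 [Finite G] (t3 : T3 G Ω) {a b c x : Ω} (h : Q G a b c x) : Q G a b x c := by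
  obtain ⟨hd, h⟩ := h
  refine ⟨?_, by rwa [sz34 t3 hd]⟩
  obtain ⟨h1, h2, h3, h4, h5, h6⟩ := hd
  exact ⟨h1, h3, h2, h5, h4, h6.symm⟩

theorem fix_q {a b c x : Ω} {g : G} (hg : g ∈ S3 G a b c) : Q G a b c (g • x) ↔ Q G a b c x := by
  obtain ⟨h1, h2, h3⟩ := mem_S3.1 hg
  conv_lhs => rw [← h1, ← h2, ← h3]
  exact q_smul g a b c x

theorem fix_p {a b c x : Ω} {g : G} (hg : g ∈ S3 G a b c) : P G a b c (g • x) ↔ P G a b c x := by
  obtain ⟨h1, h2, h3⟩ := mem_S3.1 hg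
  conv_lhs => rw [← h1, ← h2, ← h3]
  exact p_smul g a b c x

/-- the image of a set given by an invariant condition -/
theorem ncard_smul (g : G) {U V : Set Ω} (h : ∀ x, g • x ∈ V ↔ x ∈ U) : V.ncard = U.ncard := by
  have : V = (fun y => g • y) '' U := by
    ext y
    constructor
    · intro hy
      exact ⟨g⁻¹ • y, (h _).1 (by simpa using hy), by simp⟩
    · rintro ⟨x, hx, rfl⟩
      exact (h x).2 hx
  rw [this, Set.ncard_image_of_injective _ (MulAction.injective g)]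

theorem dc [Finite Ω] {U V : Set Ω} (R : Ω → Ω → Prop) {m n : ℕ}
    (h1 : ∀ x ∈ U, ({y | R x y} ∩ V).ncard = m) (h2 : ∀ y ∈ V, ({x | R x y} ∩ U).ncard = n) :
    U.ncard * m = V.ncard * n := by
  classical
  have := Finset.card_mul_eq_card_mul (s := U.toFinite.toFinset) (t := V.toFinite.toFinset)
    (m := m) (n := n) R
    (fun x hx => by
      rw [← h1 x (by simpa using hx), Set.ncard_eq_toFinset_card _ (Set.toFinite _)]
      congr 1; ext y; simp [and_comm])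
    (fun y hy => by
      rw [← h2 y (by simpa using hy), Set.ncard_eq_toFinset_card _ (Set.toFinite _)]
      congr 1; ext x; simp [and_comm])
  rwa [← Set.ncard_eq_toFinset_card, ← Set.ncard_eq_toFinset_card] at this

theorem arith {k k2 f1 f2 mu mu' : ℕ} (hk : 3 ≤ k) (e1 : 2 * f1 + 1 = k) (e2 : 2 * f2 + 2 = k2)
    (p1 : k * (k - 1) = k2 * mu) (p2 : f1 * (f1 - 1) = f2 * mu') (h3 : 3 * mu ≤ k)
    (alt : mu' = mu ∨ (2 * mu' + 1 ≤ mu ∧ 2 ≤ mu)) : False := by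
  subst e1 e2
  obtain ⟨t, rfl⟩ : ∃ t, f1 = t + 1 := ⟨f1 - 1, by omega⟩
  simp only [Nat.add_sub_cancel] at p1 p2
  have p1' : (2 * t + 3) * (t + 1) = (f2 + 1) * mu := by nlinarith
  rcases alt with rfl | ⟨a1, a2⟩
  · nlinarith
  · have b1 : f2 + mu ≤ 3 * (t + 1) := by nlinarith [Nat.mul_le_mul_left f2 a1]
    have b2 : 3 * (t + 1) * mu ≤ (f2 + 1) * mu := by
      nlinarith [Nat.mul_le_mul_left (t + 1) h3]
    have b3 := Nat.le_of_mul_le_mul_right b2 (by omega)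
    omega

end Twx

open Twx in
/-- **Two orbits on 4-tuples, one odd and one even.**  `sz a b c x = |o4 a b c x|` is
`G`-invariant and symmetric in the four places (`sz * |G_abcx| = |G_abc|`, and `|G_abc|` is the same
for all triples by `t3`).  `Q a b c x := D4 a b c x ∧ Odd sz`; `Γ₁(abc) = {x | Q a b c x}` is one
orbit of size `k` (odd), the rest `Γ₂(abc)` one orbit of size `k₂` (even), `k`, `k₂` independent
of the triple; all non-`Q` 4-tuples are `G`-conjugate.  For `a b c ∈ F`, `d1` gives `k ≥ 3` and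
`G_abc` 2-transitive on `Γ₁` (so for all triples).  If `Q a b x y` for some `x ≠ y` in `Γ₁(abc)`
then for all, for all triples: `clq` with `R = Q a b`.  So: no triangles
`Q abcx, Q abcy, Q abxy`.  For `e ∈ Γ₂(abc)`, `M(ab;c,e) = Γ₁(abc) ∩ Γ₁(abe)` has constant size `μ`,
`k (k-1) = k₂ μ` (paths `c - x - e`), and `3 μ ≤ k` (`M(ab;c,e)`, `M(ac;b,e)`, `M(bc;a,e)` are
disjoint in `Γ₁(abc)`: a common `x` is a triangle for the pair `a x` etc.).  `M(ab;c,e)` is one orbit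
of `G_abce` (map `x` to `x'` in `G_abc`, then use 2-transitivity of `G_abx'` on `Γ₁(abx') ∋ c`).
For `a b c ∈ F`: `|Γ₁ ∩ F| = (k-1)/2 = f₁`, `|Γ₂ ∩ F| = (k₂-2)/2 = f₂`, `μ' = |M(ab;c,e) ∩ F|` is the
same for all `e ∈ Γ₂ ∩ F` (`Pn.witt`), and `f₂ μ' = f₁ (f₁ - 1)` (paths in `F`).  `k₂ ≥ 3 (k-1)`.
If `M ⊆ F`: `μ' = μ`, `4 μ = (k-1)(k+3) > 4k/3`.  Else `ih` gives `2 μ' + 1 ≤ μ` and `μ ≥ 2` (a
one-point orbit of `G_abce ≥ K` lies in `F`): `(k-1)(k-3) ≤ (k₂-2)(μ-1)`, so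
`k₂ + 2 μ ≤ 3k - 1`, `μ ≤ 1`. -/
theorem two [Finite G] [Finite Ω] {K : Subgroup G} (T : Top K Ω)
    (h1 : ∀ a b c x y : Ω, D4 a b c x → D4 a b c y →
      (Odd (o4 G a b c x).ncard ↔ Odd (o4 G a b c y).ncard) → y ∈ o4 G a b c x)
    (h2 : ∀ a b c : Ω, D3 a b c → ∃ x y, D4 a b c x ∧ D4 a b c y ∧
      Odd (o4 G a b c x).ncard ∧ ¬ Odd (o4 G a b c y).ncard)
    (h3 : ∀ a ∈ Fx K Ω, ∀ b ∈ Fx K Ω, ∀ c ∈ Fx K Ω, ∀ x, D4 a b c x →
      ¬ o4 G a b c x ⊆ Fx K Ω ∧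
      (Odd (o4 G a b c x).ncard → df K (o4 G a b c x) = 1) ∧
      (¬ Odd (o4 G a b c x).ncard → df K (o4 G a b c x) = 2)) : False := by
  have t3 := T.t3
  have q34 : ∀ {a b c x : Ω}, Q G a b c x → Q G a b x c := fun h => h.sw34 t3
  -- the two orbits
  have oq : ∀ {a b c x : Ω}, Q G a b c x → o4 G a b c x = {y | Q G a b c y} := by
    intro a b c x h
    ext y
    constructor
    · rintro ⟨g, hg, rfl⟩
      exact (fix_q hg).2 h
    · intro hy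
      exact h1 a b c x y h.1 hy.1 (iff_of_true h.2 hy.2)
  have op : ∀ {a b c x : Ω}, P G a b c x → o4 G a b c x = {y | P G a b c y} := by
    intro a b c x h
    ext y
    constructor
    · rintro ⟨g, hg, rfl⟩
      exact (fix_p hg).2 h
    · intro hy
      exact h1 a b c x y h.1 hy.1 (iff_of_false h.2 hy.2)
  obtain ⟨a, b, c, ha, hb, hc, hab, hac, hbc⟩ :=
    (Set.two_lt_ncard_iff (Set.toFinite (Fx K Ω))).1 T.three
  have d3 : D3 a b c := ⟨hab, hac, hbc⟩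
  obtain ⟨k, hk⟩ : ∃ k, {y | Q G a b c y}.ncard = k := ⟨_, rfl⟩
  obtain ⟨k2, hk2⟩ : ∃ k, {y | P G a b c y}.ncard = k := ⟨_, rfl⟩
  have ck : ∀ a' b' c' : Ω, D3 a' b' c' → {y | Q G a' b' c' y}.ncard = k := by
    intro a' b' c' d
    obtain ⟨g, rfl, rfl, rfl⟩ := t3 a b c a' b' c' d3 d
    rw [← hk]
    exact ncard_smul g fun x => q_smul g a b c x
  have pn3 : ∀ {a b c : Ω}, a ∈ Fx K Ω → b ∈ Fx K Ω → c ∈ Fx K Ω → K ≤ S3 G a b c :=
    fun ha hb hc g hg => mem_S3.2 ⟨ha g hg, hb g hg, hc g hg⟩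
  have le_n : ∀ U : Set Ω, U.ncard ≤ Nat.card Ω := fun U => by
    rw [← Set.ncard_univ]; exact Set.ncard_le_ncard (Set.subset_univ _)
  -- triples in `F`
  have fq : ∀ a' ∈ Fx K Ω, ∀ b' ∈ Fx K Ω, ∀ c' ∈ Fx K Ω, D3 a' b' c' →
      2 * ({y | Q G a' b' c' y} ∩ Fx K Ω).ncard + 1 = k := by
    intro a' ha' b' hb' c' hc' d
    obtain ⟨x, -, dx, -, ox, -⟩ := h2 a' b' c' d
    have := (h3 a' ha' b' hb' c' hc' x dx).2.1 ox
    rw [oq ⟨dx, ox⟩] at this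
    unfold df at this
    have := ck a' b' c' d
    omega
  obtain ⟨x0, y0, dx0, dy0, ox0, oy0⟩ := h2 a b c d3
  have fp : 2 * ({y | P G a b c y} ∩ Fx K Ω).ncard + 2 = k2 := by
    have := (h3 a ha b hb c hc y0 dy0).2.2 oy0
    rw [op ⟨dy0, oy0⟩] at this
    unfold df at this
    omega
  obtain ⟨k3, -, tw0⟩ := d1 T.ih (T.pn.mono (pn3 ha hb hc) le_top) (orb_orb (S3 G a b c) x0)
    (le_n _) (h3 a ha b hb c hc x0 dx0).1 ((h3 a ha b hb c hc x0 dx0).2.1 ox0)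
  change 3 ≤ (o4 G a b c x0).ncard at k3
  change Two _ (o4 G a b c x0) at tw0
  rw [oq ⟨dx0, ox0⟩] at k3 tw0
  rw [hk] at k3
  -- 2-transitivity for all triples, in a joint form
  have tw : ∀ {a₁ b₁ c₁ x₁ y₁ a₂ b₂ c₂ x₂ y₂ : Ω}, Q G a₁ b₁ c₁ x₁ → Q G a₁ b₁ c₁ y₁ → x₁ ≠ y₁ →
      Q G a₂ b₂ c₂ x₂ → Q G a₂ b₂ c₂ y₂ → x₂ ≠ y₂ →
      ∃ g : G, g • a₁ = a₂ ∧ g • b₁ = b₂ ∧ g • c₁ = c₂ ∧ g • x₁ = x₂ ∧ g • y₁ = y₂ := by
    intro a₁ b₁ c₁ x₁ y₁ a₂ b₂ c₂ x₂ y₂ p1 p2 n1 r1 r2 n2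
    obtain ⟨g, e1, e2, e3⟩ := t3 a₁ b₁ c₁ a b c ⟨p1.1.1, p1.1.2.1, p1.1.2.2.2.1⟩ d3
    obtain ⟨h, f1, f2, f3⟩ := t3 a₂ b₂ c₂ a b c ⟨r1.1.1, r1.1.2.1, r1.1.2.2.2.1⟩ d3
    have m : ∀ {g : G} {a' b' c' x : Ω}, g • a' = a → g • b' = b → g • c' = c →
        Q G a' b' c' x → g • x ∈ {y | Q G a b c y} := by
      intro g a' b' c' x e1 e2 e3 q
      rw [← e1, ← e2, ← e3]
      exact (q_smul g _ _ _ _).2 q
    obtain ⟨s, hs, s1, s2⟩ := tw0 _ (m e1 e2 e3 p1) _ (m e1 e2 e3 p2) _ (m f1 f2 f3 r1) _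
      (m f1 f2 f3 r2) (fun e => n1 (MulAction.injective g e)) (fun e => n2 (MulAction.injective h e))
    obtain ⟨u1, u2, u3⟩ := mem_S3.1 hs
    refine ⟨h⁻¹ * s * g, ?_, ?_, ?_, ?_, ?_⟩ <;> rw [mul_smul, mul_smul, inv_smul_eq_iff]
    · rw [e1, u1, f1]
    · rw [e2, u2, f2]
    · rw [e3, u3, f3]
    · exact s1
    · exact s2
  by_cases tri : ∃ a' b' c' x y : Ω, Q G a' b' c' x ∧ Q G a' b' c' y ∧ Q G a' b' x y
  · obtain ⟨a', b', c', x, y, q1, q2, q3⟩ := tri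
    refine clq T.half T.three ha hb hab (Q G a b) k3
      (fun x y h => ⟨h.1.2.1.symm, h.1.2.2.2.1.symm, h.1.2.2.2.2.2⟩) (fun x y h => q34 h)
      (fun u v w h h' n => ?_) (fun u n1 n2 => ck a b u ⟨hab, n1.symm, n2.symm⟩)
      (fun u hu n1 n2 => fq a ha b hb u hu ⟨hab, n1.symm, n2.symm⟩)
    obtain ⟨g, e1, e2, -, e4, e5⟩ := tw q1 q2 q3.1.2.2.2.2.2 (q34 h) h' n
    rw [← e1, ← e2, ← e4, ← e5]
    exact (q_smul g _ _ _ _).2 q3
  have nt : ∀ {a' b' c' x y : Ω}, Q G a' b' c' x → Q G a' b' c' y → ¬ Q G a' b' x y :=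
    fun q1 q2 q3 => tri ⟨_, _, _, _, _, q1, q2, q3⟩
  -- the constant `μ`
  obtain ⟨mu, hmu⟩ : ∃ m, ({y | Q G a b c y} ∩ {y | Q G a b y0 y}).ncard = m := ⟨_, rfl⟩
  have cm : ∀ {a' b' c' e : Ω}, P G a' b' c' e →
      ({y | Q G a' b' c' y} ∩ {y | Q G a' b' e y}).ncard = mu := by
    intro a' b' c' e p
    obtain ⟨g, e1, e2, e3⟩ := t3 a' b' c' a b c ⟨p.1.1, p.1.2.1, p.1.2.2.2.1⟩ d3
    have p' : P G a b c (g • e) := by
      rw [← e1, ← e2, ← e3]; exact (p_smul g _ _ _ _).2 p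
    obtain ⟨s, hs, e4⟩ := (op p').ge (⟨dy0, oy0⟩ : P G a b c y0)
    obtain ⟨u1, u2, u3⟩ := mem_S3.1 hs
    have f1 : (s * g) • a' = a := by rw [mul_smul, e1, u1]
    have f2 : (s * g) • b' = b := by rw [mul_smul, e2, u2]
    have f3 : (s * g) • c' = c := by rw [mul_smul, e3, u3]
    have f4 : (s * g) • e = y0 := by rw [mul_smul, e4]
    rw [← hmu]
    refine (ncard_smul (s * g) (U := {y | Q G a' b' c' y} ∩ {y | Q G a' b' e y}) fun x => ?_).symm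
    have i1 := q_smul (s * g) a' b' c' x
    have i2 := q_smul (s * g) a' b' e x
    rw [f1, f2, f3] at i1
    rw [f1, f2, f4] at i2
    exact and_congr i1 i2
  have nb : ∀ x, Q G a b c x → {e | Q G a b x e} ∩ {e | P G a b c e} = {e | Q G a b x e} \ {c} := by
    intro x q
    ext e
    constructor
    · rintro ⟨u, v⟩
      exact ⟨u, v.1.2.2.2.2.2.symm⟩
    · rintro ⟨u, v⟩
      have d : D4 a b c e := ⟨hab, hac, u.1.2.2.1, hbc, u.1.2.2.2.2.1, fun e => v e.symm⟩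
      exact ⟨u, d, fun o => nt (q34 q) u ⟨d, o⟩⟩
  have nb2 : ∀ e, {x | Q G a b x e} = {x | Q G a b e x} := fun e => Set.ext fun x => ⟨q34, q34⟩
  have path : k * (k - 1) = k2 * mu := by
    rw [← hk2]
    conv_lhs => rw [← hk]
    refine dc (Q G a b) (fun x q => ?_) (fun e p => ?_)
    · rw [nb x q, Set.ncard_sdiff_singleton_of_mem (s := {e | Q G a b x e}) (q34 q),
        ck a b x ⟨hab, q.1.2.2.1, q.1.2.2.2.2.1⟩, hk]
    · rw [nb2, Set.inter_comm, cm p]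
  have three : 3 * mu ≤ k := by
    have p : P G a b c y0 := ⟨dy0, oy0⟩
    have c1 := cm p
    have c2 := cm p.sw23
    have c3 := cm p.sw12.sw23
    have j1 : Disjoint ({y | Q G a b c y} ∩ {y | Q G a b y0 y})
        ({y | Q G a c b y} ∩ {y | Q G a c y0 y}) := by
      refine Set.disjoint_left.2 fun x ⟨u1, u2⟩ ⟨_, u4⟩ => ?_
      exact nt (q34 u1).sw23 (q34 u2).sw23 (q34 u4).sw23
    have j2 : Disjoint (({y | Q G a b c y} ∩ {y | Q G a b y0 y}) ∪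
        ({y | Q G a c b y} ∩ {y | Q G a c y0 y})) ({y | Q G b c a y} ∩ {y | Q G b c y0 y}) := by
      refine Set.disjoint_left.2 fun x u ⟨u3, u4⟩ => ?_
      rcases u with ⟨u1, u2⟩ | ⟨u1, u2⟩
      · exact nt (q34 (Q.sw12 u1)).sw23 (q34 (Q.sw12 u2)).sw23 (q34 u4).sw23
      · exact nt (q34 (Q.sw12 u1)).sw23 (q34 (Q.sw12 u2)).sw23 (q34 (Q.sw12 u4)).sw23
    have := Set.ncard_le_ncard (t := {y | Q G a b c y})
      (s := (({y | Q G a b c y} ∩ {y | Q G a b y0 y}) ∪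
        ({y | Q G a c b y} ∩ {y | Q G a c y0 y})) ∪ ({y | Q G b c a y} ∩ {y | Q G b c y0 y})) (by
      rintro x ((u | u) | u)
      · exact u.1
      · exact Q.sw23 u.1
      · exact Q.sw12 (Q.sw23 u.1))
    rw [Set.ncard_union_eq j2, Set.ncard_union_eq j1] at this
    omega
  obtain ⟨e0, pe0, he0⟩ : ({y | P G a b c y} ∩ Fx K Ω).Nonempty := by
    refine Set.nonempty_of_ncard_ne_zero fun z => ?_
    rw [z] at fp
    subst fp
    obtain ⟨t, rfl⟩ : ∃ t, k = t + 1 := ⟨k - 1, by omega⟩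
    simp only [Nat.add_sub_cancel] at path
    nlinarith
  obtain ⟨M, hM⟩ : ∃ M, M = {y | Q G a b c y} ∩ {y | Q G a b e0 y} := ⟨_, rfl⟩
  have cm' : ∀ e ∈ {y | P G a b c y} ∩ Fx K Ω,
      ({y | Q G a b c y} ∩ {y | Q G a b e y} ∩ Fx K Ω).ncard = (M ∩ Fx K Ω).ncard := by
    rintro e ⟨pe, he⟩
    obtain ⟨s, hs, e4⟩ := (op pe0).ge pe
    obtain ⟨u1, u2, u3⟩ := mem_S3.1 hs
    obtain ⟨n, -, nK, en⟩ := T.pn.witt (Subgroup.mem_top s) (D := {a, b, c, e0})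
      (by rintro x (rfl | rfl | rfl | rfl) <;> assumption)
      (by
        rintro x (rfl | rfl | rfl | rfl)
        · rwa [u1]
        · rwa [u2]
        · rwa [u3]
        · rwa [e4])
    have f1 : n • a = a := (en a (by simp)).trans u1
    have f2 : n • b = b := (en b (by simp)).trans u2
    have f3 : n • c = c := (en c (by simp)).trans u3
    have f4 : n • e0 = e := (en e0 (by simp)).trans e4
    rw [hM]
    refine ncard_smul n fun x => and_congr (and_congr (fix_q (mem_S3.2 ⟨f1, f2, f3⟩)) ?_) (nz_fx nK x)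
    have := q_smul n a b e0 x
    rwa [f1, f2, f4] at this
  have f1 := fq a ha b hb c hc d3
  have path' : ({y | Q G a b c y} ∩ Fx K Ω).ncard * (({y | Q G a b c y} ∩ Fx K Ω).ncard - 1) =
      ({y | P G a b c y} ∩ Fx K Ω).ncard * (M ∩ Fx K Ω).ncard := by
    refine dc (Q G a b) (fun x q => ?_) (fun e p => ?_)
    · have := fq a ha b hb x q.2 ⟨hab, q.1.1.2.2.1, q.1.1.2.2.2.2.1⟩
      have e : ({e | Q G a b x e} \ {c}) ∩ Fx K Ω = ({e | Q G a b x e} ∩ Fx K Ω) \ {c} :=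
        Set.ext fun y => ⟨fun h => ⟨⟨h.1.1, h.2⟩, h.1.2⟩, fun h => ⟨⟨h.1.1, h.2⟩, h.1.2⟩⟩
      rw [← Set.inter_assoc, nb x q.1, e,
        Set.ncard_sdiff_singleton_of_mem (s := {e | Q G a b x e} ∩ Fx K Ω) ⟨q34 q.1, hc⟩]
      omega
    · rw [nb2, ← Set.inter_assoc, Set.inter_comm {x | Q G a b e x}, cm' e p]
  have cM : M.ncard = mu := hM ▸ cm pe0
  refine arith k3 f1 fp path path' three ?_
  by_cases sub : M ⊆ Fx K Ω
  · exact .inl (by rw [Set.inter_eq_left.2 sub, cM])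
  have KH : K ≤ S3 G a b c ⊓ stabilizer G e0 := le_inf (pn3 ha hb hc) he0
  have oM : Orb (S3 G a b c ⊓ stabilizer G e0) M := by
    subst hM
    rintro x ⟨u1, u2⟩
    ext x'
    constructor
    · rintro ⟨g, ⟨hg, ge⟩, rfl⟩
      obtain ⟨v1, v2, -⟩ := mem_S3.1 hg
      exact ⟨(fix_q hg).2 u1, (fix_q (mem_S3.2 ⟨v1, v2, ge⟩)).2 u2⟩
    · rintro ⟨v1, v2⟩
      obtain ⟨g, e1, e2, e3, e4, e5⟩ := tw (q34 u1) (q34 u2) pe0.1.2.2.2.2.2 (q34 v1) (q34 v2)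
        pe0.1.2.2.2.2.2
      exact ⟨g, ⟨mem_S3.2 ⟨e1, e2, e4⟩, e5⟩, e3⟩
  have lt : M.ncard < Nat.card Ω := by
    rw [← Set.ncard_univ]
    refine Set.ncard_lt_ncard ⟨Set.subset_univ _, fun h => ?_⟩
    have := h (Set.mem_univ a)
    rw [hM] at this
    exact this.1.1.2.2.1 rfl
  have := T.ih Ω _ M (T.pn.mono KH le_top) oM lt sub
  unfold df at this
  refine .inr ⟨by omega, by_contra fun h => sub fun x hx g hg => ?_⟩
  exact (Set.ncard_le_one_iff (Set.toFinite M)).1 (by omega) (D1.inv oM (KH hg) hx) hx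

end CL.Pron
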